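/-
Involutions in the group ³D₄(q): certificates in the Chevalley group of type D4 in characteristic two.
-/
import Cfsg.Agent.Lib.ChInv.Main
import Cfsg.Agent.Lib.Chev.T3D4

set_option autoImplicit false
set_option maxHeartbeats 0
set_option maxRecDepth 100000

namespace Cfsg.Agent.Lib.Chev

open Cfsg.Lie

/-- The additive function on the roots. -/
def muD4 : List ℤ := [55831,57662,28861,28832]

theorem chkSLD4 : chkSL digD4.tbl (fun i => muD4.getD i 0) = true := by decide +kernel

theorem chkTFD4 : chkTF digD4.tbl = true := by decide +kernel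

/-- The columns of the rank certificate, 0. -/
def rCD40 : List ℕ := [25,0,1,2,3,4,6,7,8,9]

/-- The sums of columns of the rank certificate, 0. -/
def rFD40 : List (List ℕ) := [[0],[1],[2],[3],[4],[],[6],[7],[8],[9],[],[],[],[],[],[],[],[],[],[],[],[],[],[],[],[25],[],[]]

/-- The echelon form of the rank certificate, 0. -/
def rED40 : List (ℕ × List ℕ × List ℕ) :=
  [(23,[25],[23]),(22,[9],[22]),(21,[8],[21]),(20,[7],[20]),(19,[6],[19]),(17,[4],[17]),(16,[3],[16]),(15,[2],[15]),(14,[1],[14]),(27,[25,0],[24,26,27])]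

theorem chkUpD40 : chkUp digD4.tbl [23] rCD40 rFD40 = true := by decide +kernel

theorem chkLoD40 : chkLo digD4.tbl [23] rED40 = true := by decide +kernel

theorem rankD40 {F : Type*} [Field F] [CharP F 2] : (mL chevD4 F [23]).rank = 10 := by
  have hL : ∀ r ∈ ([23] : List ℕ), r < chevD4.nroots := by decide +kernel
  have h1 := good3D4.toGood2.rank_le (F := F) hL chkUpD40
  have h2 := good3D4.toGood2.rank_ge (F := F) hL chkLoD40
  have e1 : rCD40.length = 10 := by decide +kernel
  have e2 : rED40.length = 10 := by decide +kernel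
  omega

/-- The columns of the rank certificate, 1. -/
def rCD41 : List ℕ := [25,1,2,3,4,5,10,11,14,15,16,17]

/-- The sums of columns of the rank certificate, 1. -/
def rFD41 : List (List ℕ) := [[],[1],[2],[3],[4],[5],[2,3,4],[4],[4],[],[10],[11],[],[],[14],[15],[16],[17],[],[15,16,17],[17],[17],[],[],[],[25],[],[]]

/-- The echelon form of the rank certificate, 1. -/
def rED41 : List (ℕ × List ℕ × List ℕ) :=
  [(22,[14],[15,16,17,19,20,21,22]),(21,[14,15],[15,16,19,21]),(20,[14,16],[15,16,19,20]),(19,[14,15,16,17],[15,16,17,19]),(18,[25],[12,13,18]),(13,[25,5],[24,12,13]),(12,[25,5,10],[24,26,12]),(9,[1],[2,3,4,6,7,8,9]),(8,[1,2],[2,3,6,8]),(7,[1,3],[2,3,6,7]),(6,[1,2,3,4],[2,3,4,6]),(27,[25,5,10,11],[24,26,27])]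

theorem chkUpD41 : chkUp digD4.tbl [18,13,12] rCD41 rFD41 = true := by decide +kernel

theorem chkLoD41 : chkLo digD4.tbl [18,13,12] rED41 = true := by decide +kernel

theorem rankD41 {F : Type*} [Field F] [CharP F 2] : (mL chevD4 F [18,13,12]).rank = 12 := by
  have hL : ∀ r ∈ ([18,13,12] : List ℕ), r < chevD4.nroots := by decide +kernel
  have h1 := good3D4.toGood2.rank_le (F := F) hL chkUpD41
  have h2 := good3D4.toGood2.rank_ge (F := F) hL chkLoD41
  have e1 : rCD41.length = 12 := by decide +kernel
  have e2 : rED41.length = 12 := by decide +kernel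
  omega

end Cfsg.Agent.Lib.Chev
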