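/-
Involutions in the Chevalley group of type E6 in characteristic two: the certificates.
-/
import Cfsg.Agent.Lib.ChInv.Main
import Cfsg.Agent.Lib.Chev.T3E6

set_option autoImplicit false
set_option maxHeartbeats 0
set_option maxRecDepth 100000

namespace Cfsg.Agent.Lib.Chev

open Cfsg.Lie

/-- The additive function on the roots. -/
def muE6 : List ℤ := [99770522,77930283,126641044,153430566,102287105,51143554]

/-- The representatives. -/
def repsE6 : List (List ℕ) := [[71],[68,66],[55,65,67]]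

/-- The frame. -/
def frE6 : List ℕ := [37,42,46,53]

/-- The frame after the fusion. -/
def frE6' : List ℕ := [42,46,53]

/-- The fusing word. -/
def gwE6 : List ℕ := [40,32,28,24]

/-- The certificates at the nodes of the tree. -/
def certsE6 : List (List ℕ × List ℕ × List ℕ) :=
  [([71],[],[]),([71,60],[2,3,1],[]),([71,60,44],[0,2,3,1,0],[]),([71,60,44,39],[5,0,2,3,4,3,2,1,3,0,2,0],[])]

theorem chkSLE6 : chkSL digE6.tbl (fun i => muE6.getD i 0) = true := by decide +kernel

theorem chkTFE6 : chkTF digE6.tbl = true := by decide +kernel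

theorem chkTreeE6 : chkTree digE6.tbl (nodeOK digE6.tbl certsE6 repsE6 frE6) 7 (List.range digE6.tbl.l) [] = true := by decide +kernel

theorem chkWE6 : digE6.tbl.chkWEq 2 (wL gwE6 ++ wL frE6) (wL frE6' ++ wL gwE6) = true := by decide +kernel

theorem chkCCE6 : chkCC digE6.tbl frE6 gwE6 = true := by decide +kernel

/-- The columns of the rank certificate, 0. -/
def rCE60 : List ℕ := [73,0,1,2,3,4,5,6,7,8,9,10,16,17,18,19,20,21,22,23,24,25]

/-- The sums of columns of the rank certificate, 0. -/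
def rFE60 : List (List ℕ) := [[0],[1],[2],[3],[4],[5],[6],[7],[8],[9],[10],[],[],[],[],[],[16],[17],[18],[19],[20],[21],[22],[23],[24],[25],[],[],[],[],[],[],[],[],[],[],[],[],[],[],[],[],[],[],[],[],[],[],[],[],[],[],[],[],[],[],[],[],[],[],[],[],[],[],[],[],[],[],[],[],[],[],[],[73],[],[],[],[]]

/-- The echelon form of the rank certificate, 0. -/
def rEE60 : List (ℕ × List ℕ × List ℕ) :=
  [(71,[73],[71]),(70,[25],[70]),(69,[24],[69]),(68,[23],[68]),(67,[22],[67]),(66,[21],[66]),(65,[20],[65]),(64,[19],[64]),(63,[18],[63]),(62,[17],[62]),(61,[16],[61]),(55,[10],[55]),(54,[9],[54]),(53,[8],[53]),(52,[7],[52]),(51,[6],[51]),(50,[5],[50]),(49,[4],[49]),(48,[3],[48]),(47,[2],[47]),(46,[1],[46]),(77,[73,0],[72,75,77])]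

theorem chkUpE60 : chkUp digE6.tbl [71] rCE60 rFE60 = true := by decide +kernel

theorem chkLoE60 : chkLo digE6.tbl [71] rEE60 = true := by decide +kernel

/-- The columns of the rank certificate, 1. -/
def rCE61 : List ℕ := [72,74,0,1,2,3,4,5,6,7,8,9,10,11,12,13,14,15,16,17,19,21,22,26,28,29,30,33,35,37,40,48]

/-- The sums of columns of the rank certificate, 1. -/
def rFE61 : List (List ℕ) := [[0],[1],[2],[3],[4],[5],[6],[7],[8],[9],[10],[11],[12],[13],[14],[15],[16],[17],[],[19],[],[21],[22],[21],[],[],[26],[],[28],[29],[30],[28],[],[33],[29],[35],[],[37],[],[],[40],[],[37],[40],[],[],[],[],[48],[],[48],[],[],[],[],[],[],[],[],[],[],[],[],[],[],[],[],[],[],[],[],[],[72],[],[74],[],[74],[72,74]]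

/-- The echelon form of the rank certificate, 1. -/
def rEE61 : List (ℕ × List ℕ × List ℕ) :=
  [(71,[11],[48,50,71]),(70,[8],[40,43,70]),(69,[6],[37,42,69]),(68,[74],[66,68]),(67,[35],[67]),(66,[72],[66]),(65,[2],[29,34,65]),(64,[33],[64]),(63,[1],[28,31,63]),(62,[30],[62]),(61,[26],[61]),(60,[0],[21,23,60]),(59,[22],[59]),(58,[19],[58]),(57,[17],[57]),(56,[16],[56]),(55,[15],[55]),(54,[14],[54]),(52,[13],[52]),(50,[11,48],[48,50]),(49,[12],[49]),(45,[10],[45]),(43,[8,40],[40,43]),(42,[6,37],[37,42]),(41,[9],[41]),(38,[7],[38]),(36,[4],[36]),(34,[2,29],[29,34]),(31,[1,28],[28,31]),(23,[0,21],[21,23]),(77,[72,74,3],[72,73,76,77]),(76,[74,3,5],[74,76])]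

theorem chkUpE61 : chkUp digE6.tbl [68,66] rCE61 rFE61 = true := by decide +kernel

theorem chkLoE61 : chkLo digE6.tbl [68,66] rEE61 = true := by decide +kernel

/-- The columns of the rank certificate, 2. -/
def rCE62 : List ℕ := [72,74,75,0,1,2,3,4,5,6,7,8,9,10,11,12,13,14,15,16,17,18,19,20,21,22,23,24,26,27,28,29,30,31,32,36,37,38]

/-- The sums of columns of the rank certificate, 2. -/
def rFE62 : List (List ℕ) := [[0],[1],[2],[3],[4],[5],[6],[7],[8],[9],[10],[11],[12],[13],[14],[15],[16],[17],[18],[19],[20],[21],[22],[23],[24],[],[26],[27],[28],[29],[30],[31],[32],[14],[15],[29],[36],[37],[38],[],[],[10,20,22],[36],[],[10,20,22],[],[],[],[],[13,27,30],[],[13,27,30],[],[],[],[],[37],[38],[10,20,22],[],[],[13,27,30],[],[],[],[],[],[],[],[],[],[],[72],[],[74],[75],[72],[74]]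

/-- The echelon form of the rank certificate, 2. -/
def rEE62 : List (ℕ × List ℕ × List ℕ) :=
  [(71,[1],[13,27,30,49,51,61,71]),(70,[0],[10,20,22,41,44,58,70]),(69,[18],[38,57,69]),(68,[7],[36,42,68]),(67,[74],[65,67]),(66,[17],[37,56,66]),(65,[72],[55,65]),(64,[3],[29,35,64]),(63,[32],[63]),(62,[28],[62]),(61,[1,13],[13,27,30,61]),(60,[24],[60]),(59,[21],[59]),(58,[0,10],[10,20,22,58]),(57,[18,38],[38,57]),(56,[17,37],[37,56]),(55,[72,75],[55]),(54,[5],[15,34,54]),(53,[2],[14,33,53]),(52,[31],[52]),(51,[1,27],[13,27,30,51]),(50,[12],[50]),(49,[1,30],[13,27,30,49]),(48,[26],[48]),(47,[11],[47]),(45,[23],[45]),(44,[0,20],[10,20,22,44]),(43,[9],[43]),(42,[7,36],[36,42]),(41,[0,22],[10,20,22,41]),(40,[19],[40]),(39,[8],[39]),(35,[3,29],[29,35]),(34,[5,15],[15,34]),(33,[2,14],[14,33]),(77,[75,6],[72,73,74,76,77]),(76,[74,75,4],[72,73,76]),(73,[72,74,75,4,6,16],[73])]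

theorem chkUpE62 : chkUp digE6.tbl [55,65,67] rCE62 rFE62 = true := by decide +kernel

theorem chkLoE62 : chkLo digE6.tbl [55,65,67] rEE62 = true := by decide +kernel

/-- The ranks of the representatives. -/
def rkE6 (rep : List ℕ) : ℕ := if rep = [71] then 22 else if rep = [68,66] then 32 else 38

theorem rankE60 {F : Type*} [Field F] [CharP F 2] : (mL chevE6 F [71]).rank = 22 := by
  have hL : ∀ r ∈ ([71] : List ℕ), r < chevE6.nroots := by decide +kernel
  have h1 := good3E6.toGood2.rank_le (F := F) hL chkUpE60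
  have h2 := good3E6.toGood2.rank_ge (F := F) hL chkLoE60
  have e1 : rCE60.length = 22 := by decide +kernel
  have e2 : rEE60.length = 22 := by decide +kernel
  omega

theorem rankE61 {F : Type*} [Field F] [CharP F 2] : (mL chevE6 F [68,66]).rank = 32 := by
  have hL : ∀ r ∈ ([68,66] : List ℕ), r < chevE6.nroots := by decide +kernel
  have h1 := good3E6.toGood2.rank_le (F := F) hL chkUpE61
  have h2 := good3E6.toGood2.rank_ge (F := F) hL chkLoE61
  have e1 : rCE61.length = 32 := by decide +kernel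
  have e2 : rEE61.length = 32 := by decide +kernel
  omega

theorem rankE62 {F : Type*} [Field F] [CharP F 2] : (mL chevE6 F [55,65,67]).rank = 38 := by
  have hL : ∀ r ∈ ([55,65,67] : List ℕ), r < chevE6.nroots := by decide +kernel
  have h1 := good3E6.toGood2.rank_le (F := F) hL chkUpE62
  have h2 := good3E6.toGood2.rank_ge (F := F) hL chkLoE62
  have e1 : rCE62.length = 38 := by decide +kernel
  have e2 : rEE62.length = 38 := by decide +kernel
  omega

theorem hrkE6 {F : Type*} [Field F] [CharP F 2] : ∀ rep ∈ repsE6, (mL chevE6 F rep).rank = rkE6 rep ∧ 0 < rkE6 rep := by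
  intro rep hrep
  simp only [repsE6, List.mem_cons, List.not_mem_nil, or_false] at hrep
  rcases hrep with rfl | rfl | rfl
  · exact ⟨rankE60, by decide⟩
  · exact ⟨rankE61, by decide⟩
  · exact ⟨rankE62, by decide⟩

theorem hrepsE6 : ∀ rep ∈ repsE6, (∀ r ∈ rep, r < chevE6.nroots) ∧ rep.Pairwise (Or2 chevE6) := by
  decide +kernel

theorem hinjE6 : ∀ a ∈ repsE6, ∀ b ∈ repsE6, rkE6 a = rkE6 b → a = b := by
  decide +kernel

theorem hconjE6 {F : Type*} [Field F] [Finite F] [CharP F 2] :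
    ∀ v ∈ chevE6.group F, v * v = 1 → v ≠ 1 → ∃ rep ∈ repsE6, ∃ h ∈ chevE6.group F, h * v * h⁻¹ = good3E6.toGood2.xL rep := by
  intro v hv h2 h1
  have hG := good3E6.toGood2
  have hn : chevE6.nroots / 2 < chevE6.nroots := by decide +kernel
  exact inv_conj_rep good3E6 (hG.slFacts _ hn chkSLE6) (hG.treeFacts chkTFE6) repsE6 frE6 frE6' gwE6 chkWE6 chkCCE6
    (by decide +kernel) (by decide +kernel) (by decide +kernel) (by decide +kernel) _ 7 chkTreeE6
    (fun A hA => Tbl.Good2.nodeOK_spec hA good3E6.correct.l_eq) hv h2 h1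

/-- The classes of involutions in type E6 in characteristic two. -/
theorem main3E6 {F : Type*} [Field F] [Fintype F] [CharP F 2] :
    (∀ y : GL chevE6.Idx F, (y : Matrix chevE6.Idx chevE6.Idx F) ∈ repsE6.map (fun rep => chevE6.wordMat F (rep.map fun r => (r, (1 : F)))) →
        y ∈ chevE6.group F ∧ orderOf y = 2) ∧
    (∀ g ∈ chevE6.group F, orderOf g = 2 → ∃ y ∈ chevE6.group F,
        (y : Matrix chevE6.Idx chevE6.Idx F) ∈ repsE6.map (fun rep => chevE6.wordMat F (rep.map fun r => (r, (1 : F)))) ∧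
        ∃ h ∈ chevE6.group F, h * g * h⁻¹ = y) ∧
    (∀ y₁ ∈ chevE6.group F, ∀ y₂ ∈ chevE6.group F,
        (y₁ : Matrix chevE6.Idx chevE6.Idx F) ∈ repsE6.map (fun rep => chevE6.wordMat F (rep.map fun r => (r, (1 : F)))) →
        (y₂ : Matrix chevE6.Idx chevE6.Idx F) ∈ repsE6.map (fun rep => chevE6.wordMat F (rep.map fun r => (r, (1 : F)))) →
        (∃ h ∈ chevE6.group F, h * y₁ * h⁻¹ = y₂) → (y₁ : Matrix chevE6.Idx chevE6.Idx F) = (y₂ : Matrix chevE6.Idx chevE6.Idx F)) :=
  final_three good3E6.toGood2 (good3E6.toGood2.treeFacts chkTFE6) repsE6 hrepsE6 rkE6 hrkE6 hinjE6 hconjE6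

/-- The number of classes of involutions in type E6 in characteristic two. -/
theorem countE6 {F : Type*} [Field F] [Fintype F] [CharP F 2] :
    (ConjClasses.mk '' {g : ↥(chevE6.group F) | orderOf g = 2}).ncard = repsE6.length :=
  final_count good3E6.toGood2 (good3E6.toGood2.treeFacts chkTFE6) repsE6 (by decide +kernel) hrepsE6 rkE6 hrkE6 hinjE6 hconjE6

end Cfsg.Agent.Lib.Chev
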