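/-
Involutions in Chevalley groups in characteristic two: reading coordinates of elements of unipotent groups from
matrix entries, and the decomposition of elements as ordered products.
-/
import Cfsg.Agent.Lib.ChInv.Main

set_option autoImplicit false

namespace Cfsg.Agent.Lib.Chev

open Cfsg.Lie

/-- The check for the decomposition along a list of roots. -/
def chkDec (D : ChevalleyDatum) : List ℕ → Bool
  | [] => true
  | r :: rest => (rest.all fun u => decide (u ≠ r) && decide (u ≠ D.neg r) && (D.commTerms r u).all fun c => rest.contains c.1) &&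
      chkDec D rest

section

variable {F : Type*} [Field F] {D : ChevalleyDatum} {T : Tbl}

/-- The weights of the entries of `x - 1`. -/
lemma x_sub_one_wt (hS : Sane D) {r : ℕ} (hr : r < D.nroots) (t : F) {row col : D.Idx}
    (h1 : (D.x F r t - 1) row col ≠ 0) :
    ∃ i : ℕ, 1 ≤ i ∧ ∀ π : ℕ → ℤ, AddF D π → wtI π row = wtI π col + i * π r := by
  rcases x_sub_one_support hS hr t row col h1 with ⟨i, rfl, rfl⟩ | ⟨s, rfl, hs, h2⟩ | ⟨s, u, rfl, rfl, q, hq, e2⟩
  · exact ⟨1, le_rfl, fun π _ => by simp [wtI]⟩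
  · rcases h2 with ⟨j, rfl⟩ | rfl
    · refine ⟨1, le_rfl, fun π hπ => ?_⟩
      simp only [wtI, hs, hπ.neg r hr]
      simp
    · refine ⟨2, by omega, fun π hπ => ?_⟩
      simp only [wtI, hs, hπ.neg r hr]
      push_cast
      ring
  · refine ⟨q.2 + 1, by omega, fun π hπ => ?_⟩
    simp only [wtI]
    rw [← e2, hπ.chain r s hr s.2 q hq]
    push_cast
    ring

/-- The block form of a matrix for a weight. -/
def Blk (π : ℕ → ℤ) (A : Matrix D.Idx D.Idx F) : Prop :=
  ∀ a b, wtI π a ≤ wtI π b → A a b = if a = b then 1 else 0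

lemma blk_one (π : ℕ → ℤ) : Blk π (1 : Matrix D.Idx D.Idx F) := by
  intro a b _
  rw [Matrix.one_apply]

lemma blk_mul {π : ℕ → ℤ} {A B : Matrix D.Idx D.Idx F} (hA : Blk π A) (hB : Blk π B) : Blk π (A * B) := by
  intro a b hab
  rw [Matrix.mul_apply, Finset.sum_eq_single a]
  · rw [hA a a le_rfl, if_pos rfl, one_mul]
    exact hB a b hab
  · intro m _ hm
    by_cases h : wtI π a ≤ wtI π m
    · rw [hA a m h, if_neg (Ne.symm hm), zero_mul]
    · have h1 : wtI π m ≤ wtI π b := by omega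
      have h2 : m ≠ b := by
        rintro rfl
        exact h hab
      rw [hB m b h1, if_neg h2, mul_zero]
  · simp

lemma blk_x (hS : Sane D) {π : ℕ → ℤ} (hπ : AddF D π) {r : ℕ} (hr : r < D.nroots) (hp : 1 ≤ π r) (t : F) :
    Blk π (D.x F r t) := by
  intro a b hab
  by_contra hne
  have h1 : (D.x F r t - 1) a b ≠ 0 := by
    rw [Matrix.sub_apply, Matrix.one_apply]
    exact sub_ne_zero.2 hne
  obtain ⟨i, hi, e⟩ := x_sub_one_wt hS hr t h1
  have h2 := e π hπ
  have h3 : (1 : ℤ) ≤ i := by exact_mod_cast hi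
  have h4 : 0 < (i : ℤ) * π r := by positivity
  omega

/-- The block form of the elements of a group generated by root elements. -/
lemma blk_gen (hG : T.Good2 D) {π : ℕ → ℤ} (hπ : AddF D π) {S : ℕ → Prop} (hSl : ∀ w, S w → w < D.nroots)
    (hS1 : ∀ w, S w → 1 ≤ π w) {g : GL D.Idx F} (hg : g ∈ rootsGen D F S) :
    Blk π (g : Matrix D.Idx D.Idx F) ∧ Blk π ((g⁻¹ : GL D.Idx F) : Matrix D.Idx D.Idx F) := by
  induction hg using Subgroup.closure_induction with
  | mem g hg =>
    obtain ⟨w, t, hw, e⟩ := hg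
    constructor
    · rw [e]
      exact blk_x hG.sane hπ (hSl w hw) (hS1 w hw) t
    · have hG' : ((g⁻¹ : GL D.Idx F) : Matrix D.Idx D.Idx F) = D.x F w (-t) := by
        rw [hG.eq_xU (hSl w hw) e, hG.xU_inv]
        rfl
      rw [hG']
      exact blk_x hG.sane hπ (hSl w hw) (hS1 w hw) (-t)
  | one =>
    exact ⟨blk_one π, by simpa using blk_one π⟩
  | mul a b _ _ ha hb =>
    constructor
    · rw [Units.val_mul]
      exact blk_mul ha.1 hb.1
    · rw [_root_.mul_inv_rev, Units.val_mul]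
      exact blk_mul hb.2 ha.2
  | inv a _ ha =>
    exact ⟨ha.2, by simpa using ha.1⟩

/-- Entries of weight one are additive on block matrices. -/
lemma blk_add {π : ℕ → ℤ} {A B : Matrix D.Idx D.Idx F} (hA : Blk π A) (hB : Blk π B) {row col : D.Idx}
    (h : wtI π row = wtI π col + 1) : (A * B) row col = A row col + B row col := by
  classical
  have hne : row ≠ col := by
    rintro rfl
    omega
  rw [Matrix.mul_apply, Finset.sum_eq_add row col hne]
  · rw [hA row row le_rfl, if_pos rfl, one_mul, hB col col le_rfl, if_pos rfl, mul_one, add_comm]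
  · rintro m _ ⟨h1, h2⟩
    by_cases h3 : wtI π row ≤ wtI π m
    · rw [hA row m h3, if_neg (Ne.symm h1), zero_mul]
    · have h4 : wtI π m ≤ wtI π col := by omega
      rw [hB m col h4, if_neg h2, mul_zero]
  · simp
  · simp

/-- The data of a coordinate read from a matrix entry. -/
structure RdD (D : ChevalleyDatum) (π : ℕ → ℤ) (r u s : ℕ) : Prop where
  hu : u < D.nroots
  hs : s < D.nroots
  hr : r < D.nroots
  addπ : AddF D π
  pr : π r = 1
  ce : ∃ m : ℤ, D.chainEntry r s = [(u, m)] ∧ Odd m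
  ne1 : s ≠ r
  ne2 : s ≠ D.neg r
  ne3 : u ≠ s

/-- The coordinate read from a matrix entry. -/
noncomputable def rdE (D : ChevalleyDatum) (F : Type*) [Field F] (u s : ℕ) (g : GL D.Idx F) : F :=
  if h : u < D.nroots ∧ s < D.nroots then (g : Matrix D.Idx D.Idx F) (Sum.inr ⟨u, h.1⟩) (Sum.inr ⟨s, h.2⟩) else 0

namespace Tbl.Good2

variable (hG : T.Good2 D)
include hG

lemma rd_wt {π : ℕ → ℤ} {r u s : ℕ} (h : RdD D π r u s) :
    wtI (D := D) π (Sum.inr ⟨u, h.hu⟩) = wtI (D := D) π (Sum.inr ⟨s, h.hs⟩) + 1 := by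
  obtain ⟨m, hc, _⟩ := h.ce
  have h1 := hG.chain_one h.addπ h.hr h.hs hc
  simp only [wtI]
  rw [h1, h.pr]

/-- The coordinate is additive. -/
lemma rd_mul {π : ℕ → ℤ} {r u s : ℕ} (h : RdD D π r u s) {S : ℕ → Prop} (hSl : ∀ w, S w → w < D.nroots)
    (hS1 : ∀ w, S w → 1 ≤ π w) {g g' : GL D.Idx F} (hg : g ∈ rootsGen D F S) (hg' : g' ∈ rootsGen D F S) :
    rdE D F u s (g * g') = rdE D F u s g + rdE D F u s g' := by
  have e : u < D.nroots ∧ s < D.nroots := ⟨h.hu, h.hs⟩
  unfold rdE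
  rw [dif_pos e, dif_pos e, dif_pos e, Units.val_mul]
  exact blk_add (blk_gen hG h.addπ hSl hS1 hg).1 (blk_gen hG h.addπ hSl hS1 hg').1 (hG.rd_wt h)

omit hG in
lemma rd_one {π : ℕ → ℤ} {r u s : ℕ} (h : RdD D π r u s) : rdE D F u s 1 = 0 := by
  have e : u < D.nroots ∧ s < D.nroots := ⟨h.hu, h.hs⟩
  unfold rdE
  rw [dif_pos e, Units.val_one, Matrix.one_apply_ne]
  intro h0
  have := Sum.inr.inj h0
  exact h.ne3 (congrArg Fin.val this)

lemma rd_inv {π : ℕ → ℤ} {r u s : ℕ} (h : RdD D π r u s) {S : ℕ → Prop} (hSl : ∀ w, S w → w < D.nroots)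
    (hS1 : ∀ w, S w → 1 ≤ π w) {g : GL D.Idx F} (hg : g ∈ rootsGen D F S) :
    rdE D F u s g⁻¹ = - rdE D F u s g := by
  have h1 := hG.rd_mul h hSl hS1 hg (Subgroup.inv_mem _ hg)
  rw [mul_inv_cancel, rd_one h] at h1
  exact (neg_eq_of_add_eq_zero_right h1.symm).symm

lemma rd_conj_self {π : ℕ → ℤ} {r u s : ℕ} (h : RdD D π r u s) {S : ℕ → Prop} (hSl : ∀ w, S w → w < D.nroots)
    (hS1 : ∀ w, S w → 1 ≤ π w) {g v : GL D.Idx F} (hg : g ∈ rootsGen D F S) (hv : v ∈ rootsGen D F S) :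
    rdE D F u s (g * v * g⁻¹) = rdE D F u s v := by
  rw [hG.rd_mul h hSl hS1 (Subgroup.mul_mem _ hg hv) (Subgroup.inv_mem _ hg), hG.rd_mul h hSl hS1 hg hv,
    hG.rd_inv h hSl hS1 hg]
  ring

/-- The coordinate of a root element. -/
lemma rd_x [CharP F 2] {π L : ℕ → ℤ} {r u s : ℕ} (h : RdD D π r u s) (hSL : SLFacts D L) {w : ℕ} (hw : w < D.nroots)
    (hπw : 1 ≤ π w) (t : F) : rdE D F u s (hG.xU hw t) = if w = r then t else 0 := by
  have e : u < D.nroots ∧ s < D.nroots := ⟨h.hu, h.hs⟩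
  obtain ⟨m, hc, hm⟩ := h.ce
  unfold rdE
  rw [dif_pos e, hG.xU_coe]
  by_cases hwr : w = r
  · subst hwr
    rw [if_pos rfl, x_chain_entry (hG := hG) hw h.hs h.hu hc h.ne1 h.ne2 h.ne3, odd_cast_char_two hm, one_mul]
  · rw [if_neg hwr]
    by_contra h0
    rcases x_entry_wt hG.sane hw t h0 with h1 | ⟨i, hi, e1⟩
    · have := Sum.inr.inj h1
      exact h.ne3 (congrArg Fin.val this)
    · have h2 := e1 π h.addπ
      have h3 := e1 L hSL.addL
      simp only [wtI] at h2 h3
      have h4 := hG.chain_one h.addπ h.hr h.hs hc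
      have h5 := hG.chain_one hSL.addL h.hr h.hs hc
      rw [h4, h.pr] at h2
      have h6 : (i : ℤ) * π w = 1 := by omega
      have hi1 : (1 : ℤ) ≤ i := by exact_mod_cast hi
      have h7 : (i : ℤ) = 1 := by
        by_contra h8
        have h9 : (2 : ℤ) ≤ i := by omega
        nlinarith
      rw [h7, one_mul, h5] at h3
      exact hwr (L_inj hSL hw h.hr (by omega))

/-- The coordinate of a product of root elements. -/
lemma rd_gW [CharP F 2] {π L : ℕ → ℤ} {r u s : ℕ} (h : RdD D π r u s) (hSL : SLFacts D L) {S : ℕ → Prop}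
    (hSl : ∀ w, S w → w < D.nroots) (hS1 : ∀ w, S w → 1 ≤ π w) (l : List (ℕ × F)) (hl : ∀ e ∈ l, S e.1) :
    hG.gW l ∈ rootsGen D F S ∧ rdE D F u s (hG.gW l) = (l.map fun e => if e.1 = r then e.2 else 0).sum := by
  induction l with
  | nil => exact ⟨Subgroup.one_mem _, by simpa using rd_one h⟩
  | cons e l ih =>
    obtain ⟨h1, h2⟩ := ih fun a ha => hl a (List.mem_cons_of_mem _ ha)
    have he := hl e (by simp)
    have hx : hG.xU (hSl _ he) e.2 ∈ rootsGen D F S := Subgroup.subset_closure ⟨e.1, e.2, he, hG.xU_coe _ _⟩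
    rw [hG.gW_cons, hG.xN_of_lt (hSl _ he)]
    refine ⟨Subgroup.mul_mem _ hx h1, ?_⟩
    rw [hG.rd_mul h hSl hS1 hx h1, h2, hG.rd_x h hSL (hSl _ he) (hS1 _ he)]
    simp

/-- Decomposition along a list of roots. -/
lemma decomp_list : ∀ (Rs : List ℕ), (∀ r ∈ Rs, r < D.nroots) → chkDec D Rs = true →
    ∀ g ∈ rootsGen D F (fun w => w ∈ Rs), ∃ f : ℕ → F, g = hG.gW (Rs.map fun r => (r, f r)) := by
  intro Rs
  induction Rs with
  | nil =>
    intro _ _ g hg
    refine ⟨fun _ => 0, ?_⟩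
    have : rootsGen D F (fun w => w ∈ ([] : List ℕ)) = ⊥ := by
      rw [eq_bot_iff]
      refine (Subgroup.closure_le _).2 ?_
      rintro x ⟨r, t, hr, _⟩
      simp at hr
    rw [this] at hg
    rw [Subgroup.mem_bot.1 hg]
    simp [hG.gW_nil]
  | cons r rest ih =>
    intro hl hc g hg
    simp only [chkDec, Bool.and_eq_true, List.all_eq_true, decide_eq_true_eq] at hc
    obtain ⟨hc1, hc2⟩ := hc
    have hr : r < D.nroots := hl r (by simp)
    have hn : ∀ t : F, hG.xU hr t ∈ Subgroup.normalizer (rootsGen D F (fun w => w ∈ rest) : Set (GL D.Idx F)) :=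
      fun t => hG.xU_normalizes _ (fun u hu => hl u (List.mem_cons_of_mem _ hu)) hr (fun u hu => by
        obtain ⟨⟨h1, h2⟩, h3⟩ := hc1 u hu
        refine Or.inr ⟨h1, h2, fun c hc => ?_⟩
        exact List.contains_iff_mem.1 (h3 c hc)) t
    obtain ⟨t, u, hu, rfl⟩ := hG.gen_decomp hr (S := fun w => w ∈ r :: rest) (S' := fun w => w ∈ rest)
      (fun w hw => List.mem_cons.1 hw) hn hg
    obtain ⟨f, rfl⟩ := ih (fun a ha => hl a (List.mem_cons_of_mem _ ha)) hc2 u hu
    refine ⟨Function.update f r t, ?_⟩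
    rw [List.map_cons, hG.gW_cons]
    simp only [Function.update_self]
    rw [hG.xN_of_lt hr]
    congr 2
    apply List.map_congr_left
    intro a ha
    have : a ≠ r := (hc1 a ha).1.1
    rw [Function.update_of_ne this]

lemma gW_perm (hF : TreeFacts T D) {l l' : List (ℕ × F)} (hl : ∀ e ∈ l, e.1 < D.nroots)
    (hp : l.Pairwise fun a b => D.pairing a.1 b.1 = 0) (h : l.Perm l') : hG.gW l = hG.gW l' := by
  unfold Tbl.Good2.gW
  apply List.Perm.prod_eq' (h.map _)
  rw [List.pairwise_map]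
  refine List.Pairwise.imp_of_mem ?_ hp
  intro a b ha hb hab
  exact hG.xN_comm_orth hF (hl a ha) (hl b hb) hab a.2 b.2

/-- The coordinate in a list with orthogonal roots. -/
lemma mem_of_sum_ne {L : ℕ → ℤ} (hSL : SLFacts D L) {l : List (ℕ × F)} (hl : ∀ e ∈ l, PR D e.1)
    (hp : l.Pairwise fun a b => D.pairing a.1 b.1 = 0) {r : ℕ} (hr : PR D r)
    (h : (l.map fun e => if e.1 = r then e.2 else 0).sum ≠ 0) :
    (r, (l.map fun e => if e.1 = r then e.2 else 0).sum) ∈ l := by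
  induction l with
  | nil => simp at h
  | cons e l ih =>
    rw [List.pairwise_cons] at hp
    have hl' : ∀ a ∈ l, PR D a.1 := fun a ha => hl a (List.mem_cons_of_mem _ ha)
    by_cases he : e.1 = r
    · have h0 : (l.map fun e => if e.1 = r then e.2 else 0).sum = 0 := by
        apply List.sum_eq_zero
        intro x hx
        obtain ⟨a, ha, rfl⟩ := List.mem_map.1 hx
        have h1 := hp.1 a ha
        have : a.1 ≠ r := by
          intro h2
          rw [he, h2, hSL.self r hr] at h1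
          omega
        simp [this]
      simp only [List.map_cons, if_pos he, List.sum_cons, h0, add_zero]
      have : (r, e.2) = e := by
        rw [← he]
      rw [this]
      simp
    · simp only [List.map_cons, if_neg he, List.sum_cons, zero_add] at h ⊢
      exact List.mem_cons_of_mem _ (ih hl' hp.2 h)

omit hG in
lemma nodup_of_orth {L : ℕ → ℤ} (hSL : SLFacts D L) {l : List (ℕ × F)} (hl : ∀ e ∈ l, PR D e.1)
    (hp : l.Pairwise fun a b => D.pairing a.1 b.1 = 0) : l.Nodup := by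
  refine List.Pairwise.imp_of_mem ?_ hp
  intro a b ha _ hab hc
  subst hc
  rw [hSL.self a.1 (hl a ha)] at hab
  omega

end Tbl.Good2

namespace Tw

variable {hG : T.Good2 D} (A : Tw hG F)

/-- The coordinates under the automorphism. -/
lemma rd_sig [CharP F 2] {π L : ℕ → ℤ} {r u s u' s' : ℕ} (φ : F ≃+* F) (hf : ∀ w t, w < D.nroots → A.f w t = φ t)
    (h : RdD D π r u s) (h' : RdD D π (A.τ r) u' s') (hSL : SLFacts D L) {Z : ℕ → Prop} (hZl : ∀ w, Z w → w < D.nroots)
    (hZ1 : ∀ w, Z w → 1 ≤ π w) (hZτ : ∀ w, Z w → Z (A.τ w)) {g : GL D.Idx F} (hg : g ∈ rootsGen D F Z) :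
    rdE D F u' s' (A.sig g) = φ (rdE D F u s g) := by
  have hle : rootsGen D F Z ≤ D.group F := hG.rootsGen_le_group hZl
  induction hg using Subgroup.closure_induction with
  | mem g hg =>
    obtain ⟨w, t, hw, e⟩ := hg
    have hwl := hZl w hw
    have e1 : g = hG.xU hwl t := hG.eq_xU hwl e
    subst e1
    rw [A.sig_xU hwl, hG.rd_x h' hSL (A.τ_lt w hwl) (hZ1 _ (hZτ w hw)), hG.rd_x h hSL hwl (hZ1 w hw), hf w t hwl]
    by_cases hwr : w = r
    · subst hwr
      simp
    · have : A.τ w ≠ A.τ r := fun e => hwr (A.τ_inj w r hwl h.hr e)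
      simp [hwr, this]
  | one => rw [A.sig_one, Tbl.Good2.rd_one h', Tbl.Good2.rd_one h, map_zero]
  | mul a b ha hb iha ihb =>
    have hsa := A.sig_rootsGen (Q := Z) hZl hZτ ha
    have hsb := A.sig_rootsGen (Q := Z) hZl hZτ hb
    rw [A.sig_mul (hle ha) (hle hb), hG.rd_mul h' hZl hZ1 hsa hsb, iha, ihb, hG.rd_mul h hZl hZ1 ha hb, map_add]
  | inv a ha iha =>
    have hsa := A.sig_rootsGen (Q := Z) hZl hZτ ha
    rw [A.sig_inv (hle ha), hG.rd_inv h' hZl hZ1 hsa, iha, hG.rd_inv h hZl hZ1 ha, map_neg]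

end Tw

end

end Cfsg.Agent.Lib.Chev
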