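/-
Coprime action on unipotent subgroups: Glauberman's lemma for an automorphism of order three acting on a group of
order a power of two.
-/
import Cfsg.Agent.Lib.ChInv.Rd

set_option autoImplicit false

namespace Cfsg.Agent.Lib.Chev

open Cfsg.Lie

/-- A map of order dividing three has a fixed point if the cardinality is not divisible by three. -/
theorem exists_fixed_three {α : Type*} [Finite α] (f : α → α) (h3 : ∀ x, f (f (f x)) = x) (hn : ¬ 3 ∣ Nat.card α) :
    ∃ x, f x = x := by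
  classical
  haveI := Fintype.ofFinite α
  haveI : Fact (Nat.Prime 3) := ⟨Nat.prime_three⟩
  let f' : Function.End α := f
  have h1 : f' ^ 3 ^ 1 = 1 := by
    funext x
    exact h3 x
  have h2 := Equiv.Perm.card_fixedPoints_modEq h1
  by_contra hc
  have h4 : IsEmpty (Function.fixedPoints f') := ⟨fun x => hc ⟨x.1, x.2⟩⟩
  have h5 : Fintype.card (Function.fixedPoints f') = 0 := Fintype.card_eq_zero_iff.2 h4
  rw [h5] at h2
  apply hn
  rw [Nat.card_eq_fintype_card]
  exact (Nat.modEq_zero_iff_dvd).1 h2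

section

variable {F : Type*} [Field F] {D : ChevalleyDatum} {T : Tbl}

/-- The unipotent group is a `2`-group. -/
lemma isPGroup_U [Finite F] [CharP F 2] (hG : T.Good2 D) : IsPGroup 2 (D.posUnipotent F) := by
  haveI := Fintype.ofFinite F
  obtain ⟨n, _, hn⟩ := FiniteField.card F 2
  have h := hG.card_U (F := F)
  refine IsPGroup.of_card (n := n * (D.nroots / 2)) ?_
  rw [h, Nat.card_eq_fintype_card, hn, ← pow_mul]

namespace Tw

variable {hG : T.Good2 D} (A : Tw hG F)

/-- The third power of the automorphism on `U`. -/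
lemma sig3_U (φ : F ≃+* F) (hf : ∀ w t, w < D.nroots → A.f w t = φ t) (hφ : ∀ x, φ (φ (φ x)) = x)
    (hτ : ∀ r, r < D.nroots → A.τ (A.τ (A.τ r)) = r) {g : GL D.Idx F} (hg : g ∈ D.posUnipotent F) :
    A.sig (A.sig (A.sig g)) = g := by
  rw [Tw.U_eq_rootsGen] at hg
  induction hg using Subgroup.closure_induction with
  | mem g hg =>
    obtain ⟨r, t, hr, e⟩ := hg
    have hr1 : r < D.nroots := hr.1
    have e1 : g = hG.xU hr1 t := hG.eq_xU hr1 e
    subst e1
    rw [A.sig_xU hr1, A.sig_xU (A.τ_lt r hr1), A.sig_xU (A.τ_lt _ (A.τ_lt r hr1))]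
    rw [hf _ _ hr1, hf _ _ (A.τ_lt r hr1), hf _ _ (A.τ_lt _ (A.τ_lt r hr1)), hφ]
    exact hG.xU_congr _ _ (hτ r hr1) rfl
  | one => rw [A.sig_one, A.sig_one, A.sig_one]
  | mul a b ha hb iha ihb =>
    have hle : rootsGen D F D.IsPosRoot ≤ D.group F := hG.rootsGen_le_group (fun _ h => h.1)
    have hsU : ∀ {x}, x ∈ rootsGen D F D.IsPosRoot → A.sig x ∈ rootsGen D F D.IsPosRoot := by
      intro x hx
      rw [← Tw.U_eq_rootsGen] at hx ⊢
      exact A.sig_U hx
    rw [A.sig_mul (hle ha) (hle hb), A.sig_mul (hle (hsU ha)) (hle (hsU hb)),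
      A.sig_mul (hle (hsU (hsU ha))) (hle (hsU (hsU hb))), iha, ihb]
  | inv a ha iha =>
    have hle : rootsGen D F D.IsPosRoot ≤ D.group F := hG.rootsGen_le_group (fun _ h => h.1)
    have hsU : ∀ {x}, x ∈ rootsGen D F D.IsPosRoot → A.sig x ∈ rootsGen D F D.IsPosRoot := by
      intro x hx
      rw [← Tw.U_eq_rootsGen] at hx ⊢
      exact A.sig_U hx
    rw [A.sig_inv (hle ha), A.sig_inv (hle (hsU ha)), A.sig_inv (hle (hsU (hsU ha))), iha]

/-- Glauberman's lemma: fixed elements of `U` conjugate in `U` are conjugate by a fixed element of `U`. -/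
theorem glaub [Finite F] [CharP F 2] (h3 : ∀ g ∈ D.posUnipotent F, A.sig (A.sig (A.sig g)) = g)
    {v w g : GL D.Idx F} (hv : v ∈ D.posUnipotent F) (hvf : A.sig v = v) (hwf : A.sig w = w)
    (hg : g ∈ D.posUnipotent F) (e : g * v * g⁻¹ = w) :
    ∃ g' ∈ D.posUnipotent F ⊓ A.fix, g' * v * g'⁻¹ = w := by
  classical
  have hUG := hG.U_le_group (F := F)
  let X := {a : GL D.Idx F // a ∈ D.posUnipotent F ∧ a * v * a⁻¹ = w}
  let f : X → X := fun a => ⟨A.sig a.1, A.sig_U a.2.1, by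
    have h1 := A.sig_mul (Subgroup.mul_mem _ (hUG a.2.1) (hUG hv)) (Subgroup.inv_mem _ (hUG a.2.1))
    rw [A.sig_mul (hUG a.2.1) (hUG hv), A.sig_inv (hUG a.2.1), a.2.2, hwf, hvf] at h1
    exact h1.symm⟩
  let C : Subgroup (GL D.Idx F) := D.posUnipotent F ⊓ Subgroup.centralizer {v}
  have hC : IsPGroup 2 C := (isPGroup_U hG).to_le inf_le_left
  obtain ⟨n, hn⟩ := IsPGroup.iff_card.1 hC
  have hcard : Nat.card X = Nat.card C := by
    refine Nat.card_congr ⟨fun a => ⟨g⁻¹ * a.1, Subgroup.mul_mem _ (Subgroup.inv_mem _ hg) a.2.1, ?_⟩,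
      fun c => ⟨g * c.1, Subgroup.mul_mem _ hg (Subgroup.mem_inf.1 c.2).1, ?_⟩, ?_, ?_⟩
    · show g⁻¹ * a.1 ∈ Subgroup.centralizer {v}
      rw [Subgroup.mem_centralizer_singleton_iff]
      have h1 := a.2.2.trans e.symm
      have h2 : g⁻¹ * a.1 * v * (g⁻¹ * a.1)⁻¹ = v := by
        calc g⁻¹ * a.1 * v * (g⁻¹ * a.1)⁻¹ = g⁻¹ * (a.1 * v * a.1⁻¹) * g := by group
          _ = g⁻¹ * (g * v * g⁻¹) * g := by rw [h1]
          _ = v := by group
      rw [mul_inv_eq_iff_eq_mul] at h2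
      exact h2
    · have h1 : (c.1 : GL D.Idx F) ∈ Subgroup.centralizer {v} := (Subgroup.mem_inf.1 c.2).2
      rw [Subgroup.mem_centralizer_singleton_iff] at h1
      rw [← e]
      calc g * c.1 * v * (g * c.1)⁻¹ = g * (c.1 * v) * c.1⁻¹ * g⁻¹ := by group
        _ = g * (v * c.1) * c.1⁻¹ * g⁻¹ := by rw [h1]
        _ = g * v * g⁻¹ := by group
    · intro a
      apply Subtype.ext
      simp
    · intro c
      apply Subtype.ext
      simp
  obtain ⟨a, ha⟩ := exists_fixed_three f (fun a => Subtype.ext (h3 a.1 a.2.1)) (by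
    rw [hcard, hn]
    intro h
    have := Nat.prime_three.dvd_of_dvd_pow h
    omega)
  have ha' : A.sig a.1 = a.1 := congrArg Subtype.val ha
  exact ⟨a.1, ⟨a.2.1, hUG a.2.1, ha'⟩, a.2.2⟩

end Tw

end

end Cfsg.Agent.Lib.Chev
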