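/-
Involutions in Chevalley groups in characteristic two: the action of root elements on coordinates, and the Weyl group
and the torus on products of root elements.
-/
import Cfsg.Agent.Lib.ChInv.Glaub

set_option autoImplicit false

namespace Cfsg.Agent.Lib.Chev

open Cfsg.Lie

/-- The check of the action of a root element on the generators of a group. -/
def ActOK (D : ChevalleyDatum) (Zl : List ℕ) (a r r₂ : ℕ) : Bool :=
  Zl.all fun w => decide (w ≠ a) && ((D.commTerms a w).all fun c => Zl.contains c.1) &&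
    match D.commTerms w a with
    | [] => decide (w ≠ r₂)
    | [c] => decide (c.2.2.1 = 1) && decide (c.2.2.2 = 1) && decide (c.2.1 % 2 = 1) && decide (c.1 = r ↔ w = r₂) && Zl.contains c.1 &&
        decide (a ≠ c.1) && decide (D.commTerms c.1 a = [])
    | _ => false

section

variable {F : Type*} [Field F] {D : ChevalleyDatum} {T : Tbl}

namespace Tbl.Good2

variable (hG : T.Good2 D)
include hG

lemma act_norm {Zl : List ℕ} (hZ : ∀ w ∈ Zl, PR D w) {a r r₂ : ℕ} (ha : PR D a) (hchk : ActOK D Zl a r r₂ = true) (δ : F) :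
    hG.xU ha.1 δ ∈ Subgroup.normalizer (rootsGen D F (fun w => w ∈ Zl) : Set (GL D.Idx F)) := by
  unfold ActOK at hchk
  rw [List.all_eq_true] at hchk
  refine hG.xU_normalizes _ (fun w hw => (hZ w hw).1) ha.1 (fun w hw => ?_) δ
  have h1 := hchk w hw
  rw [Bool.and_eq_true, Bool.and_eq_true, decide_eq_true_eq, List.all_eq_true] at h1
  refine Or.inr ⟨h1.1.1, hG.pos_ne_neg (hZ w hw) ha, fun c hc => ?_⟩
  exact List.contains_iff_mem.1 (h1.1.2 c hc)

/-- The action of a root element on a coordinate. -/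
lemma rd_act [CharP F 2] {π L : ℕ → ℤ} {r u s : ℕ} (h : RdD D π r u s) (hSL : SLFacts D L) {Zl : List ℕ}
    (hZ : ∀ w ∈ Zl, PR D w) (hZ1 : ∀ w ∈ Zl, 1 ≤ π w) {a r₂ : ℕ} (ha : PR D a) (hchk : ActOK D Zl a r r₂ = true)
    (E : GL D.Idx F → F) (hE1 : ∀ g ∈ rootsGen D F (fun w => w ∈ Zl), ∀ g' ∈ rootsGen D F (fun w => w ∈ Zl), E (g * g') = E g + E g')
    (hE2 : ∀ w ∈ Zl, ∀ (hw : w < D.nroots) (t : F), E (hG.xU hw t) = if w = r₂ then t else 0) (δ : F) :
    ∀ q ∈ rootsGen D F (fun w => w ∈ Zl),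
      rdE D F u s (hG.xU ha.1 δ * q * (hG.xU ha.1 δ)⁻¹) = rdE D F u s q + δ * E q := by
  have hZl : ∀ w, w ∈ Zl → w < D.nroots := fun w hw => (hZ w hw).1
  have hn := hG.act_norm (F := F) hZ ha hchk δ
  have hE0 : E 1 = 0 := by
    have := hE1 1 (Subgroup.one_mem _) 1 (Subgroup.one_mem _)
    rw [mul_one] at this
    exact left_eq_add.1 this
  intro q hq
  induction hq using Subgroup.closure_induction with
  | mem g hg =>
    obtain ⟨w, t, hw, e⟩ := hg
    have hwp := hZ w hw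
    have hw1 := hZ1 w hw
    have e1 : g = hG.xU hwp.1 t := hG.eq_xU hwp.1 e
    subst e1
    unfold ActOK at hchk
    rw [List.all_eq_true] at hchk
    have h1 := hchk w hw
    rw [Bool.and_eq_true, Bool.and_eq_true, decide_eq_true_eq] at h1
    obtain ⟨⟨hne, _⟩, h2⟩ := h1
    rw [hE2 w hw hwp.1, hG.rd_x h hSL hwp.1 hw1]
    cases hc : D.commTerms w a with
    | nil =>
      rw [hc] at h2
      have hw2 : w ≠ r₂ := by simpa using h2
      have e2 := hG.xU_comm_nil hwp.1 ha.1 (Ne.symm hne) (hG.pos_ne_neg ha hwp) hc t δ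
      rw [e2, mul_inv_cancel_right, hG.rd_x h hSL hwp.1 hw1, if_neg hw2, mul_zero, add_zero]
    | cons c cs =>
      cases cs with
      | cons _ _ =>
        rw [hc] at h2
        simp at h2
      | nil =>
        rw [hc] at h2
        simp only [Bool.and_eq_true, decide_eq_true_eq] at h2
        obtain ⟨⟨⟨⟨⟨⟨h3, h4⟩, h5⟩, h6⟩, h7⟩, h8⟩, h9⟩ := h2
        obtain ⟨k, m, i, j⟩ := c
        simp only at h3 h4 h5 h6 h7 h8 h9
        subst h3
        subst h4
        have hk := List.contains_iff_mem.1 h7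
        have hkp := hZ k hk
        have hodd : Odd m := Int.odd_iff.2 h5
        have e2 := hG.xU_comm_one hwp ha hkp.1 (Ne.symm hne) hc hodd t δ
        have e4 := hG.xU_comm_nil hkp.1 ha.1 h8 (hG.pos_ne_neg ha hkp) h9 (t * δ) δ
        have e3 : hG.xU ha.1 δ * hG.xU hwp.1 t * (hG.xU ha.1 δ)⁻¹ = hG.xU hwp.1 t * hG.xU hkp.1 (t * δ) := by
          rw [e2, mul_assoc (hG.xU hwp.1 t), e4]
          group
        have hm1 : hG.xU hwp.1 t ∈ rootsGen D F (fun w => w ∈ Zl) := Subgroup.subset_closure ⟨w, _, hw, hG.xU_coe _ _⟩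
        have hm2 : hG.xU hkp.1 (t * δ) ∈ rootsGen D F (fun w => w ∈ Zl) := Subgroup.subset_closure ⟨k, _, hk, hG.xU_coe _ _⟩
        rw [e3, hG.rd_mul h hZl hZ1 hm1 hm2, hG.rd_x h hSL hwp.1 hw1, hG.rd_x h hSL hkp.1 (hZ1 k hk)]
        by_cases h10 : w = r₂
        · rw [if_pos (h6.2 h10), if_pos h10]
          ring
        · rw [if_neg (fun h11 => h10 (h6.1 h11)), if_neg h10]
          ring
  | one =>
    rw [mul_one, mul_inv_cancel, hE0, mul_zero, add_zero]
  | mul x y hx hy ihx ihy =>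
    have e : hG.xU ha.1 δ * (x * y) * (hG.xU ha.1 δ)⁻¹ =
        (hG.xU ha.1 δ * x * (hG.xU ha.1 δ)⁻¹) * (hG.xU ha.1 δ * y * (hG.xU ha.1 δ)⁻¹) := by group
    have hx' := (Subgroup.mem_normalizer_iff.1 hn x).1 hx
    have hy' := (Subgroup.mem_normalizer_iff.1 hn y).1 hy
    rw [e, hG.rd_mul h hZl hZ1 hx' hy', ihx, ihy, hG.rd_mul h hZl hZ1 hx hy, hE1 x hx y hy]
    ring
  | inv x hx ihx =>
    have e : hG.xU ha.1 δ * x⁻¹ * (hG.xU ha.1 δ)⁻¹ = (hG.xU ha.1 δ * x * (hG.xU ha.1 δ)⁻¹)⁻¹ := by group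
    have hx' := (Subgroup.mem_normalizer_iff.1 hn x).1 hx
    have hEi : E x⁻¹ = - E x := by
      have := hE1 x hx x⁻¹ (Subgroup.inv_mem _ hx)
      rw [mul_inv_cancel, hE0] at this
      exact (neg_eq_of_add_eq_zero_right this.symm).symm
    rw [e, hG.rd_inv h hZl hZ1 hx', ihx, hG.rd_inv h hZl hZ1 hx, hEi]
    ring

/-- Conjugation of root elements by a word in the Weyl group, in characteristic two. -/
lemma nProd_xN [CharP F 2] {l : List ℕ} (hl : ∀ i ∈ l, i < D.rank) {r : ℕ} (hr : r < D.nroots) (t : F) :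
    hG.nProd l * hG.xN r t * (hG.nProd l)⁻¹ = hG.xN (wperm T l r) t := by
  induction l with
  | nil => simp [wperm]
  | cons i l ih =>
    have hl' : ∀ j ∈ l, j < D.rank := fun j hj => hl j (List.mem_cons_of_mem _ hj)
    have hi := hl i (by simp)
    rw [hG.nProd_cons, hG.nE_eq hi, wperm_cons, ← hG.nU_xN hi (hG.wperm_lt hl' hr), ← ih hl']
    group

lemma nProd_gW [CharP F 2] {l : List ℕ} (hl : ∀ i ∈ l, i < D.rank) (e : List (ℕ × F)) (he : ∀ x ∈ e, x.1 < D.nroots) :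
    hG.nProd l * hG.gW e * (hG.nProd l)⁻¹ = hG.gW (e.map fun x => (wperm T l x.1, x.2)) := by
  induction e with
  | nil => simp
  | cons x e ih =>
    rw [List.map_cons, hG.gW_cons, hG.gW_cons, ← ih fun y hy => he y (List.mem_cons_of_mem _ hy),
      ← hG.nProd_xN hl (he x (by simp))]
    group

/-- The square of a product of root elements of orthogonal roots. -/
lemma gW_sq_perp [CharP F 2] (hF : TreeFacts T D) {l : List (ℕ × F)} (hl : ∀ e ∈ l, e.1 < D.nroots)
    (hp : l.Pairwise fun a b => D.pairing a.1 b.1 = 0) : hG.gW l * hG.gW l = 1 := by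
  induction l with
  | nil => simp
  | cons e l ih =>
    rw [List.pairwise_cons] at hp
    have he := hl e (by simp)
    have h1 : hG.xN e.1 e.2 * hG.xN e.1 e.2 = 1 := by
      rw [hG.xN_add he, add_self_char_two, hG.xN_zero]
    have hcomm : ∀ S : List (ℕ × F), (∀ s ∈ S, s.1 < D.nroots ∧ D.pairing e.1 s.1 = 0) →
        hG.xN e.1 e.2 * hG.gW S = hG.gW S * hG.xN e.1 e.2 := by
      intro S
      induction S with
      | nil => intro _; simp
      | cons s S ih2 =>
        intro hS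
        rw [hG.gW_cons, ← mul_assoc, hG.xN_comm_orth hF he (hS s (by simp)).1 (hS s (by simp)).2, mul_assoc,
          ih2 fun a ha => hS a (List.mem_cons_of_mem _ ha), mul_assoc]
    rw [hG.gW_cons]
    have h2 := hcomm l fun s hs => ⟨hl s (List.mem_cons_of_mem _ hs), hp.1 s hs⟩
    calc hG.xN e.1 e.2 * hG.gW l * (hG.xN e.1 e.2 * hG.gW l) = hG.xN e.1 e.2 * (hG.gW l * hG.xN e.1 e.2) * hG.gW l := by group
      _ = hG.xN e.1 e.2 * (hG.xN e.1 e.2 * hG.gW l) * hG.gW l := by rw [h2]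
      _ = (hG.xN e.1 e.2 * hG.xN e.1 e.2) * (hG.gW l * hG.gW l) := by group
      _ = 1 := by rw [h1, ih (fun s hs => hl s (List.mem_cons_of_mem _ hs)) hp.2]; simp

/-- The torus on products of root elements of orthogonal roots. -/
theorem torusH [Finite F] [CharP F 2] {L' : ℕ → ℤ} (hSL : SLFacts D L') :
    ∀ l : List (ℕ × F), (∀ e ∈ l, PR D e.1 ∧ e.2 ≠ 0) → l.Pairwise (fun a b => D.pairing a.1 b.1 = 0) →
      ∃ g ∈ D.diagonalSubgroup F, g * hG.gW l * g⁻¹ = hG.xL (l.map Prod.fst) ∧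
        ∀ w, w < D.nroots → (∀ e ∈ l, D.pairing e.1 w = 0) → ∀ t : F, g * hG.xN w t * g⁻¹ = hG.xN w t := by
  intro l
  induction l with
  | nil =>
    intro _ _
    exact ⟨1, Subgroup.one_mem _, by simp [hG.xL_nil], fun _ _ _ t => by simp⟩
  | cons e l ih =>
    intro h1 h2
    obtain ⟨r, c⟩ := e
    rw [List.pairwise_cons] at h2
    have h3 := h1 (r, c) (by simp)
    simp only at h3
    obtain ⟨hr, hc⟩ := h3
    obtain ⟨g', hg', e', hc'⟩ := ih (fun x hx => h1 x (List.mem_cons_of_mem _ hx)) h2.2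
    have hchar : ringChar F = 2 := ringChar.eq F 2
    haveI := Fintype.ofFinite F
    obtain ⟨s, hs⟩ := FiniteField.isSquare_of_char_two hchar c⁻¹
    have hs0 : s ≠ 0 := by
      rintro rfl
      rw [mul_zero] at hs
      exact inv_ne_zero hc hs
    have hH := hG.hU_mem (F := F) hr.1 hs0
    have hfix : ∀ w, w < D.nroots → D.pairing r w = 0 → ∀ t : F,
        hG.hU hr.1 hs0 * hG.xN w t * (hG.hU hr.1 hs0)⁻¹ = hG.xN w t := by
      intro w hw h0 t
      rw [hG.xN_of_lt hw, hG.hU_conj_x hr.1 hw hs0 t, h0]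
      simp
    have hfixL : ∀ L : List ℕ, (∀ w ∈ L, w < D.nroots ∧ D.pairing r w = 0) →
        hG.hU hr.1 hs0 * (hG.xL L : GL D.Idx F) * (hG.hU hr.1 hs0)⁻¹ = hG.xL L := by
      intro L
      induction L with
      | nil => intro _; simp [hG.xL_nil]
      | cons w L ih =>
        intro hL
        have e1 := ih (fun a ha => hL a (List.mem_cons_of_mem _ ha))
        have e2 := hfix w (hL w (by simp)).1 (hL w (by simp)).2 1
        rw [hG.xL_cons]
        calc hG.hU hr.1 hs0 * (hG.xN w 1 * hG.xL L) * (hG.hU hr.1 hs0)⁻¹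
            = (hG.hU hr.1 hs0 * hG.xN w 1 * (hG.hU hr.1 hs0)⁻¹) * (hG.hU hr.1 hs0 * hG.xL L * (hG.hU hr.1 hs0)⁻¹) := by group
          _ = _ := by rw [e2, e1]
    have hrr : hG.hU hr.1 hs0 * hG.xN r c * (hG.hU hr.1 hs0)⁻¹ = hG.xN r 1 := by
      rw [hG.xN_of_lt hr.1, hG.hU_conj_x hr.1 hr.1 hs0 c, hSL.self r hr, hG.xN_of_lt hr.1]
      congr 1
      have e3 : s ^ (2 : ℤ) = c⁻¹ := by
        rw [hs]
        exact zpow_two s
      rw [e3]
      exact inv_mul_cancel₀ hc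
    refine ⟨hG.hU hr.1 hs0 * g', Subgroup.mul_mem _ hH hg', ?_, ?_⟩
    · have hsym : ∀ x ∈ l, D.pairing x.1 r = 0 := fun x hx => by
        have hx' := h1 x (List.mem_cons_of_mem _ hx)
        rw [hSL.sym x.1 r hx'.1 hr]
        exact h2.1 x hx
      rw [hG.gW_cons, List.map_cons, hG.xL_cons]
      simp only
      have e5 := hc' r hr.1 (fun x hx => hsym x hx) c
      have e6 := hfixL (l.map Prod.fst) (fun w hw => by
        obtain ⟨x, hx, rfl⟩ := List.mem_map.1 hw
        exact ⟨(h1 x (List.mem_cons_of_mem _ hx)).1.1, h2.1 x hx⟩)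
      calc hG.hU hr.1 hs0 * g' * (hG.xN r c * hG.gW l) * (hG.hU hr.1 hs0 * g')⁻¹
          = hG.hU hr.1 hs0 * (g' * hG.xN r c * g'⁻¹) * (g' * hG.gW l * g'⁻¹) * (hG.hU hr.1 hs0)⁻¹ := by group
        _ = (hG.hU hr.1 hs0 * hG.xN r c * (hG.hU hr.1 hs0)⁻¹) * (hG.hU hr.1 hs0 * hG.xL (l.map Prod.fst) * (hG.hU hr.1 hs0)⁻¹) := by
          rw [e5, e']
          group
        _ = _ := by rw [hrr, e6]
    · intro w hw h5 t
      have e7 := hc' w hw (fun x hx => h5 x (List.mem_cons_of_mem _ hx)) t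
      have e8 := hfix w hw (h5 (r, c) (by simp)) t
      calc hG.hU hr.1 hs0 * g' * hG.xN w t * (hG.hU hr.1 hs0 * g')⁻¹
          = hG.hU hr.1 hs0 * (g' * hG.xN w t * g'⁻¹) * (hG.hU hr.1 hs0)⁻¹ := by group
        _ = _ := by rw [e7, e8]

end Tbl.Good2

end

end Cfsg.Agent.Lib.Chev
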