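/-
Involutions in unipotent subgroups of Chevalley groups in characteristic two, for root systems with two root lengths:
the facts used on the root system and the commutator formula.
-/
import Cfsg.Agent.Lib.ChInv.Rd2

set_option autoImplicit false

namespace Cfsg.Agent.Lib.Chev

open Cfsg.Lie

/-- The positive roots orthogonal to a list of roots. -/
def PA (D : ChevalleyDatum) (A : List ℕ) (w : ℕ) : Prop := PR D w ∧ ∀ a ∈ A, D.pairing a w = 0

/-- The term of the commutator of `r` and `z` with positive grade. -/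
def DTerm (D : ChevalleyDatum) (r z k i : ℕ) : Prop :=
  ∃ (l₁ l₂ : List (ℕ × ℤ × ℕ × ℕ)) (m : ℤ), D.commTerms r z = l₁ ++ (k, m, i, 1) :: l₂ ∧ (i : ℤ) = - D.pairing r z ∧ Odd m ∧
    ∀ q ∈ l₁ ++ l₂, Odd q.2.1 → D.pairing r q.1 ≤ 0

/-- A reflection moving the root `r` to a smaller root. -/
def ExW (T : Tbl) (D : ChevalleyDatum) (r k : ℕ) : Prop :=
  ∃ (W : List ℕ) (r' : ℕ), (∀ i ∈ W, i < D.rank) ∧ wperm T W r = r' ∧ r' < r ∧ PR D r' ∧
    (∀ w, PR D w → r < w → r' < wperm T W w) ∧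
    (∀ a, a < D.nroots → D.pairing r a = 0 → D.pairing k a = 0 → wperm T W a = a)

/-- The facts of a root system used in the elimination. -/
structure GF (T : Tbl) (D : ChevalleyDatum) (L : ℕ → ℤ) : Prop where
  addL : AddF D L
  mono : ∀ a b, a < b → b < D.nroots → L a < L b
  pos0 : 0 < L (D.nroots / 2)
  self : ∀ r, PR D r → D.pairing r r = 2
  orth : ∀ a b, a < D.nroots → b < D.nroots → D.pairing a b = 0 →
    D.pairing b a = 0 ∧ a ≠ b ∧ b ≠ D.neg a ∧ ∀ q ∈ D.commTerms a b, Even q.2.1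
  gneg : ∀ r z, PR D r → PR D z → r ≠ z → D.pairing r z < 0 → ∃ k i, PR D k ∧ DTerm D r z k i
  gnn : ∀ r z, PR D r → PR D z → r ≠ z → 0 ≤ D.pairing r z → ∀ q ∈ D.commTerms r z, Even q.2.1
  ent : ∀ k, PR D k → ∃ i, i < D.rank ∧ Odd (D.cartan i k)
  top : ∀ r k, PR D r → PR D k → r < k → 0 < D.pairing r k →
    (∃ d i, PR D d ∧ DTerm D r d k i) ∨ ExW T D r k

section

variable {F : Type*} [Field F] {D : ChevalleyDatum} {T : Tbl}

lemma even_cast_char_two [CharP F 2] {m : ℤ} (h : Even m) : (m : F) = 0 := by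
  obtain ⟨k, rfl⟩ := h
  push_cast
  exact add_self_char_two _

lemma chainR_add (hT : T.Correct D) {π : ℕ → ℤ} (hπ : AddF D π) {r s i k : ℕ} (hr : r < D.nroots) (hs : s < D.nroots)
    (hi : 1 ≤ i) (h : T.chainR r s i = some k) : π k = π s + i * π r := by
  unfold Tbl.chainR at h
  rw [hT.entry_eq r s hr hs, Option.map_eq_some_iff] at h
  obtain ⟨e, he, rfl⟩ := h
  have h1 := hπ.chain r s hr hs (e, i - 1) (by
    rw [List.mem_zipIdx_iff_getElem?]
    simpa using he)
  simp only at h1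
  rw [h1]
  have : ((i - 1 : ℕ) : ℤ) + 1 = i := by omega
  rw [this]

/-- The weights of the terms of the commutator formula. -/
lemma commT_add (hT : T.Correct D) (hS : Sane D) {π : ℕ → ℤ} (hπ : AddF D π) {r s : ℕ} (hr : r < D.nroots)
    (hs : s < D.nroots) : ∀ c ∈ T.commT r s, π c.1 = c.2.2.1 * π r + c.2.2.2 * π s := by
  intro c hc
  simp only [Tbl.commT, List.mem_filterMap, List.mem_cons, List.not_mem_nil, or_false,
    Option.map_eq_some_iff] at hc
  obtain ⟨cand, hcand, k, hk, rfl⟩ := hc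
  rcases hcand with rfl | rfl | rfl | rfl | rfl | rfl | rfl
  · have := chainR_add hT hπ hr hs (by omega) hk
    simp only
    rw [this]
    push_cast
    ring
  · have := chainR_add hT hπ hr hs (by omega) hk
    simp only
    rw [this]
    push_cast
    ring
  · have := chainR_add hT hπ hs hr (by omega) hk
    simp only
    rw [this]
    push_cast
    ring
  · have := chainR_add hT hπ hr hs (by omega) hk
    simp only
    rw [this]
    push_cast
    ring
  · have := chainR_add hT hπ hs hr (by omega) hk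
    simp only
    rw [this]
    push_cast
    ring
  · simp only [Option.bind_eq_some_iff] at hk
    obtain ⟨k0, h0, h1⟩ := hk
    have h2 := chainR_add hT hπ hr hs (by omega) h0
    have h3 := chainR_add hT hπ (Tbl.chainR_lt hT hS hr hs h0) hs (by omega) h1
    simp only
    rw [h3, h2]
    push_cast
    ring
  · simp only [Option.bind_eq_some_iff] at hk
    obtain ⟨k0, h0, h1⟩ := hk
    have h2 := chainR_add hT hπ hs hr (by omega) h0
    have h3 := chainR_add hT hπ (Tbl.chainR_lt hT hS hs hr h0) hr (by omega) h1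
    simp only
    rw [h3, h2]
    push_cast
    ring

lemma GF.L_pos {L : ℕ → ℤ} (hGF : GF T D L) {w : ℕ} (hw : PR D w) : 0 < L w := by
  rcases Nat.eq_or_lt_of_le hw.2 with e | e
  · rw [← e]
    exact hGF.pos0
  · exact hGF.pos0.trans (hGF.mono _ _ e hw.1)

lemma GF.L_inj {L : ℕ → ℤ} (hGF : GF T D L) {a b : ℕ} (ha : a < D.nroots) (hb : b < D.nroots) (h : L a = L b) : a = b := by
  rcases lt_trichotomy a b with e | e | e
  · have := hGF.mono _ _ e hb
    omega
  · exact e
  · have := hGF.mono _ _ e ha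
    omega

namespace Tbl.Good2

variable (hG : T.Good2 D)
include hG

lemma commTerms_add {π : ℕ → ℤ} (hπ : AddF D π) {r s : ℕ} (hr : r < D.nroots) (hs : s < D.nroots) :
    ∀ c ∈ D.commTerms r s, π c.1 = c.2.2.1 * π r + c.2.2.2 * π s := by
  intro c hc
  rw [commT_eq hG.correct hG.sane hr hs] at hc
  exact commT_add hG.correct hG.sane hπ hr hs c hc

lemma commTerms_ij {r s : ℕ} (hr : r < D.nroots) (hs : s < D.nroots) :
    ∀ c ∈ D.commTerms r s, 1 ≤ c.2.2.1 ∧ 1 ≤ c.2.2.2 := by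
  intro c hc
  rw [commT_eq hG.correct hG.sane hr hs] at hc
  exact commT_ij hc

/-- The word of the commutator formula as an element of the group. -/
lemma x_commG {r s : ℕ} (hr : r < D.nroots) (hs : s < D.nroots) (h1 : s ≠ r) (h2 : s ≠ D.neg r) (t u : F) :
    hG.xU hs u * hG.xU hr t = hG.xU hr t * hG.xU hs u * hG.gW (D.commWord F r s t u) := by
  apply Units.ext
  simp only [Units.val_mul, hG.xU_coe, hG.gW_coe]
  exact hG.x_comm hr hs h1 h2 t u

/-- Words of the terms of the commutator formula. -/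
lemma gW_terms_mem [CharP F 2] {S : ℕ → Prop} (l : List (ℕ × ℤ × ℕ × ℕ)) (hl : ∀ q ∈ l, q.1 < D.nroots)
    (h : ∀ q ∈ l, Odd q.2.1 → S q.1) (t u : F) :
    hG.gW (l.map fun c => (c.1, (c.2.1 : F) * (-t) ^ c.2.2.1 * u ^ c.2.2.2)) ∈ rootsGen D F S := by
  induction l with
  | nil => simp
  | cons q l ih =>
    rw [List.map_cons, hG.gW_cons]
    refine Subgroup.mul_mem _ ?_ (ih (fun a ha => hl a (List.mem_cons_of_mem _ ha)) (fun a ha => h a (List.mem_cons_of_mem _ ha)))
    simp only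
    rcases Int.even_or_odd q.2.1 with h1 | h1
    · rw [even_cast_char_two h1, zero_mul, zero_mul, hG.xN_zero]
      exact Subgroup.one_mem _
    · rw [hG.xN_of_lt (hl q (by simp))]
      exact Subgroup.subset_closure ⟨q.1, _, h q (by simp) h1, hG.xU_coe _ _⟩

/-- Commutator formula, all terms in a set. -/
lemma x_comm_mem [CharP F 2] {S : ℕ → Prop} {r s : ℕ} (hr : r < D.nroots) (hs : s < D.nroots) (h1 : s ≠ r) (h2 : s ≠ D.neg r)
    (h : ∀ q ∈ D.commTerms r s, Odd q.2.1 → S q.1) (t u : F) :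
    ∃ w ∈ rootsGen D F S, hG.xU hs u * hG.xU hr t = hG.xU hr t * hG.xU hs u * w :=
  ⟨_, hG.gW_terms_mem _ (hG.commTerms_lt hr hs) h t u, hG.x_commG hr hs h1 h2 t u⟩

/-- Version of the normaliser lemma in characteristic two. -/
lemma xU_normalizes2 [CharP F 2] (P : ℕ → Prop) (hP : ∀ u, P u → u < D.nroots) {r : ℕ} (hr : r < D.nroots)
    (h : ∀ u, P u → u = r ∨ (u ≠ r ∧ u ≠ D.neg r ∧ ∀ c ∈ D.commTerms r u, Odd c.2.1 → P c.1)) (t : F) :
    hG.xU hr t ∈ Subgroup.normalizer (rootsGen D F P : Set (GL D.Idx F)) := by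
  have key : ∀ t : F, ∀ x ∈ rootsGen D F P, (hG.xU hr t)⁻¹ * x * ((hG.xU hr t)⁻¹)⁻¹ ∈ rootsGen D F P := by
    intro t x hx
    refine conj_mem_of_gen _ ?_ hx
    rintro y ⟨s, u, hs, hy⟩
    have hs' := hP s hs
    rcases h s hs with rfl | ⟨h1, h2, h3⟩
    · have e : (hG.xU hr t)⁻¹ * y * ((hG.xU hr t)⁻¹)⁻¹ = y := by
        rw [inv_inv, hG.eq_xU hr hy, hG.xU_inv, hG.xU_mul, hG.xU_mul]
        congr 1
        ring
      rw [e]
      exact Subgroup.subset_closure ⟨s, u, hs, hy⟩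
    · obtain ⟨w, hw, hc'⟩ := hG.x_comm_mem (S := P) hr hs' h1 h2 h3 t u
      have e : (hG.xU hr t)⁻¹ * y * ((hG.xU hr t)⁻¹)⁻¹ = hG.xU hs' u * w := by
        rw [inv_inv, hG.eq_xU hs' hy, mul_assoc, hc', mul_assoc, inv_mul_cancel_left]
      rw [e]
      exact Subgroup.mul_mem _ (Subgroup.subset_closure ⟨s, u, hs, rfl⟩) hw
  refine mem_normalizer_of_conj ?_ ?_
  · intro x hx
    have := key (-t) x hx
    rwa [hG.xU_inv, _root_.neg_neg] at this
  · intro x hx
    have := key t x hx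
    rwa [inv_inv] at this

variable {L : ℕ → ℤ} {A : List ℕ}

/-- The root of a positive grade term. -/
lemma dterm_add {r z k i : ℕ} (hr : r < D.nroots) (hz : z < D.nroots) (h : DTerm D r z k i) {π : ℕ → ℤ} (hπ : AddF D π) :
    π k = i * π r + π z := by
  obtain ⟨l₁, l₂, m, e, -, -, -⟩ := h
  have h1 := hG.commTerms_add hπ hr hz (k, m, i, 1) (by rw [e]; simp)
  simp only at h1
  rw [h1]
  push_cast
  ring

lemma PA_add {a b : ℕ} (ha : PA D A a) (hb : PA D A b) (hne : a ≠ b) {q : ℕ × ℤ × ℕ × ℕ} (hq : q ∈ D.commTerms a b) :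
    PA D A q.1 := by
  have ho := hG.commTerms_order ha.1.1 hb.1.1 ha.1.2 hb.1.2 (Ne.symm hne) hq
  have hl := hG.commTerms_lt ha.1.1 hb.1.1 q hq
  refine ⟨⟨hl, by have := ha.1.2; omega⟩, fun x hx => ?_⟩
  rw [hG.commTerms_add (hG.addF_pairing x) ha.1.1 hb.1.1 q hq, ha.2 x hx, hb.2 x hx]
  simp

lemma cp_PA (A : List ℕ) : CP D (PA D A) where
  pos _ h := h.1
  add a b ha hb hne c hc := hG.PA_add ha hb hne hc
  sub r d k m hk hr hd hne h := by
    refine ⟨hd, fun x hx => ?_⟩
    have h1 := hG.commTerms_add (hG.addF_pairing x) hr.1.1 hd.1 (k, m, 1, 1) (by rw [h]; simp)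
    simp only at h1
    rw [hk.2 x hx, hr.2 x hx] at h1
    simp at h1
    omega

end Tbl.Good2

end

end Cfsg.Agent.Lib.Chev
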