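/-
Involutions in unipotent subgroups of Chevalley groups in characteristic two, for root systems with two root lengths:
the elimination.
-/
import Cfsg.Agent.Lib.ChInv.El2a

set_option autoImplicit false

namespace Cfsg.Agent.Lib.Chev

open Cfsg.Lie

/-- The roots of the groups in the second loop, now with two root lengths. -/
def T2 (D : ChevalleyDatum) (P : ℕ → Prop) (L : ℕ → ℤ) (r : ℕ) (n : ℤ) (w : ℕ) : Prop :=
  P w ∧ r < w ∧ (D.pairing r w = 0 ∨ (D.pairing r w < 0 ∧ n ≤ L w - D.pairing r w * L r))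

/-- The roots of the groups containing the conjugates in the second loop. -/
def S2 (D : ChevalleyDatum) (L : ℕ → ℤ) (r : ℕ) (n : ℤ) (w : ℕ) : Prop :=
  PR D w ∧ r < w ∧ (D.pairing r w ≤ 0 ∨ n < L w)

section

variable {F : Type*} [Field F] {D : ChevalleyDatum} {T : Tbl}

namespace Tbl.Good2

variable (hG : T.Good2 D) {L : ℕ → ℤ} {A : List ℕ}

/-- The result of the elimination. -/
def ResG (hG : T.Good2 D) (A : List ℕ) (v : GL D.Idx F) : Prop :=
  ∃ (l : List (ℕ × F)), ∃ g ∈ D.group F, (∀ a ∈ A, a < D.nroots → ∀ t : F, g * hG.xN a t * g⁻¹ = hG.xN a t) ∧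
    g * v * g⁻¹ = hG.gW l ∧ (∀ e ∈ l, PA D A e.1 ∧ e.2 ≠ 0) ∧ l.Pairwise (fun a b => D.pairing a.1 b.1 = 0)

include hG

lemma xU_sq [CharP F 2] {r : ℕ} (hr : r < D.nroots) (c : F) : hG.xU hr c * hG.xU hr c = 1 := by
  rw [hG.xU_mul, add_self_char_two, hG.xU_zero']

lemma xU_inv2 [CharP F 2] {r : ℕ} (hr : r < D.nroots) (c : F) : (hG.xU hr c)⁻¹ = hG.xU hr c :=
  inv_eq_of_mul_eq_one_left (hG.xU_sq hr c)

/-- The word of the commutator formula with its term of positive grade. -/
lemma dterm_word [CharP F 2] {S : ℕ → Prop} {r z k i : ℕ} (hr : r < D.nroots) (hz : z < D.nroots) (hk : k < D.nroots)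
    (h : DTerm D r z k i) (hS : ∀ q ∈ D.commTerms r z, D.pairing r q.1 ≤ 0 → S q.1) (c δ : F) :
    ∃ pre ∈ rootsGen D F S, ∃ post ∈ rootsGen D F S, hG.gW (D.commWord F r z c δ) = pre * hG.xU hk (c ^ i * δ) * post := by
  obtain ⟨l₁, l₂, m, e, _, hm, hq⟩ := h
  have hlt := hG.commTerms_lt hr hz
  rw [e] at hS hlt
  unfold ChevalleyDatum.commWord
  rw [e, List.map_append, List.map_cons, hG.gW_append, hG.gW_cons]
  refine ⟨_, hG.gW_terms_mem l₁ (fun a ha => hlt a (List.mem_append_left _ ha)) (fun a ha ho =>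
      hS a (List.mem_append_left _ ha) (hq a (List.mem_append_left _ ha) ho)) c δ, _,
    hG.gW_terms_mem l₂ (fun a ha => hlt a (List.mem_append_right _ (List.mem_cons_of_mem _ ha))) (fun a ha ho =>
      hS a (List.mem_append_right _ (List.mem_cons_of_mem _ ha)) (hq a (List.mem_append_right _ ha) ho)) c δ, ?_⟩
  simp only [odd_cast_char_two hm, neg_char_two, one_mul, pow_one]
  rw [hG.xN_of_lt hk, mul_assoc]

/-- The first loop: removing the terms of positive grade. -/
lemma step1G [CharP F 2] (hGF : GF T D L) {r : ℕ} (hr : r < D.nroots) (hPr : PA D A r) {c : F} (hc : c ≠ 0)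
    (hno : ∀ k, PA D A k → r < k → 0 < D.pairing r k → ∃ d i, PR D d ∧ DTerm D r d k i) :
    ∀ (m k : ℕ), k + m = D.nroots → r < k → ∀ u ∈ rootsGen D F (Q1 D (PA D A) r k),
      ∃ g ∈ rootsGen D F (PA D A), ∃ u' ∈ rootsGen D F (Q1 D (PA D A) r D.nroots),
        g * (hG.xU hr c * u) * g⁻¹ = hG.xU hr c * u' := by
  have hpr := hPr.1
  have hQl : ∀ k w, Q1 D (PA D A) r k w → w < D.nroots := fun k w hw => hw.1.1.1
  intro m
  induction m with
  | zero =>
    intro k hk _ u hu
    have : k = D.nroots := by omega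
    subst this
    exact ⟨1, Subgroup.one_mem _, u, hu, by simp⟩
  | succ m ih =>
    intro k hk hrk u hu
    have hk' : k < D.nroots := by omega
    by_cases hcase : PA D A k ∧ 0 < D.pairing r k
    · obtain ⟨hPk, hg1⟩ := hcase
      have hpk := hPk.1
      obtain ⟨d, i, hd, hdt⟩ := hno k hPk hrk hg1
      have hk1 := hG.dterm_add hpr.1 hd.1 hdt (hG.addF_pairing r)
      have hi : (i : ℤ) = - D.pairing r d := by
        obtain ⟨_, _, _, _, h, _⟩ := hdt
        exact h
      simp only [hGF.self r hpr] at hk1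
      have hgd : D.pairing r d < 0 := by omega
      have hdr : d ≠ r := by
        rintro rfl
        rw [hGF.self d hpr] at hgd
        omega
      have hPd : PA D A d := ⟨hd, fun x hx => by
        have h1 := hG.dterm_add hpr.1 hd.1 hdt (hG.addF_pairing x)
        simp only [hPk.2 x hx, hPr.2 x hx] at h1
        omega⟩
      obtain ⟨e, u₁, hu₁, rfl⟩ := hG.gen_decomp hk' (S := Q1 D (PA D A) r k) (S' := Q1 D (PA D A) r (k + 1))
        (fun w hw => by
          rcases hw with ⟨h1, h2, h3⟩
          rcases h3 with h3 | h3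
          · exact Or.inr ⟨h1, h2, Or.inl h3⟩
          · rcases Nat.eq_or_lt_of_le h3 with e | e
            · exact Or.inl e.symm
            · exact Or.inr ⟨h1, h2, Or.inr e⟩)
        (fun t => hG.xU_normalizes2 _ (hQl _) hk' (fun a ha => by
          by_cases hne : a = k
          · exact Or.inl hne
          have hpa := ha.1.1
          refine Or.inr ⟨hne, hG.pos_ne_neg hpa hpk, fun q hq _ => ?_⟩
          have ho := hG.commTerms_order hk' hpa.1 hpk.2 hpa.2 hne hq
          refine ⟨hG.PA_add hPk ha.1 (Ne.symm hne) hq, ?_, Or.inr ho.1⟩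
          have := ha.2.1
          omega) t) hu
      have hnd : ∀ t : F, hG.xU hd.1 t ∈ Subgroup.normalizer (rootsGen D F (Q1 D (PA D A) r (k + 1)) : Set (GL D.Idx F)) :=
        fun t => hG.xU_normalizes2 _ (hQl _) hd.1 (fun a ha => by
          by_cases hne : a = d
          · exact Or.inl hne
          have hpa := ha.1.1
          refine Or.inr ⟨hne, hG.pos_ne_neg hpa hd, fun q hq _ => ?_⟩
          have ho := hG.commTerms_order hd.1 hpa.1 hd.2 hpa.2 hne hq
          refine ⟨hG.PA_add hPd ha.1 (Ne.symm hne) hq, ?_, ?_⟩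
          · have := ha.2.1
            omega
          · rcases ha.2.2 with h3 | h3
            · left
              rw [hG.commTerms_add (hG.addF_pairing r) hd.1 hpa.1 q hq]
              exact add_nonpos (mul_nonpos_of_nonneg_of_nonpos (by positivity) hgd.le)
                (mul_nonpos_of_nonneg_of_nonpos (by positivity) h3)
            · right
              omega) t
      have hym : hG.xU hd.1 ((c ^ i)⁻¹ * e) ∈ rootsGen D F (PA D A) := Subgroup.subset_closure ⟨d, _, hPd, hG.xU_coe _ _⟩
      have hcomm := hG.x_commG hpr.1 hd.1 hdr (hG.pos_ne_neg hd hpr) c ((c ^ i)⁻¹ * e)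
      obtain ⟨pre, hpre, post, hpost, eW⟩ := hG.dterm_word (S := Q1 D (PA D A) r (k + 1)) hpr.1 hd.1 hk' hdt (fun q hq h0 => by
        have ho := hG.commTerms_order hpr.1 hd.1 hpr.2 hd.2 hdr hq
        exact ⟨hG.PA_add hPr hPd (Ne.symm hdr) hq, ho.1, Or.inl h0⟩) c ((c ^ i)⁻¹ * e)
      rw [mul_inv_cancel_left₀ (pow_ne_zero _ hc)] at eW
      rw [eW] at hcomm
      have hX := hG.xU_sq hk' e
      have hn2 := Subgroup.mem_normalizer_iff.1 (hG.xU_normalizes2 (F := F) (Q1 D (PA D A) r (k + 1)) (hQl _) hk' (fun a ha => by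
          by_cases hne : a = k
          · exact Or.inl hne
          have hpa := ha.1.1
          refine Or.inr ⟨hne, hG.pos_ne_neg hpa hpk, fun q hq _ => ?_⟩
          have ho := hG.commTerms_order hk' hpa.1 hpk.2 hpa.2 hne hq
          refine ⟨hG.PA_add hPk ha.1 (Ne.symm hne) hq, ?_, Or.inr ho.1⟩
          have := ha.2.1
          omega) e)
      have hpost' := (hn2 post).1 hpost
      have hu₂ := Subgroup.mul_mem _ (Subgroup.mul_mem _ hpre hpost') hu₁
      have hu₃ := (Subgroup.mem_normalizer_iff.1 (hnd ((c ^ i)⁻¹ * e)) _).1 hu₂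
      generalize hG.xU hd.1 ((c ^ i)⁻¹ * e) = y at hym hcomm hu₃
      generalize hG.xU hk' e = X at hcomm hX hpost' hu₃ ⊢
      generalize hG.xU hr c = a at hcomm hu₃ ih ⊢
      obtain ⟨g, hg, u', hu', eg⟩ := ih (k + 1) (by omega) (by omega) _ hu₃
      refine ⟨g * y, Subgroup.mul_mem _ hg hym, u', hu', ?_⟩
      rw [← eg]
      have hXi : X⁻¹ = X := inv_eq_of_mul_eq_one_left hX
      have h2 : y * (a * (X * u₁)) * y⁻¹ = a * (y * (pre * (X * post * X⁻¹) * u₁) * y⁻¹) := by
        have h3 : pre * (X * post * X⁻¹) * u₁ = pre * X * post * (X * u₁) := by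
          rw [hXi]
          have : pre * X * post * (X * u₁) = pre * (X * post * X) * u₁ := by group
          rw [this]
        rw [h3]
        calc y * (a * (X * u₁)) * y⁻¹ = (y * a) * (X * u₁) * y⁻¹ := by group
          _ = (a * y * (pre * X * post)) * (X * u₁) * y⁻¹ := by rw [hcomm]
          _ = _ := by group
      calc g * y * (a * (X * u₁)) * (g * y)⁻¹ = g * (y * (a * (X * u₁)) * y⁻¹) * g⁻¹ := by group
        _ = _ := by rw [h2]
    · refine ih (k + 1) (by omega) (by omega) u (rootsGen_mono0 (fun w hw => ?_) hu)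
      rcases hw with ⟨h1, h2, h3⟩
      refine ⟨h1, h2, ?_⟩
      rcases h3 with h3 | h3
      · exact Or.inl h3
      · rcases Nat.eq_or_lt_of_le h3 with e | e
        · subst e
          left
          by_contra h6
          exact hcase ⟨h1, by omega⟩
        · exact Or.inr e

/-- A group generated by root elements orthogonal to a root commutes with the root elements of this root. -/
lemma comm_gen2 [CharP F 2] (hGF : GF T D L) {a : ℕ} (ha : a < D.nroots) {S : ℕ → Prop}
    (hS : ∀ w, S w → w < D.nroots ∧ D.pairing a w = 0) (c : F) {g : GL D.Idx F} (hg : g ∈ rootsGen D F S) :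
    Commute (hG.xU ha c) g := by
  induction hg using Subgroup.closure_induction with
  | mem g hg =>
    obtain ⟨w, t, hw, e⟩ := hg
    rw [hG.eq_xU (hS w hw).1 e]
    obtain ⟨-, h1, h2, h3⟩ := hGF.orth a w ha (hS w hw).1 (hS w hw).2
    obtain ⟨v, hv, e'⟩ := hG.x_comm_mem (F := F) (S := fun _ => False) ha (hS w hw).1 (Ne.symm h1) h2
      (fun q hq ho => by
        have := h3 q hq
        exact absurd ho (Int.not_odd_iff_even.2 this)) c t
    have hv1 : v = 1 := by
      have : rootsGen D F (fun _ => False) = ⊥ := by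
        rw [eq_bot_iff]
        refine (Subgroup.closure_le _).2 ?_
        rintro g ⟨_, _, h, _⟩
        exact h.elim
      rw [this] at hv
      exact Subgroup.mem_bot.1 hv
    rw [hv1, mul_one] at e'
    exact e'.symm
  | one => exact Commute.one_right _
  | mul a b _ _ ha hb => exact ha.mul_right hb
  | inv a _ ha => exact ha.inv_right

set_option maxHeartbeats 1000000 in
/-- The key point of the second loop. -/
lemma step2G_key [CharP F 2] (hGF : GF T D L) {r z k i : ℕ} {n : ℤ} (hPr : PA D A r) (hPz : PA D A z) (hrz : r < z)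
    (hgz : D.pairing r z < 0) (hk : PR D k) (hdt : DTerm D r z k i) (hn : n = L z - D.pairing r z * L r) {c e : F} {u₁ : GL D.Idx F}
    (hu₁ : u₁ ∈ rootsGen D F (T2 D (PA D A) L r (n + 1)))
    (h2 : (hG.xU hPr.1.1 c * (hG.xU hPz.1.1 e * u₁)) * (hG.xU hPr.1.1 c * (hG.xU hPz.1.1 e * u₁)) = 1) :
    c ^ i * e = 0 := by
  have hr := hPr.1
  have hz := hPz.1
  have hrl := hr.1
  have hzr : z ≠ r := by omega
  have hgr := hGF.self r hr
  have hLr := hGF.L_pos hr
  have hi : (i : ℤ) = - D.pairing r z := by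
    obtain ⟨_, _, _, _, h, _⟩ := hdt
    exact h
  have hGk := hG.dterm_add hrl hz.1 hdt (hG.addF_pairing r)
  simp only [hgr] at hGk
  have hLk := hG.dterm_add hrl hz.1 hdt hGF.addL
  have hLk' : L k = n := by
    rw [hLk, hn, hi]
    ring
  have hT2S : ∀ w, T2 D (PA D A) L r (n + 1) w → S2 D L r n w := fun w hw => by
    refine ⟨hw.1.1, hw.2.1, Or.inl ?_⟩
    rcases hw.2.2 with h | h
    · exact h.le
    · exact h.1.le
  -- `x_z` normalises
  have hnz := hG.xU_normalizes2 (F := F) (T2 D (PA D A) L r (n + 1)) (fun w hw => hw.1.1.1) hz.1 (fun a ha => by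
    have hpa := ha.1.1
    have hLpos : 0 < L a - D.pairing r a * L r := by
      have h1 := hGF.L_pos hpa
      rcases ha.2.2 with h3 | h3
      · rw [h3]
        simpa using h1
      · have := mul_pos (neg_pos.2 h3.1) hLr
        nlinarith
    have hLz : 0 < L z - D.pairing r z * L r := by
      have h1 := hGF.L_pos hz
      have := mul_pos (neg_pos.2 hgz) hLr
      nlinarith
    have hne : a ≠ z := by
      rintro rfl
      rcases ha.2.2 with h3 | h3
      · omega
      · have := h3.2
        omega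
    refine Or.inr ⟨hne, hG.pos_ne_neg hpa hz, fun q hq _ => ?_⟩
    have ho := hG.commTerms_order hz.1 hpa.1 hz.2 hpa.2 hne hq
    obtain ⟨hij1, hij2⟩ := hG.commTerms_ij hz.1 hpa.1 q hq
    have hp1 := hG.commTerms_add (hG.addF_pairing r) hz.1 hpa.1 q hq
    have hp2 := hG.commTerms_add hGF.addL hz.1 hpa.1 q hq
    have ha0 : D.pairing r a ≤ 0 := by
      rcases ha.2.2 with h3 | h3
      · exact h3.le
      · exact h3.1.le
    have hq0 : D.pairing r q.1 < 0 := by
      rw [hp1]
      have h3 : (q.2.2.1 : ℤ) * D.pairing r z < 0 := mul_neg_of_pos_of_neg (by omega) hgz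
      have h4 : (q.2.2.2 : ℤ) * D.pairing r a ≤ 0 := mul_nonpos_of_nonneg_of_nonpos (by positivity) ha0
      omega
    refine ⟨hG.PA_add hPz ha.1 (Ne.symm hne) hq, by have := ha.2.1; omega, Or.inr ⟨hq0, ?_⟩⟩
    rw [hp1, hp2]
    have h5 : (q.2.2.1 : ℤ) * L z + q.2.2.2 * L a - ((q.2.2.1 : ℤ) * D.pairing r z + q.2.2.2 * D.pairing r a) * L r =
        (q.2.2.1 : ℤ) * (L z - D.pairing r z * L r) + q.2.2.2 * (L a - D.pairing r a * L r) := by ring
    rw [h5, ← hn]
    have h6 : (n : ℤ) ≤ (q.2.2.1 : ℤ) * n := by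
      have : 0 < n := by rw [hn]; exact hLz
      nlinarith
    have h7 : 1 ≤ (q.2.2.2 : ℤ) * (L a - D.pairing r a * L r) := by
      have h8 : (1 : ℤ) ≤ q.2.2.2 := by omega
      nlinarith
    omega) e
  -- conjugation by `x_r`
  have hC : hG.xU hrl c * u₁ * (hG.xU hrl c)⁻¹ ∈ rootsGen D F (S2 D L r n) := by
    refine conj_mem_of_gen _ ?_ hu₁
    rintro y ⟨w, t, hw, hy⟩
    have hpw := hw.1.1
    have hne : w ≠ r := by have := hw.2.1; omega
    have e1 := hG.eq_xU hpw.1 hy
    subst e1
    obtain ⟨W, hW, eW⟩ := hG.x_comm_mem (F := F) (S := S2 D L r n) hrl hpw.1 hne (hG.pos_ne_neg hpw hr) (fun q hq ho => by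
      have ho2 := hG.commTerms_order hrl hpw.1 hr.2 hpw.2 hne hq
      have hql := hG.commTerms_lt hrl hpw.1 q hq
      have hqp : PR D q.1 := ⟨hql, by have := hr.2; omega⟩
      refine ⟨hqp, ho2.1, ?_⟩
      rcases hw.2.2 with h3 | ⟨h3, h4⟩
      · exact absurd ho (Int.not_odd_iff_even.2 (hGF.gnn r w hr hpw (Ne.symm hne) h3.ge q hq))
      · obtain ⟨k', i', hk', hdt'⟩ := hGF.gneg r w hr hpw (Ne.symm hne) h3
        have hL' := hG.dterm_add hrl hpw.1 hdt' hGF.addL
        obtain ⟨l₁, l₂, m, e', hi', _, hq'⟩ := hdt'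
        rw [e'] at hq
        rcases List.mem_append.1 hq with h5 | h5
        · exact Or.inl (hq' q (List.mem_append_left _ h5) ho)
        · rcases List.mem_cons.1 h5 with h6 | h6
          · right
            rw [h6]
            simp only
            rw [hL', hi']
            have : - D.pairing r w * L r + L w = L w - D.pairing r w * L r := by ring
            omega
          · exact Or.inl (hq' q (List.mem_append_right _ h6) ho)) c t
    have e2 : hG.xU hrl c * hG.xU hpw.1 t * (hG.xU hrl c)⁻¹ = hG.xU hpw.1 t * W := by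
      have h3 := hG.xU_inv2 (F := F) hrl c
      rw [h3, mul_assoc, eW]
      have h4 := hG.xU_sq (F := F) hrl c
      generalize hG.xU hrl c = a at h4
      calc a * (a * hG.xU hpw.1 t * W) = (a * a) * hG.xU hpw.1 t * W := by group
        _ = _ := by rw [h4, one_mul]
    rw [e2]
    exact Subgroup.mul_mem _ (Subgroup.subset_closure ⟨w, t, hT2S w hw, hG.xU_coe _ _⟩) hW
  -- the word
  have hcomm := hG.x_commG hrl hz.1 hzr (hG.pos_ne_neg hz hr) c e
  obtain ⟨pre, hpre, post, hpost, eW⟩ := hG.dterm_word (F := F) (S := S2 D L r n) hrl hz.1 hk.1 hdt (fun q hq h0 => by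
    have ho := hG.commTerms_order hrl hz.1 hr.2 hz.2 hzr hq
    have hql := hG.commTerms_lt hrl hz.1 q hq
    exact ⟨⟨hql, by have := hr.2; omega⟩, ho.1, Or.inl h0⟩) c e
  have hxk : hG.xU hk.1 (c ^ i * e) ∈ rootsGen D F (S2 D L r n) := by
    have hbu : hG.xU hz.1 e * u₁⁻¹ * (hG.xU hz.1 e)⁻¹ ∈ rootsGen D F (S2 D L r n) :=
      rootsGen_mono0 hT2S ((Subgroup.mem_normalizer_iff.1 hnz _).1 (Subgroup.inv_mem _ hu₁))
    have ha2 := hG.xU_sq (F := F) hrl c
    have hb2 := hG.xU_sq (F := F) hz.1 e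
    rw [eW] at hcomm
    have hW0 : pre * hG.xU hk.1 (c ^ i * e) * post =
        (hG.xU hz.1 e * u₁⁻¹ * (hG.xU hz.1 e)⁻¹) * (hG.xU hrl c * u₁ * (hG.xU hrl c)⁻¹)⁻¹ := by
      generalize pre * hG.xU hk.1 (c ^ i * e) * post = W at hcomm ⊢
      generalize hG.xU hrl c = a at hcomm ha2 h2 ⊢
      generalize hG.xU hz.1 e = b at hcomm hb2 h2 ⊢
      have hai : a⁻¹ = a := inv_eq_of_mul_eq_one_left ha2
      have hbi : b⁻¹ = b := inv_eq_of_mul_eq_one_left hb2
      have h3 : W = b * a * b * a := by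
        have : W = (a * b)⁻¹ * (b * a) := by
          rw [hcomm]
          group
        rw [this, _root_.mul_inv_rev, hai, hbi]
        group
      have h4 : a * (b * u₁) * a = (b * u₁)⁻¹ := by
        apply eq_inv_of_mul_eq_one_left
        calc a * (b * u₁) * a * (b * u₁) = (a * (b * u₁)) * (a * (b * u₁)) := by group
          _ = 1 := h2
      rw [hbi, hai, h3]
      have h5 : a * u₁⁻¹ * a = a * (b * (b * u₁⁻¹)) * a := by
        have : b * (b * u₁⁻¹) = (b * b) * u₁⁻¹ := by group
        rw [this, hb2, one_mul]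
      have h6 : (a * u₁ * a)⁻¹ = a * u₁⁻¹ * a := by
        rw [_root_.mul_inv_rev, _root_.mul_inv_rev, hai]
        group
      rw [h6]
      have h4' : u₁⁻¹ * b = a * (b * u₁) * a := by
        rw [h4, _root_.mul_inv_rev, hbi]
      symm
      calc b * u₁⁻¹ * b * (a * u₁⁻¹ * a) = b * (u₁⁻¹ * b) * (a * u₁⁻¹ * a) := by group
        _ = b * (a * (b * u₁) * a) * (a * u₁⁻¹ * a) := by rw [h4']
        _ = b * a * b * u₁ * (a * a) * u₁⁻¹ * a := by group
        _ = b * a * b * a := by rw [ha2]; group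
    have h3 : pre⁻¹ * (pre * hG.xU hk.1 (c ^ i * e) * post) * post⁻¹ = hG.xU hk.1 (c ^ i * e) := by group
    rw [← h3, hW0]
    exact Subgroup.mul_mem _ (Subgroup.mul_mem _ (Subgroup.inv_mem _ hpre) (Subgroup.mul_mem _ hbu (Subgroup.inv_mem _ hC)))
      (Subgroup.inv_mem _ hpost)
  -- the entries
  by_contra hf
  obtain ⟨j, hj, hodd⟩ := hGF.ent k hk
  have h1 : ((hG.xU hk.1 (c ^ i * e) : GL D.Idx F) : Matrix D.Idx D.Idx F) (Sum.inr ⟨k, hk.1⟩) (Sum.inl ⟨j, hj⟩) ≠ 0 := by
    rw [hG.xU_coe, hG.x_cartan_entry hk.1, odd_cast_char_two hodd, neg_char_two, one_mul]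
    exact hf
  have P1 := (entry_psi hG hGF.addL (hG.addF_pairing r) (fun μ => 0 ≤ μ.1 ∧ (μ.2 ≤ 0 ∨ n < μ.1))
    ⟨le_rfl, Or.inl le_rfl⟩
    (fun a b ha hb => ⟨by simpa using add_nonneg ha.1 hb.1, by
      simp only [Prod.fst_add, Prod.snd_add]
      rcases ha.2 with h3 | h3
      · rcases hb.2 with h4 | h4
        · left
          omega
        · right
          have := ha.1
          omega
      · right
        have := hb.1
        omega⟩)
    (fun w hw => hw.1.1)
    (fun w hw m hm => by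
      have hw0 := hGF.L_pos hw.1
      refine ⟨by simp only; positivity, ?_⟩
      rcases hw.2.2 with h3 | h3
      · left
        exact mul_nonpos_of_nonneg_of_nonpos (by positivity) h3
      · right
        have h4 : (1 : ℤ) ≤ m := by omega
        simp only
        nlinarith)
    hxk).1 _ _ h1
  simp only [wtI, sub_zero] at P1
  rcases P1.2 with h3 | h3
  · have : D.pairing r k = i := by omega
    omega
  · omega


/-- The second loop: the terms of negative grade vanish. -/
lemma step2G [CharP F 2] (hGF : GF T D L) {r : ℕ} (hPr : PA D A r) {c : F} (hc : c ≠ 0) (N : ℤ) :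
    ∀ (m : ℕ) (n : ℤ), n + m = N → ∀ u ∈ rootsGen D F (T2 D (PA D A) L r n),
      (hG.xU hPr.1.1 c * u) * (hG.xU hPr.1.1 c * u) = 1 → u ∈ rootsGen D F (T2 D (PA D A) L r N) := by
  intro m
  induction m with
  | zero =>
    intro n hn u hu _
    have : n = N := by simpa using hn
    subst this
    exact hu
  | succ m ih =>
    intro n hn u hu h2
    have hn' : n + 1 + (m : ℤ) = N := by push_cast at hn; omega
    have hr := hPr.1
    have hgr := hGF.self r hr
    by_cases hcase : ∃ z, PA D A z ∧ r < z ∧ D.pairing r z < 0 ∧ n = L z - D.pairing r z * L r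
    · obtain ⟨z, hPz, hrz, hgz, hnz⟩ := hcase
      have hz := hPz.1
      have hzr : z ≠ r := by omega
      obtain ⟨k, i, hk, hdt⟩ := hGF.gneg r z hr hz (Ne.symm hzr) hgz
      have hLr := GF.L_pos hGF hr
      obtain ⟨e, u₁, hu₁, rfl⟩ := hG.gen_decomp hz.1 (S := T2 D (PA D A) L r n) (S' := T2 D (PA D A) L r (n + 1))
        (fun w hw => by
          rcases hw with ⟨h1, h3, h4⟩
          rcases h4 with h4 | ⟨h4, h5⟩
          · exact Or.inr ⟨h1, h3, Or.inl h4⟩
          · by_cases h6 : n = L w - D.pairing r w * L r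
            · left
              have hwr : w ≠ r := by omega
              obtain ⟨k', i', hk', hdt'⟩ := hGF.gneg r w hr h1.1 (Ne.symm hwr) h4
              have e1 := hG.dterm_add hr.1 h1.1.1 hdt' hGF.addL
              have e2 := hG.dterm_add hr.1 hz.1 hdt hGF.addL
              have e3 := hG.dterm_add hr.1 h1.1.1 hdt' (hG.addF_pairing r)
              have e4 := hG.dterm_add hr.1 hz.1 hdt (hG.addF_pairing r)
              have hi1 : (i' : ℤ) = - D.pairing r w := by
                obtain ⟨_, _, _, _, h, _⟩ := hdt'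
                exact h
              have hi2 : (i : ℤ) = - D.pairing r z := by
                obtain ⟨_, _, _, _, h, _⟩ := hdt
                exact h
              have hkk : k' = k := by
                apply GF.L_inj hGF hk'.1 hk.1
                rw [e1, e2, hi1, hi2]
                have : - D.pairing r w * L r + L w = L w - D.pairing r w * L r := by ring
                have : - D.pairing r z * L r + L z = L z - D.pairing r z * L r := by ring
                omega
              subst hkk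
              simp only [hgr] at e3 e4
              have h7 : (i' : ℤ) = i := by omega
              have h8 : L w = L z := by
                rw [h7] at e1
                omega
              exact GF.L_inj hGF h1.1.1 hz.1 h8
            · right
              exact ⟨h1, h3, Or.inr ⟨h4, by omega⟩⟩)
        (fun t => hG.xU_normalizes2 _ (fun w hw => hw.1.1.1) hz.1 (fun a ha => by
          have hpa := ha.1.1
          have hLpos : 0 < L a - D.pairing r a * L r := by
            have h1 := GF.L_pos hGF hpa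
            rcases ha.2.2 with h3 | h3
            · rw [h3]
              simpa using h1
            · have := mul_pos (neg_pos.2 h3.1) hLr
              nlinarith
          have hLz : 0 < L z - D.pairing r z * L r := by
            have h1 := GF.L_pos hGF hz
            have := mul_pos (neg_pos.2 hgz) hLr
            nlinarith
          have hne : a ≠ z := by
            rintro rfl
            rcases ha.2.2 with h3 | h3
            · omega
            · have := h3.2
              omega
          refine Or.inr ⟨hne, hG.pos_ne_neg hpa hz, fun q hq _ => ?_⟩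
          have ho := hG.commTerms_order hz.1 hpa.1 hz.2 hpa.2 hne hq
          obtain ⟨hij1, hij2⟩ := hG.commTerms_ij hz.1 hpa.1 q hq
          have hp1 := hG.commTerms_add (hG.addF_pairing r) hz.1 hpa.1 q hq
          have hp2 := hG.commTerms_add hGF.addL hz.1 hpa.1 q hq
          have ha0 : D.pairing r a ≤ 0 := by
            rcases ha.2.2 with h3 | h3
            · exact h3.le
            · exact h3.1.le
          have hq0 : D.pairing r q.1 < 0 := by
            rw [hp1]
            have h3 : (q.2.2.1 : ℤ) * D.pairing r z < 0 := mul_neg_of_pos_of_neg (by omega) hgz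
            have h4 : (q.2.2.2 : ℤ) * D.pairing r a ≤ 0 := mul_nonpos_of_nonneg_of_nonpos (by positivity) ha0
            omega
          refine ⟨hG.PA_add hPz ha.1 (Ne.symm hne) hq, by have := ha.2.1; omega, Or.inr ⟨hq0, ?_⟩⟩
          rw [hp1, hp2]
          have h5 : (q.2.2.1 : ℤ) * L z + q.2.2.2 * L a - ((q.2.2.1 : ℤ) * D.pairing r z + q.2.2.2 * D.pairing r a) * L r =
              (q.2.2.1 : ℤ) * (L z - D.pairing r z * L r) + q.2.2.2 * (L a - D.pairing r a * L r) := by ring
          rw [h5, ← hnz]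
          have h6 : (n : ℤ) ≤ (q.2.2.1 : ℤ) * n := by
            have : 0 < n := by rw [hnz]; exact hLz
            nlinarith
          have h7 : 1 ≤ (q.2.2.2 : ℤ) * (L a - D.pairing r a * L r) := by
            have h8 : (1 : ℤ) ≤ q.2.2.2 := by omega
            nlinarith
          omega) t) hu
      have h0 := hG.step2G_key hGF hPr hPz hrz hgz hk hdt hnz hu₁ h2
      have he : e = 0 := by
        rcases mul_eq_zero.1 h0 with h | h
        · exact absurd h (pow_ne_zero _ hc)
        · exact h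
      subst he
      rw [hG.xU_zero', one_mul] at h2 ⊢
      exact ih (n + 1) hn' u₁ hu₁ h2
    · refine ih (n + 1) hn' u (rootsGen_mono0 (fun w hw => ?_) hu) h2
      rcases hw with ⟨h1, h3, h4⟩
      refine ⟨h1, h3, ?_⟩
      rcases h4 with h4 | ⟨h4, h5⟩
      · exact Or.inl h4
      · right
        refine ⟨h4, ?_⟩
        by_contra h6
        exact hcase ⟨w, h1, h3, h4, by omega⟩

/-- One root: the loops give an element commuting with the root element. -/
lemma elim_noex [CharP F 2] (hGF : GF T D L) {r : ℕ} (hPr : PA D A r) {c : F} (hc : c ≠ 0)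
    (hno : ∀ k, PA D A k → r < k → 0 < D.pairing r k → ∃ d i, PR D d ∧ DTerm D r d k i)
    {u : GL D.Idx F} (hu : u ∈ rootsGen D F (fun w => PA D A w ∧ r + 1 ≤ w))
    (h2 : (hG.xU hPr.1.1 c * u) * (hG.xU hPr.1.1 c * u) = 1) :
    ∃ g ∈ rootsGen D F (PA D A), ∃ u' ∈ rootsGen D F (PA D (r :: A)),
      g * (hG.xU hPr.1.1 c * u) * g⁻¹ = hG.xU hPr.1.1 c * u' := by
  have hr := hPr.1
  have hu1 : u ∈ rootsGen D F (Q1 D (PA D A) r (r + 1)) :=
    rootsGen_mono0 (fun w hw => ⟨hw.1, by have := hw.2; omega, Or.inr hw.2⟩) hu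
  obtain ⟨g, hg, u', hu', eg⟩ := hG.step1G hGF hr.1 hPr hc hno (D.nroots - (r + 1)) (r + 1)
    (by have := hr.1; omega) (by omega) u hu1
  have hLr := GF.L_pos hGF hr
  have hgr := hGF.self r hr
  have hu2 : u' ∈ rootsGen D F (T2 D (PA D A) L r 0) := by
    refine rootsGen_mono0 (fun w hw => ?_) hu'
    rcases hw with ⟨h3, h4, h5⟩
    refine ⟨h3, h4, ?_⟩
    rcases h5 with h5 | h5
    · rcases lt_or_eq_of_le h5 with h6 | h6
      · refine Or.inr ⟨h6, ?_⟩
        have h7 := GF.L_pos hGF h3.1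
        have := mul_pos (neg_pos.2 h6) hLr
        nlinarith
      · exact Or.inl h6
    · have := h3.1.1
      omega
  have h3 : (hG.xU hr.1 c * u') * (hG.xU hr.1 c * u') = 1 := by
    rw [← eg]
    have e : g * (hG.xU hr.1 c * u) * g⁻¹ * (g * (hG.xU hr.1 c * u) * g⁻¹) =
        g * ((hG.xU hr.1 c * u) * (hG.xU hr.1 c * u)) * g⁻¹ := by
      group
    rw [e, h2]
    simp
  have hN0 : (0 : ℤ) ≤ L (D.nroots - 1) + 1 := by
    have := GF.L_pos hGF (w := D.nroots - 1) ⟨by have := hr.1; omega, by have := hr.1; have := hr.2; omega⟩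
    omega
  have h4 := hG.step2G hGF hPr hc (L (D.nroots - 1) + 1) (L (D.nroots - 1) + 1).toNat 0 (by
    rw [Int.toNat_of_nonneg hN0]
    ring) u' hu2 h3
  refine ⟨g, hg, u', rootsGen_mono0 (fun w hw => ?_) h4, eg⟩
  rcases hw with ⟨h5, h6, h7⟩
  refine ⟨h5.1, fun x hx => ?_⟩
  rcases List.mem_cons.1 hx with rfl | hx
  · rcases h7 with h7 | ⟨h7, h8⟩
    · exact h7
    · exfalso
      obtain ⟨k, i, hk, hdt⟩ := hGF.gneg x w hr h5.1 (by omega) h7
      have e1 := hG.dterm_add hr.1 h5.1.1 hdt hGF.addL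
      have hi1 : (i : ℤ) = - D.pairing x w := by
        obtain ⟨_, _, _, _, h, _⟩ := hdt
        exact h
      rw [hi1] at e1
      have h9 : L k ≤ L (D.nroots - 1) := by
        rcases Nat.lt_or_ge k (D.nroots - 1) with h10 | h10
        · exact (hGF.mono _ _ h10 (by have := hk.1; omega)).le
        · have : k = D.nroots - 1 := by have := hk.1; omega
          rw [this]
      have : - D.pairing x w * L x + L w = L w - D.pairing x w * L x := by ring
      omega
  · exact h5.2 x hx

/-- The elimination, for a given first root. -/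
theorem elim_first [CharP F 2] (hGF : GF T D L) (hAl : ∀ a ∈ A, a < D.nroots)
    (hIH : ∀ r, PA D A r → ∀ u ∈ rootsGen D F (PA D (r :: A)), u * u = 1 → hG.ResG (r :: A) u) :
    ∀ r, ∀ (hPr : PA D A r) (c : F), c ≠ 0 → ∀ u ∈ rootsGen D F (fun w => PA D A w ∧ r + 1 ≤ w),
      (hG.xU hPr.1.1 c * u) * (hG.xU hPr.1.1 c * u) = 1 → hG.ResG A (hG.xU hPr.1.1 c * u) := by
  intro r
  induction r using Nat.strong_induction_on with
  | _ r ih =>
    intro hPr c hc u hu h2
    have hr := hPr.1
    by_cases hno : ∀ k, PA D A k → r < k → 0 < D.pairing r k → ∃ d i, PR D d ∧ DTerm D r d k i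
    · obtain ⟨g, hg, u', hu', e⟩ := hG.elim_noex hGF hPr hc hno hu h2
      have hcomm := hG.comm_gen2 hGF hr.1 (S := PA D (r :: A)) (fun w hw => ⟨hw.1.1, hw.2 r (by simp)⟩) c hu'
      have hsq := hG.xU_sq (F := F) hr.1 c
      have hu2 : u' * u' = 1 := by
        have h3 : (hG.xU hr.1 c * u') * (hG.xU hr.1 c * u') = 1 := by
          rw [← e]
          have e' : g * (hG.xU hr.1 c * u) * g⁻¹ * (g * (hG.xU hr.1 c * u) * g⁻¹) =
              g * ((hG.xU hr.1 c * u) * (hG.xU hr.1 c * u)) * g⁻¹ := by group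
          rw [e', h2]
          simp
        calc u' * u' = (hG.xU hr.1 c * hG.xU hr.1 c) * (u' * u') := by rw [hsq, one_mul]
          _ = hG.xU hr.1 c * (hG.xU hr.1 c * u') * u' := by group
          _ = hG.xU hr.1 c * (u' * hG.xU hr.1 c) * u' := by rw [hcomm.eq]
          _ = (hG.xU hr.1 c * u') * (hG.xU hr.1 c * u') := by group
          _ = 1 := h3
      obtain ⟨l, g', hg', hfix', e', hl, hp⟩ := hIH r hPr u' hu' hu2
      have hfr := hfix' r (by simp) hr.1 c
      rw [hG.xN_of_lt hr.1] at hfr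
      refine ⟨(r, c) :: l, g' * g, Subgroup.mul_mem _ hg' (hG.rootsGen_le_group (fun w hw => hw.1.1) hg), ?_, ?_, ?_, ?_⟩
      · intro a ha hal t
        have h3 := hfix' a (List.mem_cons_of_mem _ ha) hal t
        have h4 : g * hG.xN a t * g⁻¹ = hG.xN a t := by
          rw [hG.xN_of_lt hal]
          have := hG.comm_gen2 hGF hal (S := PA D A) (fun w hw => ⟨hw.1.1, hw.2 a ha⟩) t hg
          rw [this.eq.symm]
          group
        calc g' * g * hG.xN a t * (g' * g)⁻¹ = g' * (g * hG.xN a t * g⁻¹) * g'⁻¹ := by group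
          _ = _ := by rw [h4, h3]
      · rw [hG.gW_cons]
        simp only
        rw [hG.xN_of_lt hr.1, ← e']
        calc g' * g * (hG.xU hr.1 c * u) * (g' * g)⁻¹ = g' * (g * (hG.xU hr.1 c * u) * g⁻¹) * g'⁻¹ := by group
          _ = g' * (hG.xU hr.1 c * u') * g'⁻¹ := by rw [e]
          _ = (g' * hG.xU hr.1 c * g'⁻¹) * (g' * u' * g'⁻¹) := by group
          _ = _ := by rw [hfr]
      · intro x hx
        rcases List.mem_cons.1 hx with rfl | hx
        · exact ⟨hPr, hc⟩
        · refine ⟨⟨(hl x hx).1.1, fun a ha => (hl x hx).1.2 a (List.mem_cons_of_mem _ ha)⟩, (hl x hx).2⟩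
      · exact List.pairwise_cons.2 ⟨fun x hx => (hl x hx).1.2 r (by simp), hp⟩
    · push Not at hno
      obtain ⟨k, hPk, hrk, hgk, hnd⟩ := hno
      rcases hGF.top r k hr hPk.1 hrk hgk with ⟨d, i, hd, hdt⟩ | hex
      · exact absurd hdt (hnd d i hd)
      obtain ⟨W, r', hW, hr', hlt, hpr', hup, hfix⟩ := hex
      have hor : ∀ a ∈ A, wperm T W a = a := fun a ha => by
        exact hfix a (hAl a ha) (hGF.orth a r (hAl a ha) hr.1 (hPr.2 a ha)).1
          (hGF.orth a k (hAl a ha) hPk.1.1 (hPk.2 a ha)).1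
      have hPW : ∀ w, PA D A w → r < w → PA D A (wperm T W w) ∧ r' < wperm T W w := by
        intro w hw hrw
        have h3 := hup w hw.1 hrw
        refine ⟨⟨⟨hG.wperm_lt hW hw.1.1, by have := hpr'.2; omega⟩, fun a ha => ?_⟩, h3⟩
        have h4 := hG.or2_wperm hW (hAl a ha) hw.1.1 (⟨hw.2 a ha, (hGF.orth a w (hAl a ha) hw.1.1 (hw.2 a ha)).1⟩ : Or2 D a w)
        rw [hor a ha] at h4
        exact h4.1
      have hPr' : PA D A r' := ⟨hpr', fun a ha => by
        have h4 := hG.or2_wperm hW (hAl a ha) hr.1 (⟨hPr.2 a ha, (hGF.orth a r (hAl a ha) hr.1 (hPr.2 a ha)).1⟩ : Or2 D a r)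
        rw [hor a ha, hr'] at h4
        exact h4.1⟩
      have hN : ∀ {r : ℕ} (hr : r < D.nroots) (t : F), hG.nProd W * hG.xN r t * (hG.nProd W)⁻¹ = hG.xN (wperm T W r) t :=
        fun hr t => hG.nProd_xN (F := F) hW hr t
      have hu' : hG.nProd W * u * (hG.nProd W)⁻¹ ∈ rootsGen D F (fun w => PA D A w ∧ r' + 1 ≤ w) := by
        refine conj_mem_of_gen _ ?_ hu
        rintro y ⟨w, t, hw, hy⟩
        rw [hG.eq_xU hw.1.1.1 hy, ← hG.xN_of_lt hw.1.1.1, hN hw.1.1.1 t, hG.xN_of_lt (hG.wperm_lt hW hw.1.1.1)]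
        have := hPW w hw.1 (by have := hw.2; omega)
        exact Subgroup.subset_closure ⟨_, t, ⟨this.1, this.2⟩, hG.xU_coe _ _⟩
      have hconj : hG.nProd W * (hG.xU hr.1 c * u) * (hG.nProd W)⁻¹ = hG.xU hPr'.1.1 c * (hG.nProd W * u * (hG.nProd W)⁻¹) := by
        have h3 := hN hr.1 c
        rw [hr', hG.xN_of_lt hr.1, hG.xN_of_lt hpr'.1] at h3
        rw [← h3]
        group
      have h3 : (hG.xU hPr'.1.1 c * (hG.nProd W * u * (hG.nProd W)⁻¹)) * (hG.xU hPr'.1.1 c * (hG.nProd W * u * (hG.nProd W)⁻¹)) = 1 := by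
        rw [← hconj]
        generalize hG.nProd (F := F) W = g₀
        have e' : g₀ * (hG.xU hr.1 c * u) * g₀⁻¹ * (g₀ * (hG.xU hr.1 c * u) * g₀⁻¹) =
            g₀ * ((hG.xU hr.1 c * u) * (hG.xU hr.1 c * u)) * g₀⁻¹ := by group
        rw [e', h2]
        simp
      obtain ⟨l, g₁, hg₁, hfix₁, e₁, hl, hp⟩ := ih r' hlt hPr' c hc _ hu' h3
      refine ⟨l, g₁ * hG.nProd W, Subgroup.mul_mem _ hg₁ (hG.N_le_group (hG.nProd_mem_N hW)), ?_, ?_, hl, hp⟩
      · intro a ha hal t
        have h4 := hN hal t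
        rw [hor a ha] at h4
        calc g₁ * hG.nProd W * hG.xN a t * (g₁ * hG.nProd W)⁻¹ = g₁ * (hG.nProd W * hG.xN a t * (hG.nProd W)⁻¹) * g₁⁻¹ := by group
          _ = _ := by rw [h4, hfix₁ a ha hal t]
      · rw [← e₁, ← hconj]
        group

/-- The elimination. -/
theorem elim_allG [CharP F 2] (hGF : GF T D L) :
    ∀ (N : ℕ) (A : List ℕ), (∀ a ∈ A, a < D.nroots) → (∀ Q : Finset ℕ, (∀ w ∈ Q, PA D A w) → Q.card ≤ N) →
      ∀ v ∈ rootsGen D F (PA D A), v * v = 1 → hG.ResG A v := by
  intro N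
  induction N with
  | zero =>
    intro A hAl hN v hv h2
    by_cases h1 : v = 1
    · exact ⟨[], 1, Subgroup.one_mem _, by simp, by simp [h1], by simp, by simp⟩
    · exfalso
      have hv' : v ∈ rootsGen D F (fun w => PA D A w ∧ 0 ≤ w) := rootsGen_mono0 (fun w hw => ⟨hw, Nat.zero_le _⟩) hv
      obtain ⟨r, _, _, _, _, hPr, _⟩ := hG.exists_first (hG.cp_PA A) D.nroots 0 (by omega) v hv' h1
      have := hN {r} (by simpa using hPr)
      simp at this
  | succ N ih =>
    intro A hAl hN v hv h2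
    by_cases h1 : v = 1
    · exact ⟨[], 1, Subgroup.one_mem _, by simp, by simp [h1], by simp, by simp⟩
    have hv' : v ∈ rootsGen D F (fun w => PA D A w ∧ 0 ≤ w) := rootsGen_mono0 (fun w hw => ⟨hw, Nat.zero_le _⟩) hv
    obtain ⟨r, hr, c, u, hu, hPr, hc, rfl⟩ := hG.exists_first (hG.cp_PA A) D.nroots 0 (by omega) v hv' h1
    exact hG.elim_first hGF hAl (fun r hPr u hu hu2 => ih (r :: A) (fun a ha => by
      rcases List.mem_cons.1 ha with rfl | ha
      · exact hPr.1.1
      · exact hAl a ha) (fun Q hQ => by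
      have hnot : r ∉ Q := fun h => by
        have := (hQ r h).2 r (by simp)
        rw [hGF.self r hPr.1] at this
        omega
      have h3 := hN (insert r Q) (fun w hw => by
        rcases Finset.mem_insert.1 hw with rfl | hw
        · exact hPr
        · exact ⟨(hQ w hw).1, fun a ha => (hQ w hw).2 a (List.mem_cons_of_mem _ ha)⟩)
      rw [Finset.card_insert_of_notMem hnot] at h3
      omega) u hu hu2) r hPr c hc u hu h2

end Tbl.Good2

end

end Cfsg.Agent.Lib.Chev
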