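/-
Involutions in Chevalley groups in characteristic two, for root systems with two root lengths: the Weyl group and the
torus acting on products of root elements of orthogonal roots.
-/
import Cfsg.Agent.Lib.ChInv.El2b
import Cfsg.Agent.Lib.ChInv.Main

set_option autoImplicit false

namespace Cfsg.Agent.Lib.Chev

open Cfsg.Lie

/-- The facts of the Weyl group action on the roots used below. -/
structure TreeF0 (T : Tbl) (D : ChevalleyDatum) : Prop where
  up : ∀ i z, i < D.rank → z < D.nroots → T.cart i z < 0 → z < T.refl i z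
  fix : ∀ i z, i < D.rank → z < D.nroots → T.cart i z = 0 → T.refl i z = z

section

variable {F : Type*} [Field F] {D : ChevalleyDatum} {T : Tbl}

namespace Tbl.Good2

variable (hG : T.Good2 D) {L' : ℕ → ℤ}

include hG

lemma xN_comm_orth2 [CharP F 2] (hGF : GF T D L') {a b : ℕ} (ha : a < D.nroots) (hb : b < D.nroots) (h : D.pairing a b = 0)
    (s t : F) : hG.xN a s * hG.xN b t = hG.xN b t * hG.xN a s := by
  rw [hG.xN_of_lt ha, hG.xN_of_lt hb]
  have := hG.comm_gen2 hGF ha (S := fun w => w = b) (fun w hw => by subst hw; exact ⟨hb, h⟩) s (g := hG.xU hb t)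
    (Subgroup.subset_closure ⟨b, t, rfl, hG.xU_coe _ _⟩)
  exact this.eq

lemma xL_perm2 [CharP F 2] (hGF : GF T D L') {L L' : List ℕ} (hL : ∀ r ∈ L, r < D.nroots) (hp : L.Pairwise (Or2 D)) (h : L.Perm L') :
    (hG.xL L : GL D.Idx F) = hG.xL L' := by
  rw [hG.xL_eq_prod, hG.xL_eq_prod]
  apply List.Perm.prod_eq' (h.map _)
  rw [List.pairwise_map]
  refine (List.Pairwise.imp_of_mem ?_ hp)
  intro a b ha hb hab
  exact hG.xN_comm_orth2 hGF (hL a ha) (hL b hb) hab.1 1 1

omit hG in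
lemma wperm_fix0 (hF : TreeF0 T D) {w J : List ℕ} (hw : ∀ i ∈ w, i ∈ J) (hJ : ∀ j ∈ J, j < D.rank) {a : ℕ}
    (ha : a < D.nroots) (h : ∀ j ∈ J, T.cart j a = 0) : wperm T w a = a := by
  induction w with
  | nil => rfl
  | cons i w ih =>
    rw [wperm_cons, ih fun j hj => hw j (List.mem_cons_of_mem _ hj)]
    have hi := hw i (by simp)
    exact hF.fix i a (hJ i hi) ha (h i hi)

/-- Moving a root to a dominant root of the subsystem. -/
lemma exists_dom0 (hF : TreeF0 T D) {J : List ℕ} (hJ : ∀ j ∈ J, j < D.rank) :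
    ∀ (N z : ℕ), z < D.nroots → D.nroots - z ≤ N → D.InRootSub {j | j ∈ J} z →
      ∃ w : List ℕ, (∀ i ∈ w, i ∈ J) ∧ D.InRootSub {j | j ∈ J} (wperm T w z) ∧ ∀ j ∈ J, 0 ≤ T.cart j (wperm T w z) := by
  intro N
  induction N with
  | zero =>
    intro z hz h
    omega
  | succ N ih =>
    intro z hz h hin
    by_cases hd : ∀ j ∈ J, 0 ≤ T.cart j z
    · exact ⟨[], by simp, hin, hd⟩
    · push Not at hd
      obtain ⟨j, hj, hneg⟩ := hd
      have h1 := hF.up j z (hJ j hj) hz hneg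
      have h2 := hG.refl_lt' (hJ j hj) hz
      obtain ⟨w, hw, h3, h4⟩ := ih (T.refl j z) h2 (by omega) (hG.inRootSub_refl (hJ j hj) hj hin)
      refine ⟨w ++ [j], ?_, ?_, ?_⟩
      · intro i hi
        rcases List.mem_append.1 hi with hi | hi
        · exact hw i hi
        · rw [List.mem_singleton.1 hi]
          exact hj
      · rw [wperm_append]
        exact h3
      · rw [wperm_append]
        exact h4

/-- Every orthogonal list of roots of a subsystem is carried to a node of the tree. -/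
theorem tree_reach0' (hF : TreeF0 T D) (ok : List ℕ → Bool) :
    ∀ (k : ℕ) (R : List ℕ), R.length ≤ k → ∀ (f : ℕ) (J A : List ℕ), chkTree T ok f J A = true → (∀ j ∈ J, j < D.rank) →
      (∀ a ∈ A, a < D.nroots) → (∀ a ∈ A, ∀ j ∈ J, T.cart j a = 0) → (∀ z ∈ R, D.InRootSub {j | j ∈ J} z) →
      R.Pairwise (Or2 D) → ∃ w : List ℕ, (∀ i ∈ w, i ∈ J) ∧ ok ((A ++ R).map (wperm T w)) = true := by
  intro k
  induction k with
  | zero =>
    intro R hl f J A h _ hAl _ _ _
    have hR : R = [] := List.length_eq_zero_iff.1 (by omega)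
    subst hR
    refine ⟨[], by simp, ?_⟩
    have e : (A ++ []).map (wperm T []) = A := by
      rw [List.append_nil]
      exact List.map_id' A
    rw [e]
    cases f with
    | zero =>
      simp only [chkTree, Bool.and_eq_true] at h
      exact h.1
    | succ f =>
      simp only [chkTree, Bool.and_eq_true] at h
      exact h.1
  | succ k ih =>
    intro R hl f J A h hJ hAl hA hR hp
    cases R with
    | nil => exact ih [] (by simp) f J A h hJ hAl hA (by simp) (by simp)
    | cons z R =>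
    rw [List.pairwise_cons] at hp
    have hz := hR z (by simp)
    obtain ⟨w₁, hw₁, hin, hdom⟩ := hG.exists_dom0 hF hJ (D.nroots - z) z hz.1 le_rfl hz
    have hz' := hin.1
    have hm := hG.mem_domL hz' hin hdom
    have hJ' : ∀ j, j ∈ J.filter (fun j => decide (T.cart j (wperm T w₁ z) = 0)) → j ∈ J ∧ T.cart j (wperm T w₁ z) = 0 := by
      intro j hj
      simpa only [List.mem_filter, decide_eq_true_eq] using hj
    have hw₁' : ∀ i ∈ w₁, i < D.rank := fun i hi => hJ i (hw₁ i hi)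
    cases f with
    | zero =>
      simp only [chkTree, Bool.and_eq_true, List.isEmpty_iff] at h
      rw [h.2] at hm
      simp at hm
    | succ f =>
      simp only [chkTree, Bool.and_eq_true, List.all_eq_true] at h
      have h2 := h.2 _ hm
      obtain ⟨w₂, hw₂, hok⟩ := ih (R.map (wperm T w₁)) (by simp at hl ⊢; omega) f _ (A ++ [wperm T w₁ z]) h2 (fun j hj => hJ j (hJ' j hj).1)
        (fun a ha => by
          rcases List.mem_append.1 ha with ha | ha
          · exact hAl a ha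
          · rw [List.mem_singleton.1 ha]
            exact hz')
        (fun a ha j hj => by
          rcases List.mem_append.1 ha with ha | ha
          · exact hA a ha j (hJ' j hj).1
          · rw [List.mem_singleton.1 ha]
            exact (hJ' j hj).2)
        (fun y hy => by
          obtain ⟨y₀, hy₀, rfl⟩ := List.mem_map.1 hy
          have h3 := hG.or2_wperm hw₁' hz.1 (hR y₀ (List.mem_cons_of_mem _ hy₀)).1 (hp.1 y₀ hy₀)
          exact hG.perp_inJ hz' hJ hdom (hG.inRootSub_wperm hw₁ hJ (hR y₀ (List.mem_cons_of_mem _ hy₀))) h3.2)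
        (hG.pairwise_wperm hw₁' (fun y hy => (hR y (List.mem_cons_of_mem _ hy)).1) hp.2)
      refine ⟨w₂ ++ w₁, ?_, ?_⟩
      · intro i hi
        rcases List.mem_append.1 hi with hi | hi
        · exact (hJ' i (hw₂ i hi)).1
        · exact hw₁ i hi
      · have e : (A ++ z :: R).map (wperm T (w₂ ++ w₁)) = (A ++ [wperm T w₁ z] ++ R.map (wperm T w₁)).map (wperm T w₂) := by
          simp only [List.map_append, List.map_cons, List.map_nil, List.map_map, List.append_assoc, List.singleton_append]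
          congr 1
          · apply List.map_congr_left
            intro a ha
            rw [wperm_append, wperm_fix0 hF hw₁ hJ (hAl a ha) (hA a ha)]
          · congr 1
            · exact wperm_append _ _ _
            · apply List.map_congr_left
              intro a _
              exact wperm_append _ _ _
        rw [e]
        exact hok

/-- The fusion: every nonempty orthogonal list of roots is conjugate to a representative. -/
theorem fuse2 [CharP F 2] (hGF : GF T D L') (hF : TreeF0 T D) (Reps : List (List ℕ)) (fus : List (List ℕ × List ℕ × List ℕ))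
    (hfus : ∀ f ∈ fus, f.2.2 ∈ Reps ∧ T.chkWEq 2 (wL f.2.1 ++ wL f.1) (wL f.2.2 ++ wL f.2.1) = true)
    (ok : List ℕ → Bool) (fuel : ℕ)
    (htree : chkTree T ok fuel (List.range T.l) [] = true)
    (hok : ∀ A, ok A = true → A = [] ∨ ∃ w : List ℕ, (∀ i ∈ w, i < D.rank) ∧ ∃ f ∈ fus, (A.map (wperm T w)).Perm f.1)
    {R : List ℕ} (hRl : ∀ r ∈ R, r < D.nroots) (hp : R.Pairwise (Or2 D)) (hR : R ≠ []) :
    ∃ rep ∈ Reps, ∃ h ∈ D.group F, h * hG.xL R * h⁻¹ = hG.xL rep := by
  have hC := hG.correct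
  have hrange : ∀ j ∈ List.range T.l, j < D.rank := fun j hj => by
    rw [← hC.l_eq]
    exact List.mem_range.1 hj
  obtain ⟨w, hw, hokw⟩ := hG.tree_reach0' hF ok R.length R le_rfl fuel (List.range T.l) [] htree hrange (by simp) (by simp)
    (fun z hz => ⟨hRl z hz, fun i hi hni => by
      exfalso
      apply hni
      show i ∈ List.range T.l
      rw [List.mem_range, hC.l_eq]
      exact hi⟩) hp
  rw [List.nil_append] at hokw
  have hw' : ∀ i ∈ w, i < D.rank := fun i hi => hrange i (hw i hi)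
  obtain ⟨g₁, hg₁, e₁⟩ := hG.exists_conj_wperm (F := F) w hw' R hRl
  have hAl : ∀ a ∈ R.map (wperm T w), a < D.nroots := fun a ha => by
    obtain ⟨s, hs, rfl⟩ := List.mem_map.1 ha
    exact hG.wperm_lt hw' (hRl s hs)
  have hAp := hG.pairwise_wperm hw' hRl hp
  rcases hok _ hokw with h0 | ⟨w₂, hw₂, f, hf, hperm⟩
  · exfalso
    apply hR
    simpa using h0
  obtain ⟨g₂, hg₂, e₂⟩ := hG.exists_conj_wperm (F := F) w₂ hw₂ _ hAl
  have hXl : ∀ a ∈ (R.map (wperm T w)).map (wperm T w₂), a < D.nroots := fun a ha => by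
    obtain ⟨s, hs, rfl⟩ := List.mem_map.1 ha
    exact hG.wperm_lt hw₂ (hAl s hs)
  have hXp := hG.pairwise_wperm hw₂ hAl hAp
  obtain ⟨hrep, hchk⟩ := hfus f hf
  have e3 := hG.wEq (F := F) hchk 1 1
  rw [List.map_append, List.map_append, hG.gW_append, hG.gW_append, hG.gW_wL, hG.gW_wL, hG.gW_wL] at e3
  refine ⟨f.2.2, hrep, hG.xL f.2.1 * g₂ * g₁, Subgroup.mul_mem _ (Subgroup.mul_mem _ (hG.xL_mem _) hg₂) hg₁, ?_⟩
  rw [← mul_inv_eq_iff_eq_mul] at e3
  rw [← e3, ← hG.xL_perm2 hGF hXl hXp hperm, ← e₂, ← e₁]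
  group

/-- The torus makes the parameters equal to one. -/
theorem torus2 [Finite F] [CharP F 2] (hGF : GF T D L') :
    ∀ l : List (ℕ × F), (∀ e ∈ l, PR D e.1 ∧ e.2 ≠ 0) → l.Pairwise (fun a b => D.pairing a.1 b.1 = 0) →
      ∃ g ∈ D.group F, g * hG.gW l * g⁻¹ = hG.xL (l.map Prod.fst) ∧
        ∀ w, w < D.nroots → (∀ e ∈ l, D.pairing e.1 w = 0) → ∀ t : F, g * hG.xN w t * g⁻¹ = hG.xN w t := by
  intro l
  induction l with
  | nil =>
    intro _ _
    exact ⟨1, Subgroup.one_mem _, by simp [xL_nil], fun _ _ _ t => by simp⟩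
  | cons e l ih =>
    intro h1 h2
    obtain ⟨r, c⟩ := e
    rw [List.pairwise_cons] at h2
    have h3 := h1 (r, c) (by simp)
    simp only at h3
    obtain ⟨hr, hc⟩ := h3
    obtain ⟨g', hg', e', hc'⟩ := ih (fun x hx => h1 x (List.mem_cons_of_mem _ hx)) h2.2
    have hchar : ringChar F = 2 := ringChar.eq F 2
    obtain ⟨s, hs⟩ := FiniteField.isSquare_of_char_two hchar c⁻¹
    have hs0 : s ≠ 0 := by
      rintro rfl
      rw [mul_zero] at hs
      exact inv_ne_zero hc hs
    have hH : hG.hU hr.1 hs0 ∈ D.group F := hG.N_le_group ((le_sup_left : _ ≤ D.monomialSubgroup F) (hG.hU_mem hr.1 hs0))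
    have hfix : ∀ w, w < D.nroots → D.pairing r w = 0 → ∀ t : F,
        hG.hU hr.1 hs0 * hG.xN w t * (hG.hU hr.1 hs0)⁻¹ = hG.xN w t := by
      intro w hw h0 t
      rw [hG.xN_of_lt hw, hG.hU_conj_x hr.1 hw hs0 t, h0]
      simp
    have hfixL : ∀ L : List ℕ, (∀ w ∈ L, w < D.nroots ∧ D.pairing r w = 0) →
        hG.hU hr.1 hs0 * (hG.xL L : GL D.Idx F) * (hG.hU hr.1 hs0)⁻¹ = hG.xL L := by
      intro L
      induction L with
      | nil => intro _; simp [xL_nil]
      | cons w L ih =>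
        intro hL
        have e1 := ih (fun a ha => hL a (List.mem_cons_of_mem _ ha))
        have e2 := hfix w (hL w (by simp)).1 (hL w (by simp)).2 1
        rw [hG.xL_cons]
        calc hG.hU hr.1 hs0 * (hG.xN w 1 * hG.xL L) * (hG.hU hr.1 hs0)⁻¹
            = (hG.hU hr.1 hs0 * hG.xN w 1 * (hG.hU hr.1 hs0)⁻¹) * (hG.hU hr.1 hs0 * hG.xL L * (hG.hU hr.1 hs0)⁻¹) := by group
          _ = _ := by rw [e2, e1]
    have hrr : hG.hU hr.1 hs0 * hG.xN r c * (hG.hU hr.1 hs0)⁻¹ = hG.xN r 1 := by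
      rw [hG.xN_of_lt hr.1, hG.hU_conj_x hr.1 hr.1 hs0 c, hGF.self r hr, hG.xN_of_lt hr.1]
      congr 1
      have e3 : s ^ (2 : ℤ) = c⁻¹ := by
        rw [hs]
        exact zpow_two s
      rw [e3]
      exact inv_mul_cancel₀ hc
    refine ⟨hG.hU hr.1 hs0 * g', Subgroup.mul_mem _ hH hg', ?_, ?_⟩
    · have hsym : ∀ x ∈ l, D.pairing x.1 r = 0 := fun x hx => by
        have hx' := h1 x (List.mem_cons_of_mem _ hx)
        exact (hGF.orth r x.1 hr.1 hx'.1.1 (h2.1 x hx)).1
      rw [hG.gW_cons, List.map_cons, hG.xL_cons]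
      simp only
      have e5 := hc' r hr.1 (fun x hx => hsym x hx) c
      have e6 := hfixL (l.map Prod.fst) (fun w hw => by
        obtain ⟨x, hx, rfl⟩ := List.mem_map.1 hw
        exact ⟨(h1 x (List.mem_cons_of_mem _ hx)).1.1, h2.1 x hx⟩)
      calc hG.hU hr.1 hs0 * g' * (hG.xN r c * hG.gW l) * (hG.hU hr.1 hs0 * g')⁻¹
          = hG.hU hr.1 hs0 * (g' * hG.xN r c * g'⁻¹) * (g' * hG.gW l * g'⁻¹) * (hG.hU hr.1 hs0)⁻¹ := by group
        _ = (hG.hU hr.1 hs0 * hG.xN r c * (hG.hU hr.1 hs0)⁻¹) * (hG.hU hr.1 hs0 * hG.xL (l.map Prod.fst) * (hG.hU hr.1 hs0)⁻¹) := by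
          rw [e5, e']
          group
        _ = _ := by rw [hrr, e6]
    · intro w hw h5 t
      have e7 := hc' w hw (fun x hx => h5 x (List.mem_cons_of_mem _ hx)) t
      have e8 := hfix w hw (h5 (r, c) (by simp)) t
      calc hG.hU hr.1 hs0 * g' * hG.xN w t * (hG.hU hr.1 hs0 * g')⁻¹
          = hG.hU hr.1 hs0 * (g' * hG.xN w t * g'⁻¹) * (hG.hU hr.1 hs0)⁻¹ := by group
        _ = _ := by rw [e7, e8]

end Tbl.Good2

/-- Every involution of the group is conjugate to a product of root elements of orthogonal roots. -/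
theorem inv_conj_orth [Finite F] [CharP F 2] (hG3 : T.Good3 D) {L' : ℕ → ℤ} (hGF : GF T D L')
    {v : GL D.Idx F} (hv : v ∈ D.group F) (h2 : v * v = 1) (h1 : v ≠ 1) :
    ∃ R : List ℕ, (∀ r ∈ R, r < D.nroots) ∧ R.Pairwise (Or2 D) ∧ R ≠ [] ∧ ∃ h ∈ D.group F, h * v * h⁻¹ = hG3.toGood2.xL R := by
  have hG := hG3.toGood2
  obtain ⟨g₁, hg₁, hu⟩ := exists_conj_U hG3 hv h2
  have hu2 : (g₁ * v * g₁⁻¹) * (g₁ * v * g₁⁻¹) = 1 := by
    have e' : g₁ * v * g₁⁻¹ * (g₁ * v * g₁⁻¹) = g₁ * (v * v) * g₁⁻¹ := by group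
    rw [e', h2]
    simp
  have hU : g₁ * v * g₁⁻¹ ∈ rootsGen D F (PA D []) :=
    rootsGen_mono0 (fun w hw => ⟨hw, by simp⟩) (hG.U_le_rootsGen hu)
  obtain ⟨l, g₂, hg₂, -, e₂, hl, hp⟩ := hG.elim_allG hGF D.nroots [] (by simp) (fun Q hQ => by
    have : Q ⊆ Finset.range D.nroots := fun w hw => Finset.mem_range.2 (hQ w hw).1.1
    simpa using Finset.card_le_card this) _ hU hu2
  obtain ⟨g₃, hg₃, e₃, _⟩ := hG.torus2 hGF l (fun e he => ⟨(hl e he).1.1, (hl e he).2⟩) hp
  have hRl : ∀ r ∈ l.map Prod.fst, r < D.nroots := fun r hr => by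
    obtain ⟨x, hx, rfl⟩ := List.mem_map.1 hr
    exact (hl x hx).1.1.1
  have hRp : (l.map Prod.fst).Pairwise (Or2 D) := by
    rw [List.pairwise_map]
    refine List.Pairwise.imp_of_mem (fun {a b} ha hb h => ⟨h, ?_⟩) hp
    exact (hGF.orth a.1 b.1 (hl a ha).1.1.1 (hl b hb).1.1.1 h).1
  have hRne : l.map Prod.fst ≠ [] := by
    intro h0
    apply h1
    have h3 : l = [] := List.map_eq_nil_iff.1 h0
    rw [h3, hG.gW_nil] at e₂
    have h4 : g₂ * (g₁ * v * g₁⁻¹) * g₂⁻¹ = 1 := e₂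
    have h5 : g₁ * v * g₁⁻¹ = 1 := by
      have := congrArg (fun a => g₂⁻¹ * a * g₂) h4
      simpa [mul_assoc] using this
    have := congrArg (fun a => g₁⁻¹ * a * g₁) h5
    simpa [mul_assoc] using this
  refine ⟨_, hRl, hRp, hRne, g₃ * g₂ * g₁, Subgroup.mul_mem _ (Subgroup.mul_mem _ hg₃ hg₂) hg₁, ?_⟩
  rw [← e₃, ← e₂]
  group

end

end Cfsg.Agent.Lib.Chev
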