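/-
Involutions in Chevalley groups in characteristic two, for root systems with two root lengths: the kernel checks of the
facts on the root system.
-/
import Cfsg.Agent.Lib.ChInv.El2c

set_option autoImplicit false

namespace Cfsg.Agent.Lib.Chev

open Cfsg.Lie

/-- The terms of odd coefficient and positive grade. -/
noncomputable def posOdd (T : Tbl) (r : ℕ) (q : ℕ × ℤ × ℕ × ℕ) : Bool :=
  and (dvdZ 2 (q.2.1 + 1)) (intNeg (- T.pairT r q.1))

/-- The check of the term of positive grade. -/
noncomputable def chkNegT (T : Tbl) (r z : ℕ) : Bool :=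
  match filterF (posOdd T r) (T.commF r z) with
  | [q] => and (Nat.beq q.2.2.2 1) <| and (intEq (q.2.2.1 : ℤ) (- T.pairT r z)) <| and (Nat.ble (T.n / 2) q.1) (Nat.blt q.1 T.n)
  | _ => false

/-- The check of the term of positive grade, with a given root. -/
noncomputable def chkK (T : Tbl) (r z k : ℕ) : Bool :=
  match filterF (posOdd T r) (T.commF r z) with
  | [q] => and (Nat.beq q.1 k) <| and (Nat.beq q.2.2.2 1) (intEq (q.2.2.1 : ℤ) (- T.pairT r z))
  | _ => false

/-- The check of a reflection moving `r` to a smaller root. -/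
noncomputable def chkEx (T : Tbl) (r k : ℕ) (W : List ℕ) : Bool :=
  and (W.all fun i => Nat.blt i T.l) <|
  and (Nat.blt (wperm T W r) r) <| and (Nat.ble (T.n / 2) (wperm T W r)) <|
  and (allBelow T.n fun w => cond (and (Nat.ble (T.n / 2) w) (Nat.blt r w)) (Nat.blt (wperm T W r) (wperm T W w)) true) <|
  allBelow T.n fun a => cond (and (intZero (T.pairT r a)) (intZero (T.pairT k a))) (Nat.beq (wperm T W a) a) true

/-- The check for a pair with `0 < pairing r k`. -/
noncomputable def chkTop (T : Tbl) (exL : List (ℕ × ℕ × List ℕ)) (r k : ℕ) : Bool :=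
  or ((List.range T.n).any fun d => and (Nat.ble (T.n / 2) d) (and (not (Nat.beq r d)) (chkK T r d k)))
    (exL.any fun e => and (Nat.beq e.1 r) (and (Nat.beq e.2.1 k) (chkEx T r k e.2.2)))

/-- The check for a pair of positive roots. -/
noncomputable def chkPos2 (T : Tbl) (exL : List (ℕ × ℕ × List ℕ)) (r z : ℕ) : Bool :=
  cond (Nat.beq r z) (intEq (T.pairT r r) 2) <|
    and (cond (intNeg (T.pairT r z)) (chkNegT T r z) (allF (fun q => dvdZ 2 q.2.1) (T.commF r z))) <|
      cond (and (Nat.blt r z) (intNeg (- T.pairT r z))) (chkTop T exL r z) true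

/-- The check of the facts used in the elimination. -/
noncomputable def chkGF (T : Tbl) (μ : ℕ → ℤ) (exL : List (ℕ × ℕ × List ℕ)) : Bool :=
  and (allBelow (T.n - 1) fun a => decide (Lt T μ a < Lt T μ (a + 1))) <|
  and (decide (0 < Lt T μ (T.n / 2))) <|
  and (allBelow T.n fun a => allBelow T.n fun b => cond (intZero (T.pairT a b))
      (and (intZero (T.pairT b a)) <| and (not (Nat.beq a b)) <| and (not (Nat.beq b (T.neg a))) <|
        allF (fun q => dvdZ 2 q.2.1) (T.commF a b)) true) <|
  and (allBelow T.n fun k => cond (Nat.ble (T.n / 2) k) ((List.range T.l).any fun i => dvdZ 2 (T.cart i k + 1)) true) <|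
  allBelow T.n fun r => cond (Nat.ble (T.n / 2) r)
    (allBelow T.n fun z => cond (Nat.ble (T.n / 2) z) (chkPos2 T exL r z) true) true

/-- The check of the facts on the Weyl group action. -/
noncomputable def chkTF0 (T : Tbl) : Bool :=
  allBelow T.l fun i => allBelow T.n fun z =>
    and (cond (intNeg (T.cart i z)) (Nat.blt z (T.refl i z)) true)
      (cond (intZero (T.cart i z)) (Nat.beq (T.refl i z) z) true)

lemma filterF_single {α : Type*} {f : α → Bool} {l : List α} {q : α} (h : filterF f l = [q]) :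
    ∃ l₁ l₂, l = l₁ ++ q :: l₂ ∧ f q = true ∧ ∀ x ∈ l₁ ++ l₂, f x = false := by
  induction l with
  | nil => simp at h
  | cons a l ih =>
    rw [filterF_cons] at h
    cases ha : f a with
    | false =>
      rw [ha, cond_false] at h
      obtain ⟨l₁, l₂, e, hq, hx⟩ := ih h
      refine ⟨a :: l₁, l₂, by simp [e], hq, fun x hx' => ?_⟩
      rcases List.mem_cons.1 hx' with rfl | h2
      · exact ha
      · exact hx x h2
    | true =>
      rw [ha, cond_true] at h
      have h1 := List.cons.inj h
      have h1a := h1.1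
      subst h1a
      refine ⟨[], l, rfl, ha, fun x hx => ?_⟩
      have h2 : filterF f l = [] := h1.2
      simp only [List.nil_append] at hx
      clear ih h h1 ha
      induction l with
      | nil => simp at hx
      | cons b l ih2 =>
        rw [filterF_cons] at h2
        cases hb : f b with
        | true =>
          rw [hb, cond_true] at h2
          exact absurd h2 (by simp)
        | false =>
          rw [hb, cond_false] at h2
          rcases List.mem_cons.1 hx with rfl | h3
          · exact hb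
          · exact ih2 h3 h2

lemma dvdZ_odd_iff {m : ℤ} : dvdZ 2 (m + 1) = true ↔ Odd m := by
  constructor
  · exact odd_of_dvdZ
  · intro h
    obtain ⟨k, rfl⟩ := h
    have : (2 * k + 1 + 1) % ((2 : ℕ) : ℤ) = 0 := by
      push_cast
      omega
    simpa [dvdZ, intEq] using this

lemma dvdZ_even {m : ℤ} (h : dvdZ 2 m = true) : Even m := by
  have h1 := dvdZ_spec h
  obtain ⟨k, hk⟩ := h1
  exact ⟨k, by push_cast at hk; omega⟩

section

variable {F : Type*} [Field F] {D : ChevalleyDatum} {T : Tbl}

namespace Tbl.Good2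

variable (hG : T.Good2 D)
include hG

lemma commTerms_eqF {r w : ℕ} (hr : r < D.nroots) (hw : w < D.nroots) : D.commTerms r w = T.commF r w := by
  rw [commF_eq, commT_eq hG.correct hG.sane hr hw]

lemma dterm_of_filter {r z : ℕ} (hr : r < D.nroots) (hz : z < D.nroots) {q : ℕ × ℤ × ℕ × ℕ}
    (h : filterF (posOdd T r) (T.commF r z) = [q]) (h1 : q.2.2.2 = 1) (h2 : (q.2.2.1 : ℤ) = - T.pairT r z) :
    DTerm D r z q.1 q.2.2.1 := by
  obtain ⟨l₁, l₂, e, hq, hx⟩ := filterF_single h
  obtain ⟨k, m, i, j⟩ := q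
  simp only at h1 h2 ⊢
  subst h1
  have e' := hG.commTerms_eqF hr hz
  rw [← e'] at e
  have hl := hG.commTerms_lt hr hz
  rw [e] at hl
  refine ⟨l₁, l₂, m, e, ?_, ?_, ?_⟩
  · rw [h2, hG.pairT_eq hr hz]
  · unfold posOdd at hq
    rw [Bool.and_eq_true] at hq
    exact dvdZ_odd_iff.1 hq.1
  · intro a ha hodd
    have h3 := hx a ha
    unfold posOdd at h3
    rw [Bool.and_eq_false_iff] at h3
    rcases h3 with h3 | h3
    · have := dvdZ_odd_iff.2 hodd
      rw [this] at h3
      exact absurd h3 (by simp)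
    · have hal : a.1 < D.nroots := by
        rcases List.mem_append.1 ha with h4 | h4
        · exact hl a (List.mem_append_left _ h4)
        · exact hl a (List.mem_append_right _ (List.mem_cons_of_mem _ h4))
      rw [← hG.pairT_eq hr hal]
      by_contra h5
      have h6 : - T.pairT r a.1 < 0 := by omega
      rw [(intNeg_eq_true_iff _).2 h6] at h3
      exact absurd h3 (by simp)

lemma chkNegT_spec {r z : ℕ} (hr : r < D.nroots) (hz : z < D.nroots) (h : chkNegT T r z = true) :
    ∃ k i, PR D k ∧ DTerm D r z k i := by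
  have hC := hG.correct
  unfold chkNegT at h
  split at h
  · rename_i q hq
    rw [Bool.and_eq_true, Bool.and_eq_true, Bool.and_eq_true] at h
    obtain ⟨h1, h2, h3, h4⟩ := h
    refine ⟨q.1, q.2.2.1, ?_, hG.dterm_of_filter hr hz hq (Nat.eq_of_beq_eq_true h1) (intEq_spec h2)⟩
    have h5 := Nat.le_of_ble_eq_true h3
    have h6 : q.1 < T.n := Nat.le_of_ble_eq_true h4
    rw [hC.n_eq] at h5 h6
    exact ⟨h6, h5⟩
  · exact absurd h (by simp)

lemma chkK_spec {r z k : ℕ} (hr : r < D.nroots) (hz : z < D.nroots) (h : chkK T r z k = true) :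
    ∃ i, DTerm D r z k i := by
  unfold chkK at h
  split at h
  · rename_i q hq
    rw [Bool.and_eq_true, Bool.and_eq_true] at h
    obtain ⟨h1, h2, h3⟩ := h
    have := hG.dterm_of_filter hr hz hq (Nat.eq_of_beq_eq_true h2) (intEq_spec h3)
    rw [Nat.eq_of_beq_eq_true h1] at this
    exact ⟨_, this⟩
  · exact absurd h (by simp)

lemma chkEx_spec {r k : ℕ} (hr : r < D.nroots) (hk : k < D.nroots) {W : List ℕ} (h : chkEx T r k W = true) : ExW T D r k := by
  have hC := hG.correct
  unfold chkEx at h
  simp only [Bool.and_eq_true, List.all_eq_true] at h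
  obtain ⟨h1, h2, h3, h4, h5⟩ := h
  have hW : ∀ i ∈ W, i < D.rank := fun i hi => by
    have : i < T.l := Nat.le_of_ble_eq_true (h1 i hi)
    rwa [hC.l_eq] at this
  have h3' := Nat.le_of_ble_eq_true h3
  rw [hC.n_eq] at h3'
  refine ⟨W, wperm T W r, hW, rfl, Nat.le_of_ble_eq_true h2, ⟨hG.wperm_lt hW hr, h3'⟩, ?_, ?_⟩
  · intro w hw hrw
    have h6 := allBelow_spec h4 w (hG.lt_n hw.1)
    have h7 : Nat.ble (T.n / 2) w = true := by
      rw [hC.n_eq]
      exact Nat.ble_eq_true_of_le hw.2
    have h8 : Nat.blt r w = true := Nat.ble_eq_true_of_le hrw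
    rw [h7, h8] at h6
    exact Nat.le_of_ble_eq_true h6
  · intro a ha h6 h7
    have h8 := allBelow_spec h5 a (hG.lt_n ha)
    rw [(intZero_eq_true_iff _).2 (by rw [hG.pairT_eq hr ha]; exact h6), (intZero_eq_true_iff _).2 (by rw [hG.pairT_eq hk ha]; exact h7)] at h8
    exact Nat.eq_of_beq_eq_true h8

lemma chkTop_spec {exL : List (ℕ × ℕ × List ℕ)} {r k : ℕ} (hr : r < D.nroots) (hk : k < D.nroots)
    (h : chkTop T exL r k = true) : (∃ d i, PR D d ∧ DTerm D r d k i) ∨ ExW T D r k := by
  have hC := hG.correct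
  unfold chkTop at h
  rw [Bool.or_eq_true, List.any_eq_true, List.any_eq_true] at h
  rcases h with ⟨d, hd, h⟩ | ⟨e, _, h⟩
  · left
    rw [Bool.and_eq_true, Bool.and_eq_true] at h
    have hd' : d < D.nroots := by
      rw [← hC.n_eq]
      exact List.mem_range.1 hd
    have h2 := Nat.le_of_ble_eq_true h.1
    rw [hC.n_eq] at h2
    obtain ⟨i, hi⟩ := hG.chkK_spec hr hd' h.2.2
    exact ⟨d, i, ⟨hd', h2⟩, hi⟩
  · right
    rw [Bool.and_eq_true, Bool.and_eq_true] at h
    exact hG.chkEx_spec hr hk h.2.2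

/-- The facts from the check. -/
theorem gfFacts (μ : ℕ → ℤ) (exL : List (ℕ × ℕ × List ℕ)) (hn0 : D.nroots / 2 < D.nroots) (h : chkGF T μ exL = true) :
    GF T D (fun w => ∑ i ∈ Finset.range D.rank, μ i * D.cartan i w) := by
  have hC := hG.correct
  have hS := hG.sane
  unfold chkGF at h
  rw [Bool.and_eq_true, Bool.and_eq_true, Bool.and_eq_true, Bool.and_eq_true] at h
  obtain ⟨h1, h2, h3, h4, h5⟩ := h
  have hmono1 : ∀ a, a + 1 < D.nroots → Lt T μ a < Lt T μ (a + 1) := by
    intro a ha
    have h6 := allBelow_spec h1 a (by rw [hC.n_eq]; omega)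
    exact of_decide_eq_true h6
  have hP : ∀ r z, PR D r → PR D z → chkPos2 T exL r z = true := by
    intro r w hr hw
    have h6 := allBelow_spec h5 r (hG.lt_n hr.1)
    have hb : Nat.ble (T.n / 2) r = true := by
      rw [hC.n_eq]
      exact Nat.ble_eq_true_of_le hr.2
    rw [hb] at h6
    have h7 := allBelow_spec h6 w (hG.lt_n hw.1)
    have hb' : Nat.ble (T.n / 2) w = true := by
      rw [hC.n_eq]
      exact Nat.ble_eq_true_of_le hw.2
    rw [hb'] at h7
    exact h7
  have hkey : ∀ r z, PR D r → PR D z → r ≠ z →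
      (T.pairT r z < 0 → chkNegT T r z = true) ∧ (0 ≤ T.pairT r z → allF (fun q => dvdZ 2 q.2.1) (T.commF r z) = true) ∧
      (r < z → 0 < T.pairT r z → chkTop T exL r z = true) := by
    intro r z hr hz hne
    have h6 := hP r z hr hz
    unfold chkPos2 at h6
    rw [show Nat.beq r z = false from beq_false hne, cond_false, Bool.and_eq_true] at h6
    obtain ⟨h7, h8⟩ := h6
    refine ⟨fun h0 => ?_, fun h0 => ?_, fun h0 h9 => ?_⟩
    · rwa [(intNeg_eq_true_iff _).2 h0, cond_true] at h7
    · have : intNeg (T.pairT r z) = false := by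
        cases h10 : intNeg (T.pairT r z) with
        | false => rfl
        | true =>
          have := (intNeg_eq_true_iff _).1 h10
          omega
      rwa [this, cond_false] at h7
    · have h10 : Nat.blt r z = true := Nat.ble_eq_true_of_le h0
      have h11 : intNeg (- T.pairT r z) = true := (intNeg_eq_true_iff _).2 (by omega)
      rwa [h10, h11, Bool.and_self, cond_true] at h8
  refine ⟨hG.addF_sum μ, ?_, ?_, ?_, ?_, ?_, ?_, ?_, ?_⟩
  · intro a b hab hb
    simp only [← hG.Lt_eq μ (by omega : a < D.nroots), ← hG.Lt_eq μ hb]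
    induction b, hab using Nat.le_induction with
    | base => exact hmono1 a hb
    | succ b hab ih => exact (ih (by omega)).trans (hmono1 b hb)
  · have h7 := of_decide_eq_true h2
    rw [hC.n_eq] at h7
    rw [← hG.Lt_eq μ hn0]
    exact h7
  · intro r hr
    have h6 := hP r r hr hr
    unfold chkPos2 at h6
    rw [show Nat.beq r r = true from Nat.beq_refl r, cond_true] at h6
    rw [← hG.pairT_eq hr.1 hr.1]
    exact intEq_spec h6
  · intro a b ha hb h0
    have h6 := allBelow_spec (allBelow_spec h3 a (hG.lt_n ha)) b (hG.lt_n hb)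
    rw [← hG.pairT_eq ha hb] at h0
    rw [(intZero_eq_true_iff _).2 h0, cond_true, Bool.and_eq_true, Bool.and_eq_true, Bool.and_eq_true] at h6
    obtain ⟨h7, h8, h9, h10⟩ := h6
    refine ⟨?_, ?_, ?_, ?_⟩
    · rw [← hG.pairT_eq hb ha]
      exact intZero_spec h7
    · intro e
      rw [e, show Nat.beq b b = true from Nat.beq_refl b] at h8
      exact absurd h8 (by simp)
    · intro e
      rw [hC.neg_eq a ha, ← e, show Nat.beq b b = true from Nat.beq_refl b] at h9
      exact absurd h9 (by simp)
    · intro q hq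
      rw [hG.commTerms_eqF ha hb] at hq
      exact dvdZ_even (allF_spec h10 q hq)
  · intro r z hr hz hne h0
    rw [← hG.pairT_eq hr.1 hz.1] at h0
    exact hG.chkNegT_spec hr.1 hz.1 ((hkey r z hr hz hne).1 h0)
  · intro r z hr hz hne h0 q hq
    rw [← hG.pairT_eq hr.1 hz.1] at h0
    rw [hG.commTerms_eqF hr.1 hz.1] at hq
    exact dvdZ_even (allF_spec ((hkey r z hr hz hne).2.1 h0) q hq)
  · intro k hk
    have h6 := allBelow_spec h4 k (hG.lt_n hk.1)
    have hb : Nat.ble (T.n / 2) k = true := by
      rw [hC.n_eq]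
      exact Nat.ble_eq_true_of_le hk.2
    rw [hb, cond_true, List.any_eq_true] at h6
    obtain ⟨i, hi, h7⟩ := h6
    have hi' : i < D.rank := by
      rw [← hC.l_eq]
      exact List.mem_range.1 hi
    refine ⟨i, hi', ?_⟩
    rw [← hC.cart_eq i k hi' hk.1]
    exact odd_of_dvdZ h7
  · intro r k hr hk hlt h0
    rw [← hG.pairT_eq hr.1 hk.1] at h0
    exact hG.chkTop_spec hr.1 hk.1 ((hkey r k hr hk (by omega)).2.2 hlt h0)

/-- The facts on the Weyl group from the check. -/
theorem treeF0 (h : chkTF0 T = true) : TreeF0 T D := by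
  have hC := hG.correct
  unfold chkTF0 at h
  have h3 : ∀ i z, i < D.rank → z < D.nroots → _ := fun i z hi hz =>
    allBelow_spec (allBelow_spec h i (hG.lt_l hi)) z (hG.lt_n hz)
  constructor
  · intro i z hi hz hneg
    have h4 := h3 i z hi hz
    rw [Bool.and_eq_true, (intNeg_eq_true_iff _).2 hneg, cond_true] at h4
    exact Nat.le_of_ble_eq_true h4.1
  · intro i z hi hz h0
    have h4 := h3 i z hi hz
    rw [Bool.and_eq_true, (intZero_eq_true_iff _).2 h0, cond_true] at h4
    exact Nat.eq_of_beq_eq_true h4.2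

end Tbl.Good2

end

end Cfsg.Agent.Lib.Chev
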