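/-
Involutions in Chevalley groups in characteristic two, for root systems with two root lengths: the rank of `x - 1` on an
invariant subspace spanned by basis vectors, and the classes of involutions from the conjugacy statement.
-/
import Cfsg.Agent.Lib.ChInv.El2d
import Cfsg.Agent.Lib.ChevAut.Exc3

set_option autoImplicit false

namespace Cfsg.Agent.Lib.Chev

open Cfsg.Lie

/-- The certificate for an upper bound of the rank on the subspace. -/
noncomputable def chkUpI (T : Tbl) (inI : ℕ → Bool) (L C : List ℕ) (cf : List (List ℕ)) : Bool :=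
  allBelow (T.n + T.l) fun k => cond (inI k) (((cf.getD k []).all fun c => C.contains c) && eqSVp 2 (vS T L k) (vC T L (cf.getD k []))) true

/-- The certificate for a lower bound of the rank on the subspace. -/
noncomputable def chkLoI (T : Tbl) (inI : ℕ → Bool) (L : List ℕ) (cert : List (ℕ × List ℕ × List ℕ)) : Bool :=
  chkLo T L cert && cert.all fun e => e.2.1.all inI

section

variable {F : Type*} [Field F] {D : ChevalleyDatum} {T : Tbl}

/-- The projection to the coordinates in a block. -/
noncomputable def prI (F : Type*) [Field F] {D : ChevalleyDatum} (bI : D.Idx → Bool) : Matrix D.Idx D.Idx F :=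
  Matrix.diagonal fun x => if bI x = true then 1 else 0

lemma prI_mul {bI : D.Idx → Bool} {M : Matrix D.Idx D.Idx F} (hM : IsBlk bI M) : prI F bI * (M * prI F bI) = M * prI F bI := by
  ext r c
  unfold prI
  rw [Matrix.diagonal_mul, Matrix.mul_diagonal]
  by_cases h1 : bI c = true
  · by_cases h2 : bI r = true
    · simp [h2]
    · have h3 : bI r = false := by simpa using h2
      rw [hM r c h1 h3]
      simp
  · simp [h1]

lemma rankI_le {bI : D.Idx → Bool} {h : GL D.Idx F} (hi : IsBlk bI ((h⁻¹ : GL D.Idx F) : Matrix D.Idx D.Idx F)) (a : GL D.Idx F) :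
    ((((h * a * h⁻¹ : GL D.Idx F) : Matrix D.Idx D.Idx F) - 1) * prI F bI).rank ≤ (((a : Matrix D.Idx D.Idx F) - 1) * prI F bI).rank := by
  have e : (((h * a * h⁻¹ : GL D.Idx F) : Matrix D.Idx D.Idx F) - 1) * prI F bI =
      (h : Matrix D.Idx D.Idx F) * ((((a : Matrix D.Idx D.Idx F) - 1) * prI F bI) * (((h⁻¹ : GL D.Idx F) : Matrix D.Idx D.Idx F) * prI F bI)) := by
    have e1 := prI_mul hi
    calc (((h * a * h⁻¹ : GL D.Idx F) : Matrix D.Idx D.Idx F) - 1) * prI F bI
        = (h : Matrix D.Idx D.Idx F) * ((a : Matrix D.Idx D.Idx F) - 1) * (((h⁻¹ : GL D.Idx F) : Matrix D.Idx D.Idx F) * prI F bI) := by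
          have e2 : ((h : Matrix D.Idx D.Idx F)) * ((h⁻¹ : GL D.Idx F) : Matrix D.Idx D.Idx F) = 1 := by
            rw [← Units.val_mul, mul_inv_cancel]
            rfl
          simp only [Units.val_mul, mul_sub, sub_mul, mul_one, Matrix.mul_assoc, one_mul]
          rw [← Matrix.mul_assoc (h : Matrix D.Idx D.Idx F) ((h⁻¹ : GL D.Idx F) : Matrix D.Idx D.Idx F) (prI F bI), e2, Matrix.one_mul]
      _ = (h : Matrix D.Idx D.Idx F) * ((a : Matrix D.Idx D.Idx F) - 1) * (prI F bI * (((h⁻¹ : GL D.Idx F) : Matrix D.Idx D.Idx F) * prI F bI)) := by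
          rw [e1]
      _ = _ := by
          simp only [Matrix.mul_assoc]
  rw [e]
  exact (Matrix.rank_mul_le_right _ _).trans (Matrix.rank_mul_le_left _ _)

/-- A lower bound for the rank of a matrix from images of sums of basis vectors. -/
lemma rank_ge_gen {M : Matrix D.Idx D.Idx F} {cert : List (ℕ × List ℕ × List ℕ)}
    (hQ : ∀ e ∈ cert, M.mulVec ((e.2.1.map fun k => bvec D F k).sum) = toVec D (bitsV e.2.2) (1 : F) 1)
    (hk : ∀ e ∈ cert, e.1 < D.nroots + D.rank ∧ e.2.2.count e.1 = 1) (h2 : cert.Pairwise fun a b => b.2.2.count a.1 = 0) :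
    cert.length ≤ M.rank := by
  classical
  have hcode : ∀ k, k < D.nroots + D.rank → ∃ x : D.Idx, code D x = k := by
    intro k hk
    by_cases h3 : k < D.nroots
    · exact ⟨Sum.inr ⟨k, h3⟩, rfl⟩
    · refine ⟨Sum.inl ⟨k - D.nroots, by omega⟩, ?_⟩
      simp only [code]
      omega
  choose row hrow using fun i : Fin cert.length => hcode _ (hk _ (List.getElem_mem i.2)).1
  let q : Fin cert.length → (D.Idx → F) := fun j => ((cert[j.val]).2.1.map fun k => bvec D F k).sum
  let Q : Matrix D.Idx (Fin cert.length) F := Matrix.of fun x j => q j x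
  let P : Matrix (Fin cert.length) D.Idx F := Matrix.of fun i x => if x = row i then 1 else 0
  have hS : ∀ i j, (P * (M * Q)) i j = ((cert[j.val]).2.2.count (cert[i.val]).1 : F) := by
    intro i j
    rw [Matrix.mul_apply, Finset.sum_eq_single (row i)]
    · have e1 : P i (row i) = 1 := by simp [P]
      have e2 : (M * Q) (row i) j = M.mulVec (q j) (row i) := rfl
      rw [e1, one_mul, e2, hQ _ (List.getElem_mem j.2), toVec_bitsV, hrow]
    · intro x _ hx
      have e1 : P i x = 0 := by simp [P, hx]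
      rw [e1, zero_mul]
    · simp
  have htri : (P * (M * Q)).BlockTriangular OrderDual.toDual := by
    intro i j hij
    have hij' : i < j := hij
    rw [hS, (List.pairwise_iff_getElem.1 h2) i.val j.val i.2 j.2 hij']
    simp
  have hdet : (P * (M * Q)).det = 1 := by
    rw [Matrix.det_of_lowerTriangular _ htri]
    apply Finset.prod_eq_one
    intro i _
    rw [hS, (hk _ (List.getElem_mem i.2)).2]
    simp
  have hunit : IsUnit (P * (M * Q)) := (Matrix.isUnit_iff_isUnit_det _).2 (by rw [hdet]; exact isUnit_one)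
  have h3 := Matrix.rank_of_isUnit _ hunit
  rw [Fintype.card_fin] at h3
  calc cert.length = (P * (M * Q)).rank := h3.symm
    _ ≤ (M * Q).rank := Matrix.rank_mul_le_right _ _
    _ ≤ M.rank := Matrix.rank_mul_le_left _ _

namespace Tbl.Good2

variable (hG : T.Good2 D)
include hG

/-- The upper bound of the rank on the subspace. -/
theorem rankI_upper [CharP F 2] {inI : ℕ → Bool} {L C : List ℕ} {cf : List (List ℕ)} (hL : ∀ r ∈ L, r < D.nroots)
    (h : chkUpI T inI L C cf = true) : (mL D F L * prI F (fun x => inI (code D x))).rank ≤ C.length := by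
  classical
  have hC := hG.correct
  let f : ℕ → (D.Idx → F) := fun k => (mL D F L).mulVec (bvec D F k)
  let s : Finset (D.Idx → F) := (C.map f).toFinset
  have h1 : ∀ col, (mL D F L * prI F (fun x => inI (code D x))).col col ∈ Submodule.span F (s : Set (D.Idx → F)) := by
    intro col
    have hk := code_lt D col
    have h2 := allBelow_spec h (code D col) (by rw [hC.n_eq, hC.l_eq]; exact hk)
    by_cases hcol : inI (code D col) = true
    · rw [hcol, cond_true, Bool.and_eq_true, List.all_eq_true] at h2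
      have h3 := eqSVp_spec D (F := F) h2.2 1 1
      rw [hG.vC_toVec L hL, ← hG.mL_col L hL] at h3
      have h4 : (mL D F L * prI F (fun x => inI (code D x))).col col = f (code D col) := by
        show _ = (mL D F L).mulVec (bvec D F (code D col))
        rw [mulVec_bvec_code]
        ext row
        simp only [Matrix.col_apply, prI, Matrix.mul_diagonal, hcol, if_true, mul_one]
      rw [h4]
      show (mL D F L).mulVec (bvec D F (code D col)) ∈ _
      rw [h3]
      apply list_sum_mem
      intro x hx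
      obtain ⟨c, hc, rfl⟩ := List.mem_map.1 hx
      apply Submodule.subset_span
      simp only [s, List.coe_toFinset, Set.mem_setOf_eq, List.mem_map]
      exact ⟨c, List.contains_iff_mem.1 (h2.1 c hc), rfl⟩
    · have h4 : (mL D F L * prI F (fun x => inI (code D x))).col col = 0 := by
        ext row
        simp [Matrix.col_apply, prI, Matrix.mul_diagonal, hcol]
      rw [h4]
      exact Submodule.zero_mem _
  have h5 : LinearMap.range (mL D F L * prI F (fun x => inI (code D x))).mulVecLin ≤ Submodule.span F (s : Set (D.Idx → F)) := by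
    rw [Matrix.range_mulVecLin, Submodule.span_le]
    rintro _ ⟨col, rfl⟩
    exact h1 col
  calc (mL D F L * prI F (fun x => inI (code D x))).rank = Module.finrank F (LinearMap.range (mL D F L * prI F (fun x => inI (code D x))).mulVecLin) := rfl
    _ ≤ Module.finrank F (Submodule.span F (s : Set (D.Idx → F))) := Submodule.finrank_mono h5
    _ ≤ s.card := finrank_span_finset_le_card s
    _ ≤ (C.map f).length := List.toFinset_card_le _
    _ = C.length := List.length_map _

/-- The lower bound of the rank on the subspace. -/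
theorem rankI_lower [CharP F 2] {inI : ℕ → Bool} {L : List ℕ} {cert : List (ℕ × List ℕ × List ℕ)} (hL : ∀ r ∈ L, r < D.nroots)
    (h : chkLoI T inI L cert = true) : cert.length ≤ (mL D F L * prI F (fun x => inI (code D x))).rank := by
  have hC := hG.correct
  unfold chkLoI chkLo at h
  rw [Bool.and_eq_true, Bool.and_eq_true, List.all_eq_true, List.all_eq_true, decide_eq_true_eq] at h
  obtain ⟨⟨h1, h2⟩, h3⟩ := h
  have h1' : ∀ e ∈ cert, e.1 < D.nroots + D.rank ∧ e.2.2.count e.1 = 1 ∧ eqSVp 2 (vC T L e.2.1) (bitsV e.2.2) = true := by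
    intro e he
    have h4 := h1 e he
    rw [Bool.and_eq_true, Bool.and_eq_true, decide_eq_true_eq, decide_eq_true_eq, hC.n_eq, hC.l_eq] at h4
    exact ⟨h4.1.1, h4.1.2, h4.2⟩
  refine rank_ge_gen (fun e he => ?_) (fun e he => ⟨(h1' e he).1, (h1' e he).2.1⟩) h2
  have h4 := eqSVp_spec D (F := F) (h1' e he).2.2 1 1
  rw [← h4, hG.vC_toVec L hL]
  have h5 := h3 e he
  rw [List.all_eq_true] at h5
  generalize e.2.1 = c at h5
  induction c with
  | nil => simp
  | cons a c ih =>
    simp only [List.map_cons, List.sum_cons, Matrix.mulVec_add]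
    rw [ih fun x hx => h5 x (List.mem_cons_of_mem _ hx)]
    congr 1
    rw [← Matrix.mulVec_mulVec]
    congr 1
    ext x
    have h6 := h5 a (by simp)
    simp only [prI, Matrix.mulVec_diagonal, bvec]
    by_cases h7 : code D x = a
    · subst h7
      simp [h6]
    · simp [h7]

end Tbl.Good2

/-- The classes of involutions from the conjugacy statement. -/
theorem finalG [Fintype F] [CharP F 2] (hG : T.Good2 D) (Reps : List (List ℕ))
    (hsq : ∀ rep ∈ Reps, (hG.xL rep : GL D.Idx F) * hG.xL rep = 1 ∧ (hG.xL rep : GL D.Idx F) ≠ 1)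
    (hconj : ∀ v ∈ D.group F, v * v = 1 → v ≠ 1 → ∃ rep ∈ Reps, ∃ h ∈ D.group F, h * v * h⁻¹ = hG.xL rep)
    (hnon : ∀ a ∈ Reps, ∀ b ∈ Reps, ∀ h ∈ D.group F, h * (hG.xL a : GL D.Idx F) * h⁻¹ = hG.xL b → a = b) :
    (∀ y : GL D.Idx F, (y : Matrix D.Idx D.Idx F) ∈ Reps.map (fun rep => D.wordMat F (rep.map fun r => (r, (1 : F)))) →
        y ∈ D.group F ∧ orderOf y = 2) ∧
    (∀ g ∈ D.group F, orderOf g = 2 → ∃ y ∈ D.group F,
        (y : Matrix D.Idx D.Idx F) ∈ Reps.map (fun rep => D.wordMat F (rep.map fun r => (r, (1 : F)))) ∧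
        ∃ h ∈ D.group F, h * g * h⁻¹ = y) ∧
    (∀ y₁ ∈ D.group F, ∀ y₂ ∈ D.group F,
        (y₁ : Matrix D.Idx D.Idx F) ∈ Reps.map (fun rep => D.wordMat F (rep.map fun r => (r, (1 : F)))) →
        (y₂ : Matrix D.Idx D.Idx F) ∈ Reps.map (fun rep => D.wordMat F (rep.map fun r => (r, (1 : F)))) →
        (∃ h ∈ D.group F, h * y₁ * h⁻¹ = y₂) → (y₁ : Matrix D.Idx D.Idx F) = (y₂ : Matrix D.Idx D.Idx F)) := by
  have hfr : ∀ y : GL D.Idx F, (y : Matrix D.Idx D.Idx F) ∈ Reps.map (fun rep => D.wordMat F (rep.map fun r => (r, (1 : F)))) →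
      ∃ rep ∈ Reps, y = hG.xL rep := by
    intro y hy
    obtain ⟨rep, hrep, e⟩ := List.mem_map.1 hy
    exact ⟨rep, hrep, Units.ext (by rw [hG.xL_coe]; exact e.symm)⟩
  haveI : Fact (Nat.Prime 2) := ⟨Nat.prime_two⟩
  have hord : ∀ rep ∈ Reps, orderOf (hG.xL rep : GL D.Idx F) = 2 := by
    intro rep hrep
    apply orderOf_eq_prime
    · rw [pow_two]
      exact (hsq rep hrep).1
    · exact (hsq rep hrep).2
  refine ⟨?_, ?_, ?_⟩
  · intro y hy
    obtain ⟨rep, hrep, rfl⟩ := hfr y hy
    exact ⟨hG.xL_mem rep, hord rep hrep⟩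
  · intro g hg ho
    have h1 : g * g = 1 := by
      rw [← pow_two, ← ho]
      exact pow_orderOf_eq_one g
    have h2 : g ≠ 1 := by
      rintro rfl
      simp at ho
    obtain ⟨rep, hrep, h, hh, e⟩ := hconj g hg h1 h2
    refine ⟨hG.xL rep, hG.xL_mem rep, ?_, h, hh, e⟩
    rw [hG.xL_coe]
    exact List.mem_map.2 ⟨rep, hrep, rfl⟩
  · intro y₁ _ y₂ _ h₁ h₂ ⟨h, hh, e⟩
    obtain ⟨rep₁, hrep₁, rfl⟩ := hfr y₁ h₁
    obtain ⟨rep₂, hrep₂, rfl⟩ := hfr y₂ h₂
    rw [hnon rep₁ hrep₁ rep₂ hrep₂ h hh e]

end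

end Cfsg.Agent.Lib.Chev
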