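/-
Involutions in the Chevalley group of type F4 in characteristic two: the certificates.
Generated.
-/
import Cfsg.Agent.Lib.ChInv.El2e
import Cfsg.Agent.Lib.ChevAut.ExcT
import Cfsg.Agent.Lib.Chev.T3F4

set_option autoImplicit false
set_option maxHeartbeats 0
set_option maxRecDepth 100000

namespace Cfsg.Agent.Lib.Chev

open Cfsg.Lie

/-- The additive function on the roots. -/
def muF4 : List ℤ := [56761,86522,115383,57692]

/-- The reflections moving a root to a smaller one. -/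
def exF4 : List (ℕ × ℕ × List ℕ) := [(28,30,[2]),(29,31,[3,2,3]),(29,32,[3]),(35,41,[2]),(36,42,[3,2,3]),(36,43,[3]),(37,41,[1,2,1]),(38,42,[3,1,2,1,3]),(38,45,[3]),(39,43,[2,3,1,2,1,3,2]),(39,46,[3,2,3]),(39,47,[2]),(40,45,[2,3,1,2,1,3,2]),(40,46,[3,1,2,1,3]),(40,47,[1,2,1]),(44,45,[2,3,0,1,2,1,0,3,2]),(44,46,[3,0,1,2,1,0,3]),(44,47,[0,1,2,1,0])]

/-- The representatives. -/
def repsF4 : List (List ℕ) := [[47],[44],[47,44],[39,45]]

/-- The fusion words. -/
def fusF4 : List (List ℕ × List ℕ × List ℕ) := [([47],[],[47]),([44],[],[44]),([47,41],[18],[47,44]),([44,29],[6],[47,44]),([44,32],[13,34,13],[39,45]),([44,29,28],[13,26,34,6,23,13],[39,45]),([44,29,28,27],[4,5,27,34,25,24,13],[39,45]),([44,29,30],[4,5,27,34,26,13,21],[39,45]),([44,29,30,25],[5,11,20,24,37,6,42],[39,45]),([44,32,24],[10,13,26,34,13,6],[39,45]),([47,41,30],[21,26,36,21,18,14],[39,45]),([47,41,30,25],[5,11,20,25,42,38,18],[39,45])]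

/-- The Weyl group elements at the nodes of the tree. -/
def ncF4 : List (List ℕ × List ℕ) := [([44],[]),([44,29],[]),([44,29,28],[]),([44,29,28,27],[]),([44,29,30],[]),([44,29,30,25],[]),([44,32],[]),([44,32,24],[]),([44,32,24,27],[3,2]),([44,32,27],[3,2]),([44,32,27,24],[3,2]),([47],[]),([47,37],[0,1,2,3]),([47,37,25],[0,1,2,3]),([47,37,25,33],[3,2,0,1,2,3]),([47,37,33],[3,2,0,1,2,3]),([47,37,33,25],[3,2,0,1,2,3]),([47,41],[]),([47,41,28],[0,1,2,3,1,0]),([47,41,28,27],[3,2,0,1,2,3,1,0]),([47,41,30],[]),([47,41,30,25],[])]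

/-- The check at a node of the tree. -/
noncomputable def nodeF (T : Tbl) (nc : List (List ℕ × List ℕ)) (fus : List (List ℕ × List ℕ × List ℕ)) (A : List ℕ) : Bool :=
  A.isEmpty || nc.any fun c => decide (c.1 = A) && (c.2.all fun i => decide (i < T.l)) &&
    fus.any fun f => (A.map (wperm T c.2)).isPerm f.1

lemma nodeF_spec {D : ChevalleyDatum} {T : Tbl} {nc : List (List ℕ × List ℕ)} {fus : List (List ℕ × List ℕ × List ℕ)} {A : List ℕ}
    (h : nodeF T nc fus A = true) (hl : T.l = D.rank) :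
    A = [] ∨ ∃ w : List ℕ, (∀ i ∈ w, i < D.rank) ∧ ∃ f ∈ fus, (A.map (wperm T w)).Perm f.1 := by
  unfold nodeF at h
  rw [Bool.or_eq_true, List.isEmpty_iff, List.any_eq_true] at h
  rcases h with h | ⟨c, _, h⟩
  · exact Or.inl h
  · right
    rw [Bool.and_eq_true, Bool.and_eq_true, decide_eq_true_eq, List.all_eq_true, List.any_eq_true] at h
    obtain ⟨⟨_, h1⟩, f, hf, h2⟩ := h
    exact ⟨c.2, fun i hi => hl ▸ of_decide_eq_true (h1 i hi), f, hf, List.isPerm_iff.1 h2⟩

theorem chkGFF4 : chkGF digF4.tbl (fun i => muF4.getD i 0) exF4 = true := by decide +kernel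

theorem chkTF0F4 : chkTF0 digF4.tbl = true := by decide +kernel

theorem chkTreeF4 : chkTree digF4.tbl (nodeF digF4.tbl ncF4 fusF4) 5 (List.range digF4.tbl.l) [] = true := by decide +kernel

theorem chkFusF4 : ∀ f ∈ fusF4, f.2.2 ∈ repsF4 ∧ digF4.tbl.chkWEq 2 (wL f.2.1 ++ wL f.1) (wL f.2.2 ++ wL f.2.1) = true := by decide +kernel

theorem chkSqF4 : ∀ rep ∈ repsF4, digF4.tbl.chkWEq 2 (wL rep ++ wL rep) [] = true := by decide +kernel

/-- The columns of the rank certificate, 0. -/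
def rCF40 : List ℕ := [51,0,1,2,3,4,5,7,8,9,11,15,16,18,21,23]

/-- The sums of columns of the rank certificate, 0. -/
def rFF40 : List (List ℕ) := [[0],[1],[2],[3],[4],[5],[],[7],[8],[9],[],[11],[],[],[],[15],[16],[],[18],[],[],[21],[],[23],[],[],[],[],[],[],[],[],[],[],[],[],[],[],[],[],[],[],[],[],[],[],[],[],[],[],[],[51]]

/-- The echelon form of the rank certificate, 0. -/
def rEF40 : List (ℕ × List ℕ × List ℕ) :=
  [(47,[51],[47]),(46,[23],[46]),(45,[21],[45]),(44,[18],[44]),(43,[16],[43]),(42,[15],[42]),(40,[11],[40]),(39,[9],[39]),(38,[8],[38]),(36,[7],[36]),(32,[5],[32]),(31,[4],[31]),(29,[3],[29]),(26,[2],[26]),(24,[1],[24]),(50,[51,0],[48,50])]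

theorem chkUpF40 : chkUp digF4.tbl [47] rCF40 rFF40 = true := by decide +kernel

theorem chkLoF40 : chkLo digF4.tbl [47] rEF40 = true := by decide +kernel

/-- The columns of the rank certificate, 1. -/
def rCF41 : List ℕ := [48,0,1,2,3,4,5,6,7,8,9,10,11,12,13,14]

/-- The sums of columns of the rank certificate, 1. -/
def rFF41 : List (List ℕ) := [[0],[1],[2],[3],[4],[5],[6],[7],[8],[9],[10],[11],[12],[13],[14],[],[],[],[],[],[],[],[],[],[],[],[],[],[],[],[],[],[],[],[],[],[],[],[],[],[],[],[],[],[],[],[],[],[48],[],[],[]]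

/-- The echelon form of the rank certificate, 1. -/
def rEF41 : List (ℕ × List ℕ × List ℕ) :=
  [(47,[6],[29,47]),(46,[5],[28,46]),(45,[4],[27,45]),(44,[48],[44]),(43,[2],[20,43]),(42,[1],[19,42]),(41,[0],[18,41]),(40,[14],[40]),(39,[13],[39]),(38,[12],[38]),(37,[11],[37]),(36,[10],[36]),(35,[9],[35]),(34,[8],[34]),(33,[7],[33]),(49,[48,3],[49])]

theorem chkUpF41 : chkUp digF4.tbl [44] rCF41 rFF41 = true := by decide +kernel

theorem chkLoF41 : chkLo digF4.tbl [44] rEF41 = true := by decide +kernel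

/-- The columns of the rank certificate, 2. -/
def rCF42 : List ℕ := [48,51,0,1,2,3,4,5,6,7,8,9,10,11,12,13,14,15,16,21,23]

/-- The sums of columns of the rank certificate, 2. -/
def rFF42 : List (List ℕ) := [[0],[1],[2],[3],[4],[5],[6],[7],[8],[9],[10],[11],[12],[13],[14],[15],[16],[],[48],[],[],[21],[],[23],[],[],[],[],[],[],[],[],[],[],[],[],[],[],[],[],[],[],[],[],[],[],[],[],[48],[],[],[51]]

/-- The echelon form of the rank certificate, 2. -/
def rEF42 : List (ℕ × List ℕ × List ℕ) :=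
  [(47,[51],[47]),(46,[5],[28,32,46]),(45,[4],[27,31,45]),(44,[48],[44]),(43,[2],[20,26,43]),(42,[1],[19,24,42]),(41,[48,51,0],[48,50,18,41]),(40,[11],[37,40]),(39,[9],[35,39]),(38,[8],[34,38]),(37,[11,14],[37]),(36,[7],[33,36]),(35,[9,13],[35]),(34,[8,12],[34]),(33,[7,10],[33]),(32,[5,23],[28,32]),(31,[4,21],[27,31]),(29,[48,3],[49,29]),(26,[2,16],[20,26]),(24,[1,15],[19,24]),(49,[48,51,3,6],[49])]

theorem chkUpF42 : chkUp digF4.tbl [47,44] rCF42 rFF42 = true := by decide +kernel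

theorem chkLoF42 : chkLo digF4.tbl [47,44] rEF42 = true := by decide +kernel

/-- The columns of the rank certificate, 3. -/
def rCF43 : List ℕ := [49,50,0,1,2,3,4,5,6,7,8,9,10,11,12,13,15,16,17,18,19,20,21,22]

/-- The sums of columns of the rank certificate, 3. -/
def rFF43 : List (List ℕ) := [[0],[1],[2],[3],[4],[5],[6],[7],[8],[9],[10],[11],[12],[13],[],[15],[16],[17],[18],[19],[20],[21],[22],[],[],[9,21],[10,22],[13],[],[],[],[],[],[],[20],[],[],[],[],[],[],[],[],[],[],[],[],[],[],[49],[50],[]]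

/-- The echelon form of the rank certificate, 3. -/
def rEF43 : List (ℕ × List ℕ × List ℕ) :=
  [(47,[1],[10,22,26,38,47]),(46,[0],[9,21,25,37,46]),(45,[50],[39,45]),(44,[7],[20,34,44]),(43,[15],[33,43]),(42,[17],[42]),(41,[16],[41]),(40,[3],[13,27,40]),(39,[49],[39]),(38,[10],[38]),(37,[9],[37]),(36,[19],[36]),(35,[18],[35]),(34,[7,20],[20,34]),(32,[4],[14,32]),(31,[6],[31]),(30,[5],[30]),(29,[12],[29]),(28,[11],[28]),(27,[3,13],[13,27]),(26,[1,22],[10,22,26]),(25,[0,21],[9,21,25]),(51,[49,50,2],[48,51]),(48,[49,8],[48])]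

theorem chkUpF43 : chkUp digF4.tbl [39,45] rCF43 rFF43 = true := by decide +kernel

theorem chkLoF43 : chkLo digF4.tbl [39,45] rEF43 = true := by decide +kernel

/-- The columns of the rank certificate on the subspace. -/
def rCIF4 : List ℕ := [3,7,8,9,11,18]

/-- The sums of columns of the rank certificate on the subspace. -/
def rFIF4 : List (List ℕ) := [[],[],[],[3],[],[],[],[7],[8],[9],[],[11],[],[],[],[],[],[],[18],[],[],[],[],[],[],[],[],[],[],[],[],[],[],[],[],[],[],[],[],[],[],[],[],[],[],[],[],[],[],[],[],[]]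

/-- The echelon form of the rank certificate on the subspace. -/
def rEIF4 : List (ℕ × List ℕ × List ℕ) :=
  [(44,[48],[44]),(40,[14],[40]),(39,[13],[39]),(38,[12],[38]),(37,[11],[37]),(36,[10],[36]),(35,[9],[35])]

theorem chkUpIF4 : chkUpI digF4.tbl excInF4.inI [47] rCIF4 rFIF4 = true := by decide +kernel

theorem chkLoIF4 : chkLoI digF4.tbl excInF4.inI [44] rEIF4 = true := by decide +kernel

/-- The rank of the representatives. -/
def rkF4 (rep : List ℕ) : ℕ := match rep with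
  | [47] => 16
  | [44] => 16
  | [47, 44] => 21
  | _ => 24

section

variable {F : Type*} [Field F] [CharP F 2]

theorem hrkF4 : ∀ rep ∈ repsF4, (mL chevF4 F rep).rank = rkF4 rep ∧ 0 < rkF4 rep := by
  have hG := good3F4.toGood2
  intro rep hrep
  simp only [repsF4, List.mem_cons, List.not_mem_nil, or_false] at hrep
  rcases hrep with rfl | rfl | rfl | rfl
  · refine ⟨le_antisymm ?_ ?_, by decide⟩
    · exact (hG.rank_le (C := rCF40) (by decide +kernel) chkUpF40).trans (by decide +kernel)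
    · exact le_trans (by decide +kernel) (hG.rank_ge (cert := rEF40) (by decide +kernel) chkLoF40)
  · refine ⟨le_antisymm ?_ ?_, by decide⟩
    · exact (hG.rank_le (C := rCF41) (by decide +kernel) chkUpF41).trans (by decide +kernel)
    · exact le_trans (by decide +kernel) (hG.rank_ge (cert := rEF41) (by decide +kernel) chkLoF41)
  · refine ⟨le_antisymm ?_ ?_, by decide⟩
    · exact (hG.rank_le (C := rCF42) (by decide +kernel) chkUpF42).trans (by decide +kernel)
    · exact le_trans (by decide +kernel) (hG.rank_ge (cert := rEF42) (by decide +kernel) chkLoF42)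
  · refine ⟨le_antisymm ?_ ?_, by decide⟩
    · exact (hG.rank_le (C := rCF43) (by decide +kernel) chkUpF43).trans (by decide +kernel)
    · exact le_trans (by decide +kernel) (hG.rank_ge (cert := rEF43) (by decide +kernel) chkLoF43)

theorem hinjF4 : ∀ a ∈ repsF4, ∀ b ∈ repsF4, rkF4 a = rkF4 b → a = b ∨ (a = [47] ∧ b = [44]) ∨ (a = [44] ∧ b = [47]) := by
  decide +kernel

/-- The rank on the subspace separates the two classes of root elements. -/
theorem rankI_F4 {h : GL chevF4.Idx F} (hh : IsBlk excF4.bI ((h⁻¹ : GL chevF4.Idx F) : Matrix chevF4.Idx chevF4.Idx F))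
    (e : h * (good3F4.toGood2.xL [47] : GL chevF4.Idx F) * h⁻¹ = good3F4.toGood2.xL [44]) : False := by
  have hG := good3F4.toGood2
  have h1 := rankI_le hh (good3F4.toGood2.xL [47] : GL chevF4.Idx F)
  rw [e, ← hG.mL_eq, ← hG.mL_eq] at h1
  have h2 := hG.rankI_lower (F := F) (cert := rEIF4) (by decide +kernel) chkLoIF4
  have h3 := hG.rankI_upper (F := F) (C := rCIF4) (by decide +kernel) chkUpIF4
  have e2 : ∀ L, (mL chevF4 F L * prI F excF4.bI) = (mL chevF4 F L * prI F (fun x => excInF4.inI (code chevF4 x))) := fun L => rfl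
  rw [e2, e2] at h1
  have h4 : rEIF4.length = 7 := by decide +kernel
  have h5 : rCIF4.length = 6 := by decide +kernel
  omega

/-- The classes are different. -/
theorem hnonF4 : ∀ a ∈ repsF4, ∀ b ∈ repsF4, ∀ h ∈ chevF4.group F,
    h * (good3F4.toGood2.xL a : GL chevF4.Idx F) * h⁻¹ = good3F4.toGood2.xL b → a = b := by
  have hG := good3F4.toGood2
  intro a ha b hb h hh e
  haveI : CharP F excF4.p := inferInstanceAs (CharP F 2)
  have h3 := rank_conj_sub_one h (hG.xL a : GL chevF4.Idx F)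
  rw [e, ← hG.mL_eq, ← hG.mL_eq, (hrkF4 a ha).1, (hrkF4 b hb).1] at h3
  rcases hinjF4 a ha b hb h3.symm with h4 | ⟨rfl, rfl⟩ | ⟨rfl, rfl⟩
  · exact h4
  · exact (rankI_F4 (excF4.isBlk_of_mem_inv hG hh) e).elim
  · refine (rankI_F4 (h := h⁻¹) ?_ ?_).elim
    · rw [inv_inv]
      exact excF4.isBlk_of_mem hG hh
    · rw [← e]
      group

theorem hsqF4 : ∀ rep ∈ repsF4, (good3F4.toGood2.xL rep : GL chevF4.Idx F) * good3F4.toGood2.xL rep = 1 ∧
    (good3F4.toGood2.xL rep : GL chevF4.Idx F) ≠ 1 := by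
  have hG := good3F4.toGood2
  intro rep hrep
  constructor
  · have e := hG.wEq (F := F) (chkSqF4 rep hrep) 1 1
    rw [List.map_append, hG.gW_append, hG.gW_wL] at e
    simpa using e
  · intro h1
    have h2 := hrkF4 (F := F) rep hrep
    rw [hG.mL_eq, h1] at h2
    simp at h2
    omega

end

theorem hconjF4 {F : Type*} [Field F] [Finite F] [CharP F 2] :
    ∀ v ∈ chevF4.group F, v * v = 1 → v ≠ 1 → ∃ rep ∈ repsF4, ∃ h ∈ chevF4.group F, h * v * h⁻¹ = good3F4.toGood2.xL rep := by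
  intro v hv h2 h1
  have hG := good3F4.toGood2
  have hn : chevF4.nroots / 2 < chevF4.nroots := by decide +kernel
  have hGF := hG.gfFacts _ exF4 hn chkGFF4
  obtain ⟨R, hRl, hRp, hRne, h₁, hh₁, e₁⟩ := inv_conj_orth good3F4 hGF hv h2 h1
  obtain ⟨rep, hrep, h₂, hh₂, e₂⟩ := hG.fuse2 (F := F) hGF (hG.treeF0 chkTF0F4) repsF4 fusF4 chkFusF4 _ 5 chkTreeF4
    (fun A hA => nodeF_spec hA good3F4.correct.l_eq) hRl hRp hRne
  refine ⟨rep, hrep, h₂ * h₁, Subgroup.mul_mem _ hh₂ hh₁, ?_⟩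
  rw [← e₂, ← e₁]
  group

/-- The classes of involutions in type F4 in characteristic two. -/
theorem mainF4 {F : Type*} [Field F] [Fintype F] [CharP F 2] :
    (∀ y : GL chevF4.Idx F, (y : Matrix chevF4.Idx chevF4.Idx F) ∈ repsF4.map (fun rep => chevF4.wordMat F (rep.map fun r => (r, (1 : F)))) →
        y ∈ chevF4.group F ∧ orderOf y = 2) ∧
    (∀ g ∈ chevF4.group F, orderOf g = 2 → ∃ y ∈ chevF4.group F,
        (y : Matrix chevF4.Idx chevF4.Idx F) ∈ repsF4.map (fun rep => chevF4.wordMat F (rep.map fun r => (r, (1 : F)))) ∧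
        ∃ h ∈ chevF4.group F, h * g * h⁻¹ = y) ∧
    (∀ y₁ ∈ chevF4.group F, ∀ y₂ ∈ chevF4.group F,
        (y₁ : Matrix chevF4.Idx chevF4.Idx F) ∈ repsF4.map (fun rep => chevF4.wordMat F (rep.map fun r => (r, (1 : F)))) →
        (y₂ : Matrix chevF4.Idx chevF4.Idx F) ∈ repsF4.map (fun rep => chevF4.wordMat F (rep.map fun r => (r, (1 : F)))) →
        (∃ h ∈ chevF4.group F, h * y₁ * h⁻¹ = y₂) → (y₁ : Matrix chevF4.Idx chevF4.Idx F) = (y₂ : Matrix chevF4.Idx chevF4.Idx F)) :=
  finalG good3F4.toGood2 repsF4 hsqF4 hconjF4 hnonF4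

end Cfsg.Agent.Lib.Chev
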