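/-
Involutions in the group ³D₄(q): the set-up, the case of a nontrivial coordinate at the orbit of simple roots.
-/
import Cfsg.Agent.Lib.ChInv.Rd2
import Cfsg.Agent.Lib.ChInv.CertD4
import Cfsg.Agent.Lib.Tw.OrdD4

set_option autoImplicit false
set_option maxRecDepth 100000

namespace Cfsg.Agent.Lib.Chev

open Cfsg.Lie

/-- The group type of the table. -/
abbrev hD4 : digD4.tbl.Good2 chevD4 := good3D4.toGood2

theorem slD4 : SLFacts chevD4 (fun w => ∑ i ∈ Finset.range chevD4.rank, (fun i => muD4.getD i 0) i * chevD4.cartan i w) :=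
  hD4.slFacts _ (by decide +kernel) chkSLD4

theorem tfD4 : TreeFacts digD4.tbl chevD4 := hD4.treeFacts chkTFD4

/-- A weight from a list of coefficients. -/
noncomputable def piF (μ : List ℤ) (w : ℕ) : ℤ := ∑ i ∈ Finset.range chevD4.rank, (fun i => μ.getD i 0) i * chevD4.cartan i w

lemma piF_add (μ : List ℤ) : AddF chevD4 (piF μ) := hD4.addF_sum _

lemma piF_lt (μ : List ℤ) {w : ℕ} (hw : w < chevD4.nroots) : piF μ w = Lt digD4.tbl (fun i => μ.getD i 0) w :=
  (hD4.Lt_eq _ hw).symm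

/-- The height. -/
def muH : List ℤ := [3, 5, 3, 3]

/-- The coefficient of the central simple root. -/
def muV : List ℤ := [1, 2, 1, 1]

/-- The check of the data for reading a coordinate. -/
noncomputable def rdChk (μ : List ℤ) (r u s : ℕ) : Bool :=
  decide (u < 24) && decide (s < 24) && decide (r < 24) && decide (Lt digD4.tbl (fun i => μ.getD i 0) r = 1) &&
  (match chevD4.chainEntry r s with
    | [c] => decide (c.1 = u) && decide (c.2 % 2 = 1)
    | _ => false) && decide (s ≠ r) && decide (s ≠ chevD4.neg r) && decide (u ≠ s)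

theorem mkRd (μ : List ℤ) (r u s : ℕ) (h : rdChk μ r u s = true) : RdD chevD4 (piF μ) r u s := by
  unfold rdChk at h
  simp only [Bool.and_eq_true, decide_eq_true_eq] at h
  obtain ⟨⟨⟨⟨⟨⟨⟨h1, h2⟩, h3⟩, h4⟩, h5⟩, h6⟩, h7⟩, h8⟩ := h
  refine ⟨h1, h2, h3, piF_add μ, ?_, ?_, h6, h7, h8⟩
  · rw [piF_lt μ h3]
    exact h4
  · cases hc : chevD4.chainEntry r s with
    | nil =>
      rw [hc] at h5
      simp at h5
    | cons c cs =>
      cases cs with
      | cons _ _ =>
        rw [hc] at h5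
        simp at h5
      | nil =>
        rw [hc] at h5
        simp only [Bool.and_eq_true, decide_eq_true_eq] at h5
        obtain ⟨m1, m2⟩ := h5
        obtain ⟨u', m⟩ := c
        simp only at m1 m2
        subst m1
        exact ⟨m, rfl, Int.odd_iff.2 m2⟩

theorem rH18 : RdD chevD4 (piF muH) 18 19 14 := mkRd _ _ _ _ (by decide +kernel)
theorem rH13 : RdD chevD4 (piF muH) 13 16 14 := mkRd _ _ _ _ (by decide +kernel)
theorem rH12 : RdD chevD4 (piF muH) 12 15 14 := mkRd _ _ _ _ (by decide +kernel)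
theorem rV14 : RdD chevD4 (piF muV) 14 23 22 := mkRd _ _ _ _ (by decide +kernel)
theorem rV19 : RdD chevD4 (piF muV) 19 23 17 := mkRd _ _ _ _ (by decide +kernel)
theorem rV16 : RdD chevD4 (piF muV) 16 23 20 := mkRd _ _ _ _ (by decide +kernel)
theorem rV15 : RdD chevD4 (piF muV) 15 23 21 := mkRd _ _ _ _ (by decide +kernel)

/-- All positive roots, in an order compatible with the orbits. -/
def RsU : List ℕ := [18, 13, 12, 14, 19, 16, 15, 21, 17, 20, 22, 23]

/-- The roots of the unipotent radical of the parabolic subgroup of the orbit of simple roots. -/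
def RsQ : List ℕ := [14, 19, 16, 15, 21, 17, 20, 22, 23]

theorem RsU_all : ∀ w, PR chevD4 w → w ∈ RsU := by
  have : ∀ w, w < 24 → 12 ≤ w → w ∈ RsU := by decide +kernel
  exact fun w hw => this w hw.1 hw.2

theorem RsQ_pr : ∀ w ∈ RsQ, PR chevD4 w := by decide +kernel

theorem PR_h : ∀ w, PR chevD4 w → 1 ≤ piF muH w := by
  have : ∀ w, w < 24 → 12 ≤ w → 1 ≤ Lt digD4.tbl (fun i => muH.getD i 0) w := by decide +kernel
  intro w hw
  rw [piF_lt _ hw.1]
  exact this w hw.1 hw.2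

theorem RsQ_v : ∀ w ∈ RsQ, 1 ≤ piF muV w := by
  have : ∀ w ∈ RsQ, 1 ≤ Lt digD4.tbl (fun i => muV.getD i 0) w := by decide +kernel
  intro w hw
  rw [piF_lt _ (RsQ_pr w hw).1]
  exact this w hw

theorem RsU_dec : chkDec chevD4 RsU = true := by decide +kernel
theorem RsQ_dec : chkDec chevD4 RsQ = true := by decide +kernel

theorem bar_pr : ∀ w, PR chevD4 w → PR chevD4 (barD4a w) := by
  have : ∀ w, w < 24 → 12 ≤ w → barD4a w < 24 ∧ 12 ≤ barD4a w := by decide +kernel
  exact fun w hw => this w hw.1 hw.2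

theorem bar_Q : ∀ w ∈ RsQ, barD4a w ∈ RsQ := by decide +kernel

theorem bar_three : ∀ r, r < chevD4.nroots → barD4a (barD4a (barD4a r)) = r := by decide +kernel

theorem perp_T1 : ∀ w, PR chevD4 w → chevD4.pairing 18 w = 0 → chevD4.pairing 13 w = 0 → chevD4.pairing 12 w = 0 → w = 23 := by
  have : ∀ w, w < 24 → 12 ≤ w → chevD4.pairing 18 w = 0 → chevD4.pairing 13 w = 0 → chevD4.pairing 12 w = 0 → w = 23 := by decide +kernel
  exact fun w hw => this w hw.1 hw.2

theorem fuseW : digD4.tbl.chkWEq 2 (wL [19, 16, 13, 15] ++ wL [18, 13, 12, 23]) (wL [18, 13, 12] ++ wL [19, 16, 13, 15]) = true := by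
  decide +kernel

section

variable {K : Type*} [Field K] [CharP K 2]

lemma twD4_f (φ : K ≃+* K) (w : ℕ) (t : K) : (twD4 φ).f w t = φ t := by
  show ((sgnD4a w : ℤ) : K) * φ t = φ t
  have h : Odd (sgnD4a w) := by
    unfold sgnD4a
    generalize Nat.beq _ _ = b
    cases b <;> decide
  rw [odd_cast_char_two h, one_mul]

/-- The two representatives. -/
noncomputable def repA (K : Type*) [Field K] : GL chevD4.Idx K := hD4.xL [18, 13, 12]

/-- The two representatives. -/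
noncomputable def repB (K : Type*) [Field K] : GL chevD4.Idx K := hD4.xL [23]

/-- The conclusion for an involution. -/
def ConD4 (φ : K ≃+* K) (v : GL chevD4.Idx K) : Prop :=
  ∃ h ∈ (twD4 φ).fix, h * v * h⁻¹ = repA K ∨ h * v * h⁻¹ = repB K

lemma con_conj {φ : K ≃+* K} {v n : GL chevD4.Idx K} (hn : n ∈ (twD4 φ).fix) (h : ConD4 φ (n * v * n⁻¹)) : ConD4 φ v := by
  obtain ⟨g, hg, e⟩ := h
  refine ⟨g * n, Subgroup.mul_mem _ hg hn, ?_⟩
  have e1 : g * n * v * (g * n)⁻¹ = g * (n * v * n⁻¹) * g⁻¹ := by group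
  rw [e1]
  exact e

/-- The element of the orbit of simple roots. -/
noncomputable def yA (φ : K ≃+* K) (t : K) : GL chevD4.Idx K := hD4.gW [(18, t), (13, φ t), (12, φ (φ t))]

lemma yA_fix (φ : K ≃+* K) (hφ : ∀ x, φ (φ (φ x)) = x) (t : K) : yA φ t ∈ (twD4 φ).fix := by
  have h := (stD4 φ).word_fix (j := 1) (t := t) (show 1 < 2 by decide) (hφ t)
  exact h

lemma nC_fix (φ : K ≃+* K) : hD4.nProd (F := K) [1] ∈ (twD4 φ).fix :=
  (stD4 φ).twN.fix 0 (show 0 < 2 by decide)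

lemma nA_fix (φ : K ≃+* K) : hD4.nProd (F := K) [0, 2, 3] ∈ (twD4 φ).fix :=
  (stD4 φ).twN.fix 1 (show 1 < 2 by decide)

lemma prod_range4 (f : ℕ → K) : ((List.range chevD4.rank).map f).prod = f 0 * f 1 * f 2 * f 3 := by
  have : chevD4.rank = 4 := rfl
  rw [this]
  simp [List.range_succ]
  ring

theorem car18 : chevD4.cartan 0 18 = 2 ∧ chevD4.cartan 1 18 = -1 ∧ chevD4.cartan 2 18 = 0 ∧ chevD4.cartan 3 18 = 0 := by decide +kernel
theorem car13 : chevD4.cartan 0 13 = 0 ∧ chevD4.cartan 1 13 = -1 ∧ chevD4.cartan 2 13 = 2 ∧ chevD4.cartan 3 13 = 0 := by decide +kernel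
theorem car12 : chevD4.cartan 0 12 = 0 ∧ chevD4.cartan 1 12 = -1 ∧ chevD4.cartan 2 12 = 0 ∧ chevD4.cartan 3 12 = 2 := by decide +kernel
theorem car23 : chevD4.cartan 0 23 = 0 ∧ chevD4.cartan 1 23 = 1 ∧ chevD4.cartan 2 23 = 0 ∧ chevD4.cartan 3 23 = 0 := by decide +kernel

/-- The torus of the fixed points on the first representative. -/
lemma torusA [Fintype K] (φ : K ≃+* K) (hφ : ∀ x, φ (φ (φ x)) = x) {a : K} (ha : a ≠ 0) :
    ∃ z ∈ (twD4 φ).fix, z * yA φ a * z⁻¹ = repA K := by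
  have hchar : ringChar K = 2 := ringChar.eq K 2
  obtain ⟨u, hu⟩ := FiniteField.isSquare_of_char_two hchar a⁻¹
  have hu0 : u ≠ 0 := by
    rintro rfl
    rw [mul_zero] at hu
    exact inv_ne_zero ha hu
  let c : ℕ → K := fun i => [u, 1, φ u, φ (φ u)].getD i 1
  have hc0 : ∀ i, i < chevD4.rank → c i ≠ 0 := by
    intro i hi
    have hi' : i < 4 := hi
    have h1 : φ u ≠ 0 := (map_ne_zero φ).2 hu0
    have h2 : φ (φ u) ≠ 0 := (map_ne_zero φ).2 h1
    interval_cases i
    · exact hu0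
    · exact one_ne_zero
    · exact h1
    · exact h2
  have hcρ : ∀ i, i < chevD4.rank → c (rhoD4 i) = φ (c i) := by
    intro i hi
    have hi' : i < 4 := hi
    interval_cases i
    · rfl
    · show (1 : K) = φ 1
      rw [map_one]
    · rfl
    · show u = φ (φ (φ u))
      rw [hφ]
  obtain ⟨z, hz, e⟩ := (stD4 φ).exists_H_fix hpartD4 c hc0 hcρ
  refine ⟨z, (Subgroup.mem_inf.1 hz).2, ?_⟩
  have hconj : ∀ (s : ℕ) (hs : s < chevD4.nroots) (t : K), z * hD4.xN s t * z⁻¹ = hD4.xN s (c 0 ^ chevD4.cartan 0 s * c 1 ^ chevD4.cartan 1 s * c 2 ^ chevD4.cartan 2 s * c 3 ^ chevD4.cartan 3 s * t) := by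
    intro s hs t
    rw [hD4.xN_of_lt hs, hD4.H_conj_of_mat c hc0 e hs t, hD4.xN_of_lt hs, prod_range4]
  have e0 : c 0 = u := rfl
  have e1 : c 1 = 1 := rfl
  have e2 : c 2 = φ u := rfl
  have e3 : c 3 = φ (φ u) := rfl
  have hua : u ^ 2 = a⁻¹ := by rw [hu, pow_two]
  have h18 : z * hD4.xN 18 a * z⁻¹ = hD4.xN 18 1 := by
    rw [hconj 18 (by decide +kernel), car18.1, car18.2.1, car18.2.2.1, car18.2.2.2, e0, e1]
    congr 1
    simp only [zpow_zero, zpow_neg_one, inv_one, mul_one, zpow_two, ← pow_two, hua]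
    exact inv_mul_cancel₀ ha
  have h13 : z * hD4.xN 13 (φ a) * z⁻¹ = hD4.xN 13 1 := by
    rw [hconj 13 (by decide +kernel), car13.1, car13.2.1, car13.2.2.1, car13.2.2.2, e1, e2]
    congr 1
    simp only [zpow_zero, zpow_neg_one, inv_one, mul_one, one_mul, zpow_two, ← pow_two, ← map_pow, hua, map_inv₀, one_pow]
    exact inv_mul_cancel₀ ((map_ne_zero φ).2 ha)
  have h12 : z * hD4.xN 12 (φ (φ a)) * z⁻¹ = hD4.xN 12 1 := by
    rw [hconj 12 (by decide +kernel), car12.1, car12.2.1, car12.2.2.1, car12.2.2.2, e1, e3]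
    congr 1
    simp only [zpow_zero, zpow_neg_one, inv_one, mul_one, one_mul, zpow_two, ← pow_two, ← map_pow, hua, map_inv₀, one_pow]
    exact inv_mul_cancel₀ ((map_ne_zero φ).2 ((map_ne_zero φ).2 ha))
  unfold yA repA
  simp only [hD4.gW_cons, hD4.gW_nil, hD4.xL_cons, hD4.xL_nil]
  rw [← h18, ← h13, ← h12]
  group

/-- The torus of the fixed points on the second representative. -/
lemma torusB (φ : K ≃+* K) {t : K} (ht : t ≠ 0) (hφ : φ t = t) :
    ∃ z ∈ (twD4 φ).fix, z * hD4.xN 23 t * z⁻¹ = repB K := by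
  let c : ℕ → K := fun i => [1, t⁻¹, 1, 1].getD i 1
  have hc0 : ∀ i, i < chevD4.rank → c i ≠ 0 := by
    intro i hi
    have hi' : i < 4 := hi
    interval_cases i
    · exact one_ne_zero
    · exact inv_ne_zero ht
    · exact one_ne_zero
    · exact one_ne_zero
  have hcρ : ∀ i, i < chevD4.rank → c (rhoD4 i) = φ (c i) := by
    intro i hi
    have hi' : i < 4 := hi
    interval_cases i
    · show (1 : K) = φ 1
      rw [map_one]
    · show t⁻¹ = φ t⁻¹
      rw [map_inv₀, hφ]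
    · show (1 : K) = φ 1
      rw [map_one]
    · show (1 : K) = φ 1
      rw [map_one]
  obtain ⟨z, hz, e⟩ := (stD4 φ).exists_H_fix hpartD4 c hc0 hcρ
  refine ⟨z, (Subgroup.mem_inf.1 hz).2, ?_⟩
  have hs : 23 < chevD4.nroots := by decide +kernel
  unfold repB
  rw [hD4.xL_cons, hD4.xL_nil, mul_one, hD4.xN_of_lt hs, hD4.H_conj_of_mat c hc0 e hs t, hD4.xN_of_lt hs, prod_range4]
  congr 1
  rw [car23.1, car23.2.1, car23.2.2.1, car23.2.2.2]
  show (1 : K) ^ (0 : ℤ) * t⁻¹ ^ (1 : ℤ) * (1 : K) ^ (0 : ℤ) * (1 : K) ^ (0 : ℤ) * t = 1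
  simp only [zpow_zero, zpow_one, one_mul, mul_one]
  exact inv_mul_cancel₀ ht

end

end Cfsg.Agent.Lib.Chev
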