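/-
Involutions in the group ³D₄(q): fusion in `U`, Glauberman's lemma, and the case of a nontrivial coordinate at the orbit
of simple roots.
-/
import Cfsg.Agent.Lib.ChInv.TwD4a

set_option autoImplicit false
set_option maxRecDepth 100000

namespace Cfsg.Agent.Lib.Chev

open Cfsg.Lie

theorem perm_facts : chevD4.pairing 23 18 = 0 ∧ chevD4.pairing 23 13 = 0 ∧ chevD4.pairing 23 12 = 0 ∧
    chevD4.pairing 18 23 = 0 ∧ chevD4.pairing 13 23 = 0 ∧ chevD4.pairing 12 23 = 0 := by decide +kernel

section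

variable {F : Type*} [Field F] {D : ChevalleyDatum} {T : Tbl}

lemma gW_mem_U (hG : T.Good2 D) {l : List (ℕ × F)} (h : ∀ e ∈ l, PR D e.1) : hG.gW l ∈ D.posUnipotent F := by
  induction l with
  | nil => exact Subgroup.one_mem _
  | cons e l ih =>
    have he := h e (by simp)
    rw [hG.gW_cons, hG.xN_of_lt he.1]
    exact Subgroup.mul_mem _ (hG.xU_mem_U he.1 he.2 _) (ih fun a ha => h a (List.mem_cons_of_mem _ ha))

lemma gW_map_mem (hG : T.Good2 D) {Z : ℕ → Prop} (hZ : ∀ r, Z r → r < D.nroots) {l : List (ℕ × F)} (h : ∀ e ∈ l, Z e.1) :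
    hG.gW l ∈ rootsGen D F Z := by
  induction l with
  | nil => exact Subgroup.one_mem _
  | cons e l ih =>
    have he := h e (by simp)
    rw [hG.gW_cons, hG.xN_of_lt (hZ _ he)]
    exact Subgroup.mul_mem _ (Subgroup.subset_closure ⟨e.1, e.2, he, hG.xU_coe _ _⟩) (ih fun a ha => h a (List.mem_cons_of_mem _ ha))

end

section

variable {K : Type*} [Field K] [CharP K 2]

/-- The fusion in `U` of the root element of the highest root into the orbit of simple roots. -/
lemma fuseA [Finite K] {a b c z : K} (ha : a ≠ 0) (hb : b ≠ 0) (hc : c ≠ 0) (hz : z ≠ 0) :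
    ∃ g ∈ chevD4.posUnipotent K, g * (hD4.gW [(18, a), (13, b), (12, c)] * hD4.xN 23 z) * g⁻¹ = hD4.gW [(18, a), (13, b), (12, c)] := by
  have pr18 : PR chevD4 18 := by decide +kernel
  have pr13 : PR chevD4 13 := by decide +kernel
  have pr12 : PR chevD4 12 := by decide +kernel
  have pr23 : PR chevD4 23 := by decide +kernel
  obtain ⟨d₃, hd₃, e₃, f₃⟩ := hD4.torusH slD4 [(18, a), (13, b), (12, c)] (by
      intro e he
      simp only [List.mem_cons, List.not_mem_nil, or_false] at he
      rcases he with rfl | rfl | rfl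
      · exact ⟨pr18, ha⟩
      · exact ⟨pr13, hb⟩
      · exact ⟨pr12, hc⟩)
    ((List.pairwise_map (f := Prod.fst) (R := fun a b => chevD4.pairing a b = 0)).1
      (show ([18, 13, 12] : List ℕ).Pairwise (fun a b => chevD4.pairing a b = 0) by decide +kernel))
  obtain ⟨d₄, hd₄, e₄, f₄⟩ := hD4.torusH slD4 [(23, z)] (by
      intro e he
      simp only [List.mem_cons, List.not_mem_nil, or_false] at he
      rcases he with rfl
      exact ⟨pr23, hz⟩) (by simp)
  have e₃' : d₃ * hD4.gW [(18, a), (13, b), (12, c)] * d₃⁻¹ = hD4.xL [18, 13, 12] := e₃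
  have e₄' : d₄ * (hD4.xN 23 z) * d₄⁻¹ = hD4.xL [23] := by
    have : hD4.gW [(23, z)] = hD4.xN 23 z := by simp
    rw [← this]
    exact e₄
  have g3 : d₃ * hD4.xN 23 z * d₃⁻¹ = hD4.xN 23 z :=
    f₃ 23 pr23.1 (by
      intro e he
      simp only [List.mem_cons, List.not_mem_nil, or_false] at he
      rcases he with rfl | rfl | rfl
      · exact perm_facts.2.2.2.1
      · exact perm_facts.2.2.2.2.1
      · exact perm_facts.2.2.2.2.2) z
  have g4 : d₄ * hD4.xL [18, 13, 12] * d₄⁻¹ = hD4.xL [18, 13, 12] := by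
    have h18 := f₄ 18 pr18.1 (by
      intro e he
      simp only [List.mem_cons, List.not_mem_nil, or_false] at he
      rcases he with rfl
      exact perm_facts.1) (1 : K)
    have h13 := f₄ 13 pr13.1 (by
      intro e he
      simp only [List.mem_cons, List.not_mem_nil, or_false] at he
      rcases he with rfl
      exact perm_facts.2.1) (1 : K)
    have h12 := f₄ 12 pr12.1 (by
      intro e he
      simp only [List.mem_cons, List.not_mem_nil, or_false] at he
      rcases he with rfl
      exact perm_facts.2.2.1) (1 : K)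
    simp only [hD4.xL_cons, hD4.xL_nil, mul_one]
    calc d₄ * (hD4.xN 18 1 * (hD4.xN 13 1 * hD4.xN 12 1)) * d₄⁻¹
        = (d₄ * hD4.xN 18 1 * d₄⁻¹) * (d₄ * hD4.xN 13 1 * d₄⁻¹) * (d₄ * hD4.xN 12 1 * d₄⁻¹) := by group
      _ = _ := by rw [h18, h13, h12]; group
  have hw := hD4.wEq (F := K) fuseW 1 1
  rw [List.map_append, List.map_append, hD4.gW_append, hD4.gW_append, hD4.gW_wL, hD4.gW_wL, hD4.gW_wL] at hw
  have hx4 : (hD4.xL [18, 13, 12, 23] : GL chevD4.Idx K) = hD4.xL [18, 13, 12] * hD4.xL [23] :=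
    hD4.xL_append [18, 13, 12] [23]
  have hg0 : (hD4.xL [19, 16, 13, 15] : GL chevD4.Idx K) ∈ chevD4.posUnipotent K := by
    refine gW_mem_U hD4 ?_
    intro e he
    obtain ⟨r, hr, rfl⟩ := List.mem_map.1 he
    have : ∀ r ∈ ([19, 16, 13, 15] : List ℕ), PR chevD4 r := by decide +kernel
    exact this r hr
  have hd : d₄ * d₃ ∈ chevD4.diagonalSubgroup K := Subgroup.mul_mem _ hd₄ hd₃
  set d := d₄ * d₃ with hdd
  refine ⟨d⁻¹ * hD4.xL [19, 16, 13, 15] * d, ?_, ?_⟩
  · have h1 := hD4.H_le_normalizer_U (Subgroup.inv_mem _ hd)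
    have h2 := (Subgroup.mem_normalizer_iff.1 h1 _).1 hg0
    rwa [inv_inv] at h2
  · have hA : d * hD4.gW [(18, a), (13, b), (12, c)] * d⁻¹ = hD4.xL [18, 13, 12] := by
      calc d * hD4.gW [(18, a), (13, b), (12, c)] * d⁻¹ = d₄ * (d₃ * hD4.gW [(18, a), (13, b), (12, c)] * d₃⁻¹) * d₄⁻¹ := by
            rw [hdd]
            group
        _ = _ := by rw [e₃', g4]
    have hZ : d * hD4.xN 23 z * d⁻¹ = hD4.xL [23] := by
      calc d * hD4.xN 23 z * d⁻¹ = d₄ * (d₃ * hD4.xN 23 z * d₃⁻¹) * d₄⁻¹ := by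
            rw [hdd]
            group
        _ = _ := by rw [g3, e₄']
    have hA' : hD4.gW [(18, a), (13, b), (12, c)] = d⁻¹ * hD4.xL [18, 13, 12] * d := by
      rw [← hA]
      group
    generalize hD4.gW [(18, a), (13, b), (12, c)] = A at *
    generalize hD4.xN 23 z = Z at *
    generalize (hD4.xL [19, 16, 13, 15] : GL chevD4.Idx K) = g₀ at *
    have h3 : g₀ * (hD4.xL [18, 13, 12] * hD4.xL [23]) * g₀⁻¹ = hD4.xL [18, 13, 12] := by
      rw [← hx4, hw]
      group
    calc d⁻¹ * g₀ * d * (A * Z) * (d⁻¹ * g₀ * d)⁻¹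
        = d⁻¹ * (g₀ * ((d * A * d⁻¹) * (d * Z * d⁻¹)) * g₀⁻¹) * d := by group
      _ = A := by rw [hA, hZ, h3, hA']

/-- The compatibility of the coordinates of a fixed element of `U`. -/
lemma compH (φ : K ≃+* K) {r r' u s u' s' : ℕ} (he : barD4a r = r') (h : RdD chevD4 (piF muH) r u s) (h' : RdD chevD4 (piF muH) r' u' s')
    {g : GL chevD4.Idx K} (hg : g ∈ rootsGen chevD4 K (PR chevD4)) (hf : (twD4 φ).sig g = g) :
    rdE chevD4 K u' s' g = φ (rdE chevD4 K u s g) := by
  subst he
  have h3 := (twD4 φ).rd_sig φ (fun w t _ => twD4_f φ w t) h h' slD4 (Z := PR chevD4) (fun w hw => hw.1) PR_h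
    (fun w hw => bar_pr w hw) hg
  rwa [hf] at h3

/-- The case of a nontrivial coordinate at the orbit of simple roots. -/
theorem caseA [Fintype K] (φ : K ≃+* K) (hφ : ∀ x, φ (φ (φ x)) = x) {v : GL chevD4.Idx K} (hvU : v ∈ chevD4.posUnipotent K)
    (hvf : (twD4 φ).sig v = v) (h2 : v * v = 1)
    (hne : rdE chevD4 K 19 14 v ≠ 0 ∨ rdE chevD4 K 16 14 v ≠ 0 ∨ rdE chevD4 K 15 14 v ≠ 0) : ConD4 φ v := by
  have hvP : v ∈ rootsGen chevD4 K (PR chevD4) := hD4.U_le_rootsGen hvU
  have hb := compH φ (show barD4a 18 = 13 by decide +kernel) rH18 rH13 hvP hvf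
  have hc := compH φ (show barD4a 13 = 12 by decide +kernel) rH13 rH12 hvP hvf
  have ha := compH φ (show barD4a 12 = 18 by decide +kernel) rH12 rH18 hvP hvf
  generalize hra : rdE chevD4 K 19 14 v = a at *
  generalize hrb : rdE chevD4 K 16 14 v = b at *
  generalize hrc : rdE chevD4 K 15 14 v = c at *
  have ha0 : a ≠ 0 := by
    rintro rfl
    rw [map_zero] at hb
    subst hb
    rw [map_zero] at hc
    subst hc
    simp at hne
  have hb0 : b ≠ 0 := by
    rw [hb]
    exact (map_ne_zero φ).2 ha0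
  have hc0 : c ≠ 0 := by
    rw [hc]
    exact (map_ne_zero φ).2 hb0
  obtain ⟨l, g, hg, e, hl, hp⟩ := hD4.elim_all slD4 chevD4.nroots (PR chevD4) hD4.cp_top (fun Q hQ => by
    have : Q ⊆ Finset.range chevD4.nroots := fun w hw => Finset.mem_range.2 (hQ w hw).1
    simpa using Finset.card_le_card this) v hvP h2
  have hl' : ∀ e ∈ l, PR chevD4 e.1 := fun e he => (hl e he).1
  have hSl : ∀ w, PR chevD4 w → w < chevD4.nroots := fun w hw => hw.1
  have key : ∀ {r u s : ℕ}, RdD chevD4 (piF muH) r u s → (l.map fun e => if e.1 = r then e.2 else 0).sum = rdE chevD4 K u s v := by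
    intro r u s h
    rw [← (hD4.rd_gW h slD4 hSl PR_h l hl').2, ← e, hD4.rd_conj_self h hSl PR_h hg hvP]
  have m18 : (18, a) ∈ l := by
    have h3 := key rH18
    rw [hra] at h3
    have := hD4.mem_of_sum_ne slD4 hl' hp (r := 18) (by decide +kernel) (by rw [h3]; exact ha0)
    rwa [h3] at this
  have m13 : (13, b) ∈ l := by
    have h3 := key rH13
    rw [hrb] at h3
    have := hD4.mem_of_sum_ne slD4 hl' hp (r := 13) (by decide +kernel) (by rw [h3]; exact hb0)
    rwa [h3] at this
  have m12 : (12, c) ∈ l := by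
    have h3 := key rH12
    rw [hrc] at h3
    have := hD4.mem_of_sum_ne slD4 hl' hp (r := 12) (by decide +kernel) (by rw [h3]; exact hc0)
    rwa [h3] at this
  have hall : ∀ x ∈ l, ∀ y ∈ l, x ≠ y → chevD4.pairing x.1 y.1 = 0 := by
    have h3 : l.Pairwise (fun x y => PR chevD4 x.1 → PR chevD4 y.1 → chevD4.pairing x.1 y.1 = 0) :=
      hp.imp (fun h _ _ => h)
    haveI hs : Std.Symm (fun x y : ℕ × K => PR chevD4 x.1 → PR chevD4 y.1 → chevD4.pairing x.1 y.1 = 0) := ⟨by
      intro x y h hy hx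
      rw [slD4.sym y.1 x.1 hy hx]
      exact h hx hy⟩
    intro x hx y hy hxy
    exact h3.forall hx hy hxy (hl' x hx) (hl' y hy)
  have hclass : ∀ e ∈ l, e = (18, a) ∨ e = (13, b) ∨ e = (12, c) ∨ e.1 = 23 := by
    intro e he
    by_contra hcon
    push_neg at hcon
    obtain ⟨h3, h4, h5, h6⟩ := hcon
    exact h6 (perp_T1 e.1 (hl' e he) (hall _ m18 _ he (Ne.symm h3)) (hall _ m13 _ he (Ne.symm h4)) (hall _ m12 _ he (Ne.symm h5)))
  have hnd := Tbl.Good2.nodup_of_orth slD4 hl' hp
  have hgU : g ∈ chevD4.posUnipotent K := hD4.rootsGen_le_U (fun w h => h) hg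
  have hgW : hD4.gW [(18, a), (13, b), (12, c)] = yA φ a := by
    unfold yA
    rw [hb, hc, hb]
  obtain ⟨g₁, hg₁, e₁⟩ : ∃ g₁ ∈ chevD4.posUnipotent K, g₁ * v * g₁⁻¹ = hD4.gW [(18, a), (13, b), (12, c)] := by
    by_cases h23 : ∃ z, (23, z) ∈ l
    · obtain ⟨z, hz⟩ := h23
      have hz0 : z ≠ 0 := (hl _ hz).2
      have hperm : l.Perm ([(18, a), (13, b), (12, c)] ++ [(23, z)]) := by
        refine (List.perm_ext_iff_of_nodup hnd (by simp) ).2 fun e => ?_
        constructor
        · intro he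
          simp only [List.mem_append, List.mem_cons, List.not_mem_nil, or_false]
          rcases hclass e he with h3 | h3 | h3 | h3
          · exact Or.inl (Or.inl h3)
          · exact Or.inl (Or.inr (Or.inl h3))
          · exact Or.inl (Or.inr (Or.inr h3))
          · right
            by_contra h4
            have h5 := hall e he _ hz h4
            rw [h3] at h5
            have h6 : chevD4.pairing 23 23 ≠ 0 := by decide +kernel
            exact absurd h5 h6
        · intro he
          simp only [List.mem_append, List.mem_cons, List.not_mem_nil, or_false] at he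
          rcases he with (rfl | rfl | rfl) | rfl
          · exact m18
          · exact m13
          · exact m12
          · exact hz
      have h3 := hD4.gW_perm tfD4 (fun e he => (hl' e he).1) hp hperm
      rw [hD4.gW_append] at h3
      obtain ⟨g', hg', e'⟩ := fuseA (K := K) ha0 hb0 hc0 hz0
      refine ⟨g' * g, Subgroup.mul_mem _ hg' hgU, ?_⟩
      have h4 : hD4.gW [(23, z)] = hD4.xN 23 z := by simp
      rw [h4] at h3
      calc g' * g * v * (g' * g)⁻¹ = g' * (g * v * g⁻¹) * g'⁻¹ := by group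
        _ = _ := by rw [e, h3, e']
    · have hperm : l.Perm [(18, a), (13, b), (12, c)] := by
        refine (List.perm_ext_iff_of_nodup hnd (by simp)).2 fun e => ?_
        constructor
        · intro he
          simp only [List.mem_cons, List.not_mem_nil, or_false]
          rcases hclass e he with h3 | h3 | h3 | h3
          · exact Or.inl h3
          · exact Or.inr (Or.inl h3)
          · exact Or.inr (Or.inr h3)
          · exfalso
            apply h23
            refine ⟨e.2, ?_⟩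
            rw [← h3]
            exact he
        · intro he
          simp only [List.mem_cons, List.not_mem_nil, or_false] at he
          rcases he with rfl | rfl | rfl
          · exact m18
          · exact m13
          · exact m12
      exact ⟨g, hgU, e.trans (hD4.gW_perm tfD4 (fun e he => (hl' e he).1) hp hperm)⟩
  rw [hgW] at e₁
  obtain ⟨g', hg', e'⟩ := (twD4 φ).glaub (fun g hg => (twD4 φ).sig3_U φ (fun w t _ => twD4_f φ w t) hφ bar_three hg) hvU hvf
    (yA_fix φ hφ a).2 hg₁ e₁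
  obtain ⟨z, hz, e''⟩ := torusA φ hφ ha0
  refine ⟨z * g', Subgroup.mul_mem _ hz (Subgroup.mem_inf.1 hg').2, Or.inl ?_⟩
  calc z * g' * v * (z * g')⁻¹ = z * (g' * v * g'⁻¹) * z⁻¹ := by group
    _ = _ := by rw [e', e'']

end

end Cfsg.Agent.Lib.Chev
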