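/-
Involutions in the group ³D₄(q): the remaining cases.
-/
import Cfsg.Agent.Lib.ChInv.TwD4b

set_option autoImplicit false
set_option maxRecDepth 100000

namespace Cfsg.Agent.Lib.Chev

open Cfsg.Lie

/-- Part of the roots of the unipotent radical. -/
def RsC : List ℕ := [19, 16, 15, 21, 17, 20, 22, 23]

/-- Part of the roots of the unipotent radical. -/
def RsD : List ℕ := [21, 17, 20, 22, 23]

theorem RsC_dec : chkDec chevD4 RsC = true := by decide +kernel
theorem RsD_dec : chkDec chevD4 RsD = true := by decide +kernel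
theorem RsC_Q : ∀ w ∈ RsC, w ∈ RsQ := by decide +kernel
theorem RsD_Q : ∀ w ∈ RsD, w ∈ RsQ := by decide +kernel

lemma RsQ_lt : ∀ w, w ∈ RsQ → w < chevD4.nroots := fun w hw => (RsQ_pr w hw).1
lemma RsC_lt : ∀ w, w ∈ RsC → w < chevD4.nroots := fun w hw => RsQ_lt w (RsC_Q w hw)
lemma RsD_lt : ∀ w, w ∈ RsD → w < chevD4.nroots := fun w hw => RsQ_lt w (RsD_Q w hw)
lemma RsC_v : ∀ w, w ∈ RsC → 1 ≤ piF muV w := fun w hw => RsQ_v w (RsC_Q w hw)
lemma RsQ_v' : ∀ w, w ∈ RsQ → 1 ≤ piF muV w := RsQ_v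

theorem nC_lt : ∀ i ∈ ([1] : List ℕ), i < chevD4.rank := by decide +kernel
theorem nA_lt : ∀ i ∈ ([0, 2, 3] : List ℕ), i < chevD4.rank := by decide +kernel

theorem wC19 : wperm digD4.tbl [1] 19 = 18 := by decide +kernel
theorem wC16 : wperm digD4.tbl [1] 16 = 13 := by decide +kernel
theorem wC15 : wperm digD4.tbl [1] 15 = 12 := by decide +kernel
theorem wC21 : wperm digD4.tbl [1] 21 = 21 := by decide +kernel
theorem wC17 : wperm digD4.tbl [1] 17 = 17 := by decide +kernel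
theorem wC20 : wperm digD4.tbl [1] 20 = 20 := by decide +kernel
theorem wC22 : wperm digD4.tbl [1] 22 = 23 := by decide +kernel
theorem wC23 : wperm digD4.tbl [1] 23 = 22 := by decide +kernel
theorem wA14 : wperm digD4.tbl [0, 2, 3] 14 = 22 := by decide +kernel
theorem wA21 : wperm digD4.tbl [0, 2, 3] 21 = 15 := by decide +kernel
theorem wA17 : wperm digD4.tbl [0, 2, 3] 17 = 19 := by decide +kernel
theorem wA20 : wperm digD4.tbl [0, 2, 3] 20 = 16 := by decide +kernel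
theorem wA22 : wperm digD4.tbl [0, 2, 3] 22 = 14 := by decide +kernel
theorem wA23 : wperm digD4.tbl [0, 2, 3] 23 = 23 := by decide +kernel

theorem comm22_14 : ∃ m : ℤ, chevD4.commTerms 14 22 = [(23, m, 1, 1)] ∧ Odd m :=
  ⟨_, (by decide +kernel : chevD4.commTerms 14 22 = [(23, (chevD4.commTerms 14 22).head!.2.1, 1, 1)]), by decide +kernel⟩

theorem act_checks :
    ActOK chevD4 RsQ 12 14 99 = true ∧ ActOK chevD4 RsQ 13 14 99 = true ∧ ActOK chevD4 RsQ 18 14 99 = true ∧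
    ActOK chevD4 RsQ 12 15 14 = true ∧ ActOK chevD4 RsQ 13 15 99 = true ∧ ActOK chevD4 RsQ 18 15 99 = true ∧
    ActOK chevD4 RsQ 12 16 99 = true ∧ ActOK chevD4 RsQ 13 16 14 = true ∧ ActOK chevD4 RsQ 18 16 99 = true ∧
    ActOK chevD4 RsQ 12 19 99 = true ∧ ActOK chevD4 RsQ 13 19 99 = true ∧ ActOK chevD4 RsQ 18 19 14 = true := by
  decide +kernel

section

variable {K : Type*} [Field K] [CharP K 2]

lemma actS {a r u s : ℕ} (ha : PR chevD4 a) (h : RdD chevD4 (piF muV) r u s) (chk : ActOK chevD4 RsQ a r 14 = true) (δ : K)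
    {q : GL chevD4.Idx K} (hq : q ∈ rootsGen chevD4 K (fun w => w ∈ RsQ)) :
    rdE chevD4 K u s (hD4.xU ha.1 δ * q * (hD4.xU ha.1 δ)⁻¹) = rdE chevD4 K u s q + δ * rdE chevD4 K 23 22 q :=
  hD4.rd_act h slD4 RsQ_pr RsQ_v ha chk (rdE chevD4 K 23 22) (fun _ hg _ hg' => hD4.rd_mul rV14 RsQ_lt RsQ_v' hg hg')
    (fun w hw hwl t => hD4.rd_x rV14 slD4 hwl (RsQ_v w hw) t) δ q hq

lemma act0 {a r u s : ℕ} (ha : PR chevD4 a) (h : RdD chevD4 (piF muV) r u s) (chk : ActOK chevD4 RsQ a r 99 = true) (δ : K)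
    {q : GL chevD4.Idx K} (hq : q ∈ rootsGen chevD4 K (fun w => w ∈ RsQ)) :
    rdE chevD4 K u s (hD4.xU ha.1 δ * q * (hD4.xU ha.1 δ)⁻¹) = rdE chevD4 K u s q := by
  have h1 := hD4.rd_act h slD4 RsQ_pr RsQ_v ha chk (fun _ => (0 : K)) (fun _ _ _ _ => by simp)
    (fun w hw hwl t => by
      have : w ≠ 99 := fun e => by
        rw [e] at hwl
        exact absurd hwl (by decide +kernel)
      simp [this]) δ q hq
  simpa using h1

lemma act_norm' {a r r₂ : ℕ} (ha : PR chevD4 a) (chk : ActOK chevD4 RsQ a r r₂ = true) (δ : K)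
    {q : GL chevD4.Idx K} (hq : q ∈ rootsGen chevD4 K (fun w => w ∈ RsQ)) :
    hD4.xU ha.1 δ * q * (hD4.xU ha.1 δ)⁻¹ ∈ rootsGen chevD4 K (fun w => w ∈ RsQ) :=
  (Subgroup.mem_normalizer_iff.1 (hD4.act_norm RsQ_pr ha chk δ) q).1 hq

/-- The compatibility of the coordinates of a fixed element. -/
lemma compV (φ : K ≃+* K) {r r' u s u' s' : ℕ} (he : barD4a r = r') (h : RdD chevD4 (piF muV) r u s) (h' : RdD chevD4 (piF muV) r' u' s')
    {g : GL chevD4.Idx K} (hg : g ∈ rootsGen chevD4 K (fun w => w ∈ RsQ)) (hf : (twD4 φ).sig g = g) :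
    rdE chevD4 K u' s' g = φ (rdE chevD4 K u s g) := by
  subst he
  have h3 := (twD4 φ).rd_sig φ (fun w t _ => twD4_f φ w t) h h' slD4 (Z := fun w => w ∈ RsQ) RsQ_lt RsQ_v'
    (fun w hw => bar_Q w hw) hg
  rwa [hf] at h3

/-- The automorphism on root elements of fixed roots. -/
lemma sigN (φ : K ≃+* K) {r : ℕ} (hr : r < chevD4.nroots) (he : barD4a r = r) (t : K) :
    (twD4 φ).sig (hD4.xN r t) = hD4.xN r (φ t) := by
  rw [hD4.xN_of_lt hr, (twD4 φ).sig_xU hr, twD4_f, hD4.xN_of_lt hr]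
  exact hD4.xU_congr _ _ he rfl

lemma xN_inj {r : ℕ} (hr : r < chevD4.nroots) {s t : K} (h : hD4.xN r s = hD4.xN r t) : s = t := by
  have h1 := congrArg (fun g : GL chevD4.Idx K => (g : Matrix chevD4.Idx chevD4.Idx K)) h
  simp only [hD4.xN_coe] at h1
  exact hD4.x_inj hr h1

lemma xN_sq {r : ℕ} (hr : r < chevD4.nroots) (t : K) : hD4.xN r t * hD4.xN r t = 1 := by
  rw [hD4.xN_add hr, add_self_char_two, hD4.xN_zero]

/-- Commuting root elements. -/
lemma cN {a b : ℕ} (h : a < chevD4.nroots ∧ b < chevD4.nroots ∧ b ≠ a ∧ b ≠ chevD4.neg a ∧ chevD4.commTerms a b = []) (s t : K) :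
    Commute (hD4.xN a s) (hD4.xN b t) := by
  obtain ⟨h1, h2, h3, h4, h5⟩ := h
  rw [hD4.xN_of_lt h1, hD4.xN_of_lt h2]
  exact (hD4.xU_comm_nil h1 h2 h3 h4 h5 s t).symm

/-- The commutator of the two root elements. -/
lemma comm22 (t u : K) : hD4.xN 22 u * hD4.xN 14 t = hD4.xN 14 t * hD4.xN 22 u * hD4.xN 23 (t * u) := by
  obtain ⟨m, e, hm⟩ := comm22_14
  have pr14 : PR chevD4 14 := by decide +kernel
  have pr22 : PR chevD4 22 := by decide +kernel
  have h23 : 23 < chevD4.nroots := by decide +kernel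
  rw [hD4.xN_of_lt pr22.1, hD4.xN_of_lt pr14.1, hD4.xN_of_lt h23]
  exact hD4.xU_comm_one pr14 pr22 h23 (by decide) e hm t u

/-- The square in the case of a nontrivial coordinate at the long simple root. -/
lemma sqF {t b4 b5 b6 b7 b8 : K}
    (h : (hD4.xN 14 t * (hD4.xN 21 b4 * (hD4.xN 17 b5 * (hD4.xN 20 b6 * (hD4.xN 22 b7 * hD4.xN 23 b8))))) *
      (hD4.xN 14 t * (hD4.xN 21 b4 * (hD4.xN 17 b5 * (hD4.xN 20 b6 * (hD4.xN 22 b7 * hD4.xN 23 b8))))) = 1) : t * b7 = 0 := by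
  have h23 : 23 < chevD4.nroots := by decide +kernel
  have hW : (hD4.xN 21 b4 * (hD4.xN 17 b5 * hD4.xN 20 b6)) * (hD4.xN 21 b4 * (hD4.xN 17 b5 * hD4.xN 20 b6)) = 1 := by
    have h1 := hD4.gW_sq_perp (F := K) tfD4 (l := [(21, b4), (17, b5), (20, b6)]) (by
        intro e he
        simp only [List.mem_cons, List.not_mem_nil, or_false] at he
        rcases he with rfl | rfl | rfl
        exacts [(by decide +kernel : 21 < chevD4.nroots), (by decide +kernel : 17 < chevD4.nroots), (by decide +kernel : 20 < chevD4.nroots)])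
      ((List.pairwise_map (f := Prod.fst) (R := fun a b => chevD4.pairing a b = 0)).1
        (show ([21, 17, 20] : List ℕ).Pairwise (fun a b => chevD4.pairing a b = 0) by decide +kernel))
    simpa [hD4.gW_cons, mul_assoc] using h1
  have c1 : Commute (hD4.xN 14 t) (hD4.xN 21 b4) := cN (by decide +kernel) _ _
  have c2 : Commute (hD4.xN 14 t) (hD4.xN 17 b5) := cN (by decide +kernel) _ _
  have c3 : Commute (hD4.xN 14 t) (hD4.xN 20 b6) := cN (by decide +kernel) _ _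
  have c4 : Commute (hD4.xN 22 b7) (hD4.xN 21 b4) := cN (by decide +kernel) _ _
  have c5 : Commute (hD4.xN 22 b7) (hD4.xN 17 b5) := cN (by decide +kernel) _ _
  have c6 : Commute (hD4.xN 22 b7) (hD4.xN 20 b6) := cN (by decide +kernel) _ _
  have c7 : Commute (hD4.xN 23 b8) (hD4.xN 21 b4) := cN (by decide +kernel) _ _
  have c8 : Commute (hD4.xN 23 b8) (hD4.xN 17 b5) := cN (by decide +kernel) _ _
  have c9 : Commute (hD4.xN 23 b8) (hD4.xN 20 b6) := cN (by decide +kernel) _ _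
  have c10 : Commute (hD4.xN 23 b8) (hD4.xN 14 t) := cN (by decide +kernel) _ _
  have c11 : Commute (hD4.xN 23 b8) (hD4.xN 22 b7) := cN (by decide +kernel) _ _
  have c12 : Commute (hD4.xN 23 (t * b7)) (hD4.xN 22 b7) := cN (by decide +kernel) _ _
  have e0 := comm22 t b7
  have s14 := xN_sq (K := K) (show 14 < chevD4.nroots by decide +kernel) t
  have s22 := xN_sq (K := K) (show 22 < chevD4.nroots by decide +kernel) b7
  have s23 := xN_sq (K := K) h23 b8
  generalize hD4.xN 21 b4 = x21 at *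
  generalize hD4.xN 17 b5 = x17 at *
  generalize hD4.xN 20 b6 = x20 at *
  generalize hD4.xN 23 b8 = Z at *
  have hDD : (hD4.xN 14 t * hD4.xN 22 b7) * (hD4.xN 14 t * hD4.xN 22 b7) = hD4.xN 23 (t * b7) := by
    calc (hD4.xN 14 t * hD4.xN 22 b7) * (hD4.xN 14 t * hD4.xN 22 b7)
        = hD4.xN 14 t * (hD4.xN 22 b7 * hD4.xN 14 t) * hD4.xN 22 b7 := by group
      _ = (hD4.xN 14 t * hD4.xN 14 t) * hD4.xN 22 b7 * (hD4.xN 23 (t * b7) * hD4.xN 22 b7) := by rw [e0]; group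
      _ = (hD4.xN 14 t * hD4.xN 14 t) * (hD4.xN 22 b7 * hD4.xN 22 b7) * hD4.xN 23 (t * b7) := by rw [c12.eq]; group
      _ = _ := by rw [s14, s22]; group
  generalize hD4.xN 14 t = P at *
  generalize hD4.xN 22 b7 = R at *
  have hq : P * (x21 * (x17 * (x20 * (R * Z)))) = (x21 * (x17 * x20)) * Z * (P * R) := by
    calc P * (x21 * (x17 * (x20 * (R * Z)))) = (P * x21) * x17 * x20 * (R * Z) := by group
      _ = x21 * (P * x17) * x20 * (R * Z) := by rw [c1.eq]; group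
      _ = x21 * x17 * (P * x20) * (R * Z) := by rw [c2.eq]; group
      _ = x21 * x17 * x20 * (P * R) * Z := by rw [c3.eq]; group
      _ = x21 * x17 * x20 * (P * (R * Z)) := by group
      _ = x21 * x17 * x20 * (P * (Z * R)) := by rw [c11.eq.symm]
      _ = x21 * x17 * x20 * ((P * Z) * R) := by group
      _ = x21 * x17 * x20 * ((Z * P) * R) := by rw [c10.eq.symm]
      _ = _ := by group
  have cW : Commute (x21 * (x17 * x20)) (P * R) :=
    ((c1.symm.mul_left (c2.symm.mul_left c3.symm)).mul_right (c4.symm.mul_left (c5.symm.mul_left c6.symm)))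
  have cZ : Commute Z (P * R) := c10.mul_right c11
  have cWZ : Commute (x21 * (x17 * x20)) Z := (c7.symm.mul_left (c8.symm.mul_left c9.symm))
  have h3 : ((x21 * (x17 * x20)) * Z * (P * R)) * ((x21 * (x17 * x20)) * Z * (P * R)) =
      ((x21 * (x17 * x20)) * (x21 * (x17 * x20))) * (Z * Z) * ((P * R) * (P * R)) := by
    have c13 : Commute ((x21 * (x17 * x20)) * Z) (P * R) := cW.mul_left cZ
    calc ((x21 * (x17 * x20)) * Z * (P * R)) * ((x21 * (x17 * x20)) * Z * (P * R))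
        = (x21 * (x17 * x20)) * Z * ((P * R) * ((x21 * (x17 * x20)) * Z)) * (P * R) := by group
      _ = (x21 * (x17 * x20)) * Z * (((x21 * (x17 * x20)) * Z) * (P * R)) * (P * R) := by rw [c13.symm.eq]
      _ = (x21 * (x17 * x20)) * (Z * (x21 * (x17 * x20))) * Z * ((P * R) * (P * R)) := by group
      _ = (x21 * (x17 * x20)) * ((x21 * (x17 * x20)) * Z) * Z * ((P * R) * (P * R)) := by rw [cWZ.symm.eq]
      _ = _ := by group
  rw [hq, h3, hW, s23, hDD, one_mul, one_mul] at h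
  rw [hD4.xN_of_lt h23] at h
  by_contra h0
  exact hD4.xU_ne_one h23 h0 h

omit [CharP K 2] in
lemma sq_conj {x n : GL chevD4.Idx K} (h : x * x = 1) : (n * x * n⁻¹) * (n * x * n⁻¹) = 1 := by
  have e2 : n * x * n⁻¹ * (n * x * n⁻¹) = n * (x * x) * n⁻¹ := by group
  rw [e2, h]
  simp

/-- The case of a nontrivial coordinate at the orbit of the sums of the central root and an outer root. -/
theorem caseC [Fintype K] (φ : K ≃+* K) (hφ : ∀ x, φ (φ (φ x)) = x) {q : GL chevD4.Idx K} (hq : q ∈ (twD4 φ).fix)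
    (hqC : q ∈ rootsGen chevD4 K (fun w => w ∈ RsC)) (h2 : q * q = 1)
    (hne : rdE chevD4 K 23 17 q ≠ 0 ∨ rdE chevD4 K 23 20 q ≠ 0 ∨ rdE chevD4 K 23 21 q ≠ 0) : ConD4 φ q := by
  obtain ⟨f, hf⟩ := hD4.decomp_list RsC (fun w hw => RsC_lt w hw) RsC_dec q hqC
  have hl : ∀ e ∈ RsC.map (fun r => (r, f r)), e.1 ∈ RsC := by
    intro e he
    obtain ⟨r, hr, rfl⟩ := List.mem_map.1 he
    exact hr
  have r19 := (hD4.rd_gW rV19 slD4 RsC_lt RsC_v _ hl).2
  have r16 := (hD4.rd_gW rV16 slD4 RsC_lt RsC_v _ hl).2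
  have r15 := (hD4.rd_gW rV15 slD4 RsC_lt RsC_v _ hl).2
  rw [← hf] at r19 r16 r15
  simp [RsC] at r19 r16 r15
  rw [r19, r16, r15] at hne
  have e1 := hD4.nProd_gW (F := K) nC_lt (RsC.map fun r => (r, f r)) (fun x hx => RsC_lt _ (hl x hx))
  rw [← hf] at e1
  simp only [RsC, List.map_cons, List.map_nil, wC19, wC16, wC15, wC21, wC17, wC20, wC22, wC23] at e1
  set q' := hD4.nProd [1] * q * (hD4.nProd [1])⁻¹ with hq'
  refine con_conj (nC_fix φ) ?_
  rw [← hq']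
  have hfq' : q' ∈ (twD4 φ).fix := Subgroup.mul_mem _ (Subgroup.mul_mem _ (nC_fix φ) hq) (Subgroup.inv_mem _ (nC_fix φ))
  have hpr : ∀ e ∈ [(18, f 19), (13, f 16), (12, f 15), (21, f 21), (17, f 17), (20, f 20), (23, f 22), (22, f 23)], PR chevD4 e.1 := by
    have h3 : ∀ r ∈ ([18, 13, 12, 21, 17, 20, 23, 22] : List ℕ), PR chevD4 r := by decide +kernel
    intro e he
    apply h3
    simp only [List.mem_cons, List.not_mem_nil, or_false] at he ⊢
    rcases he with rfl | rfl | rfl | rfl | rfl | rfl | rfl | rfl <;> simp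
  have hSl : ∀ w, PR chevD4 w → w < chevD4.nroots := fun w hw => hw.1
  have s18 := (hD4.rd_gW rH18 slD4 hSl PR_h _ hpr).2
  have s13 := (hD4.rd_gW rH13 slD4 hSl PR_h _ hpr).2
  have s12 := (hD4.rd_gW rH12 slD4 hSl PR_h _ hpr).2
  rw [← e1] at s18 s13 s12
  simp at s18 s13 s12
  refine caseA φ hφ ?_ hfq'.2 ?_ ?_
  · rw [e1]
    exact gW_mem_U hD4 hpr
  · rw [hq']
    have e2 : hD4.nProd [1] * q * (hD4.nProd [1])⁻¹ * (hD4.nProd [1] * q * (hD4.nProd [1])⁻¹) = hD4.nProd [1] * (q * q) * (hD4.nProd [1])⁻¹ := by group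
    rw [e2, h2]
    simp
  · rw [s18, s13, s12]
    exact hne

/-- The case of a nontrivial coordinate at the long simple root. -/
theorem caseF [Fintype K] (φ : K ≃+* K) (hφ : ∀ x, φ (φ (φ x)) = x) {q : GL chevD4.Idx K} (hq : q ∈ (twD4 φ).fix)
    (hqQ : q ∈ rootsGen chevD4 K (fun w => w ∈ RsQ)) (h2 : q * q = 1) (hne : rdE chevD4 K 23 22 q ≠ 0) : ConD4 φ q := by
  have pr12 : PR chevD4 12 := by decide +kernel
  have pr13 : PR chevD4 13 := by decide +kernel
  have pr18 : PR chevD4 18 := by decide +kernel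
  have hsq := hq.2
  have ct := compV φ (show barD4a 14 = 14 by decide +kernel) rV14 rV14 hqQ hsq
  have c2 := compV φ (show barD4a 19 = 16 by decide +kernel) rV19 rV16 hqQ hsq
  have c3 := compV φ (show barD4a 16 = 15 by decide +kernel) rV16 rV15 hqQ hsq
  obtain ⟨a12a, a13a, a18a, a12b, a13b, a18b, a12c, a13c, a18c, a12d, a13d, a18d⟩ := act_checks
  generalize ht : rdE chevD4 K 23 22 q = t at *
  generalize ha1 : rdE chevD4 K 23 17 q = a1 at *
  generalize ha2 : rdE chevD4 K 23 20 q = a2 at *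
  generalize ha3 : rdE chevD4 K 23 21 q = a3 at *
  have hts : (a1 / t) * t = a1 := div_mul_cancel₀ a1 hne
  generalize hs : a1 / t = s at *
  have hs1 : φ s * t = a2 := by
    have := congrArg φ hts
    rw [map_mul, ← ct] at this
    rw [this, c2]
  have hs2 : φ (φ s) * t = a3 := by
    have := congrArg φ hs1
    rw [map_mul, ← ct] at this
    rw [this, c3]
  set q₁ := hD4.xU pr12.1 (φ (φ s)) * q * (hD4.xU pr12.1 (φ (φ s)))⁻¹ with hq₁
  have m₁ : q₁ ∈ rootsGen chevD4 K (fun w => w ∈ RsQ) := act_norm' pr12 a12a _ hqQ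
  set q₂ := hD4.xU pr13.1 (φ s) * q₁ * (hD4.xU pr13.1 (φ s))⁻¹ with hq₂
  have m₂ : q₂ ∈ rootsGen chevD4 K (fun w => w ∈ RsQ) := act_norm' pr13 a13a _ m₁
  set q₃ := hD4.xU pr18.1 s * q₂ * (hD4.xU pr18.1 s)⁻¹ with hq₃
  have m₃ : q₃ ∈ rootsGen chevD4 K (fun w => w ∈ RsQ) := act_norm' pr18 a18a _ m₂
  have t1 : rdE chevD4 K 23 22 q₁ = t := by rw [hq₁, act0 pr12 rV14 a12a _ hqQ, ht]
  have t2 : rdE chevD4 K 23 22 q₂ = t := by rw [hq₂, act0 pr13 rV14 a13a _ m₁, t1]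
  have t3 : rdE chevD4 K 23 22 q₃ = t := by rw [hq₃, act0 pr18 rV14 a18a _ m₂, t2]
  have u1 : rdE chevD4 K 23 21 q₁ = a3 + φ (φ s) * t := by rw [hq₁, actS pr12 rV15 a12b _ hqQ, ha3, ht]
  have u2 : rdE chevD4 K 23 21 q₂ = a3 + φ (φ s) * t := by rw [hq₂, act0 pr13 rV15 a13b _ m₁, u1]
  have u3 : rdE chevD4 K 23 21 q₃ = 0 := by
    rw [hq₃, act0 pr18 rV15 a18b _ m₂, u2, hs2, add_self_char_two]
  have v1 : rdE chevD4 K 23 20 q₁ = a2 := by rw [hq₁, act0 pr12 rV16 a12c _ hqQ, ha2]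
  have v2 : rdE chevD4 K 23 20 q₂ = a2 + φ s * t := by rw [hq₂, actS pr13 rV16 a13c _ m₁, v1, t1]
  have v3 : rdE chevD4 K 23 20 q₃ = 0 := by
    rw [hq₃, act0 pr18 rV16 a18c _ m₂, v2, hs1, add_self_char_two]
  have w1 : rdE chevD4 K 23 17 q₁ = a1 := by rw [hq₁, act0 pr12 rV19 a12d _ hqQ, ha1]
  have w2 : rdE chevD4 K 23 17 q₂ = a1 := by rw [hq₂, act0 pr13 rV19 a13d _ m₁, w1]
  have w3 : rdE chevD4 K 23 17 q₃ = 0 := by
    rw [hq₃, actS pr18 rV19 a18d _ m₂, w2, t2, hts, add_self_char_two]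
  have hy : yA φ s * q * (yA φ s)⁻¹ = q₃ := by
    unfold yA
    simp only [hD4.gW_cons, hD4.gW_nil, mul_one]
    rw [hD4.xN_of_lt pr18.1, hD4.xN_of_lt pr13.1, hD4.xN_of_lt pr12.1, hq₃, hq₂, hq₁]
    group
  refine con_conj (yA_fix φ hφ s) ?_
  rw [hy]
  have hfq₃ : q₃ ∈ (twD4 φ).fix := by
    rw [← hy]
    exact Subgroup.mul_mem _ (Subgroup.mul_mem _ (yA_fix φ hφ s) hq) (Subgroup.inv_mem _ (yA_fix φ hφ s))
  have hsq₃ : q₃ * q₃ = 1 := by
    rw [← hy]
    have e2 : yA φ s * q * (yA φ s)⁻¹ * (yA φ s * q * (yA φ s)⁻¹) = yA φ s * (q * q) * (yA φ s)⁻¹ := by group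
    rw [e2, h2]
    simp
  clear_value q₃
  obtain ⟨f, hf⟩ := hD4.decomp_list RsQ (fun w hw => RsQ_lt w hw) RsQ_dec q₃ m₃
  have hl : ∀ e ∈ RsQ.map (fun r => (r, f r)), e.1 ∈ RsQ := by
    intro e he
    obtain ⟨r, hr, rfl⟩ := List.mem_map.1 he
    exact hr
  have r14 := (hD4.rd_gW rV14 slD4 RsQ_lt RsQ_v' _ hl).2
  have r19 := (hD4.rd_gW rV19 slD4 RsQ_lt RsQ_v' _ hl).2
  have r16 := (hD4.rd_gW rV16 slD4 RsQ_lt RsQ_v' _ hl).2
  have r15 := (hD4.rd_gW rV15 slD4 RsQ_lt RsQ_v' _ hl).2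
  rw [← hf, t3] at r14
  rw [← hf, w3] at r19
  rw [← hf, v3] at r16
  rw [← hf, u3] at r15
  simp [RsQ] at r14 r19 r16 r15
  have hq₃e : q₃ = hD4.xN 14 t * (hD4.xN 21 (f 21) * (hD4.xN 17 (f 17) * (hD4.xN 20 (f 20) * (hD4.xN 22 (f 22) * hD4.xN 23 (f 23))))) := by
    rw [hf]
    simp only [RsQ, List.map_cons, List.map_nil, hD4.gW_cons, hD4.gW_nil, mul_one, ← r14, ← r19, ← r16, ← r15, hD4.xN_zero, one_mul]
  generalize f 21 = b4 at *
  generalize f 17 = b5 at *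
  generalize f 20 = b6 at *
  generalize f 22 = b7 at *
  generalize f 23 = b8 at *
  have hb7 : b7 = 0 := by
    have h3 := sqF (t := t) (b4 := b4) (b5 := b5) (b6 := b6) (b7 := b7) (b8 := b8) (by rw [← hq₃e]; exact hsq₃)
    rcases mul_eq_zero.1 h3 with h4 | h4
    · exact absurd h4 hne
    · exact h4
  subst hb7
  rw [hD4.xN_zero, one_mul] at hq₃e
  by_cases hb : b5 ≠ 0 ∨ b6 ≠ 0 ∨ b4 ≠ 0
  · have hlist : q₃ = hD4.gW [(14, t), (21, b4), (17, b5), (20, b6), (23, b8)] := by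
      rw [hq₃e]
      simp only [hD4.gW_cons, hD4.gW_nil, mul_one]
    have e1 := hD4.nProd_gW (F := K) nA_lt [(14, t), (21, b4), (17, b5), (20, b6), (23, b8)] (by
      intro x hx
      simp only [List.mem_cons, List.not_mem_nil, or_false] at hx
      rcases hx with rfl | rfl | rfl | rfl | rfl
      exacts [(by decide +kernel : 14 < chevD4.nroots), (by decide +kernel : 21 < chevD4.nroots), (by decide +kernel : 17 < chevD4.nroots),
        (by decide +kernel : 20 < chevD4.nroots), (by decide +kernel : 23 < chevD4.nroots)])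
    rw [← hlist] at e1
    simp only [List.map_cons, List.map_nil, wA14, wA21, wA17, wA20, wA23] at e1
    refine con_conj (nA_fix φ) ?_
    have hf4 : hD4.nProd [0, 2, 3] * q₃ * (hD4.nProd [0, 2, 3])⁻¹ ∈ (twD4 φ).fix :=
      Subgroup.mul_mem _ (Subgroup.mul_mem _ (nA_fix φ) hfq₃) (Subgroup.inv_mem _ (nA_fix φ))
    have hs4 := sq_conj (n := hD4.nProd [0, 2, 3]) hsq₃
    generalize hD4.nProd [0, 2, 3] * q₃ * (hD4.nProd [0, 2, 3])⁻¹ = q₄ at e1 hf4 hs4 ⊢
    have hmem : ∀ e ∈ [(22, t), (15, b4), (19, b5), (16, b6), (23, b8)], e.1 ∈ RsC := by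
      have h3 : ∀ r ∈ ([22, 15, 19, 16, 23] : List ℕ), r ∈ RsC := by decide +kernel
      intro e he
      apply h3
      simp only [List.mem_cons, List.not_mem_nil, or_false] at he ⊢
      rcases he with rfl | rfl | rfl | rfl | rfl <;> simp
    have s19 := (hD4.rd_gW rV19 slD4 RsC_lt RsC_v _ hmem).2
    have s16 := (hD4.rd_gW rV16 slD4 RsC_lt RsC_v _ hmem).2
    have s15 := (hD4.rd_gW rV15 slD4 RsC_lt RsC_v _ hmem).2
    rw [← e1] at s19 s16 s15
    simp at s19 s16 s15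
    refine caseC φ hφ hf4 ?_ hs4 ?_
    · rw [e1]
      exact gW_map_mem hD4 RsC_lt hmem
    · rw [s19, s16, s15]
      exact hb
  · push_neg at hb
    obtain ⟨h5, h6, h4⟩ := hb
    subst h5
    subst h6
    subst h4
    simp only [hD4.xN_zero, one_mul] at hq₃e
    have h14 : 14 < chevD4.nroots := by decide +kernel
    have h22 : 22 < chevD4.nroots := by decide +kernel
    have h23 : 23 < chevD4.nroots := by decide +kernel
    have hb8 : φ b8 = b8 := by
      have h3 := hfq₃.2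
      rw [hq₃e, (twD4 φ).sig_mul (hD4.xN_mem _ _) (hD4.xN_mem _ _), sigN φ h14 (by decide +kernel), sigN φ h23 (by decide +kernel), ← ct] at h3
      exact xN_inj h23 (mul_left_cancel h3)
    have hδ : φ (b8 / t) = b8 / t := by
      rw [map_div₀, hb8, ← ct]
    have hz₁ : hD4.xN 22 (b8 / t) ∈ (twD4 φ).fix :=
      ⟨hD4.xN_mem _ _, by rw [sigN φ h22 (by decide +kernel), hδ]⟩
    have e3 := comm22 t (b8 / t)
    rw [mul_div_cancel₀ b8 hne] at e3
    have c1 : Commute (hD4.xN 22 (b8 / t)) (hD4.xN 23 b8) := cN (by decide +kernel) _ _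
    have s23 := xN_sq (K := K) h23 b8
    have e4 : hD4.xN 22 (b8 / t) * q₃ * (hD4.xN 22 (b8 / t))⁻¹ = hD4.xN 14 t := by
      rw [hq₃e]
      generalize hD4.xN 22 (b8 / t) = z at *
      generalize hD4.xN 23 b8 = Z at *
      calc z * (hD4.xN 14 t * Z) * z⁻¹ = (z * hD4.xN 14 t) * Z * z⁻¹ := by group
        _ = hD4.xN 14 t * z * Z * Z * z⁻¹ := by rw [e3]
        _ = hD4.xN 14 t * z * (Z * Z) * z⁻¹ := by group
        _ = _ := by rw [s23]; group
    refine con_conj hz₁ ?_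
    rw [e4]
    refine con_conj (nA_fix φ) ?_
    rw [hD4.nProd_xN nA_lt h14, wA14]
    refine con_conj (nC_fix φ) ?_
    rw [hD4.nProd_xN nC_lt h22, wC22]
    obtain ⟨z, hz, e5⟩ := torusB φ hne ct.symm
    exact ⟨z, hz, Or.inr e5⟩

/-- The last case. -/
theorem caseD [Fintype K] (φ : K ≃+* K) (hφ : ∀ x, φ (φ (φ x)) = x) {q : GL chevD4.Idx K} (hq : q ∈ (twD4 φ).fix)
    (hqD : q ∈ rootsGen chevD4 K (fun w => w ∈ RsD)) (h2 : q * q = 1) (h1 : q ≠ 1) : ConD4 φ q := by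
  obtain ⟨f, hf⟩ := hD4.decomp_list RsD (fun w hw => RsD_lt w hw) RsD_dec q hqD
  have hl : ∀ e ∈ RsD.map (fun r => (r, f r)), e.1 < chevD4.nroots := by
    intro e he
    obtain ⟨r, hr, rfl⟩ := List.mem_map.1 he
    exact RsD_lt r hr
  have e1 := hD4.nProd_gW (F := K) nA_lt (RsD.map fun r => (r, f r)) hl
  rw [← hf] at e1
  simp only [RsD, List.map_cons, List.map_nil, wA21, wA17, wA20, wA22, wA23] at e1
  have hf' : q = hD4.xN 21 (f 21) * (hD4.xN 17 (f 17) * (hD4.xN 20 (f 20) * (hD4.xN 22 (f 22) * hD4.xN 23 (f 23)))) := by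
    rw [hf]
    simp only [RsD, List.map_cons, List.map_nil, hD4.gW_cons, hD4.gW_nil, mul_one]
  generalize f 21 = a at *
  generalize f 17 = b at *
  generalize f 20 = c at *
  generalize f 22 = k at *
  generalize f 23 = l at *
  have hfq' : hD4.nProd [0, 2, 3] * q * (hD4.nProd [0, 2, 3])⁻¹ ∈ (twD4 φ).fix :=
    Subgroup.mul_mem _ (Subgroup.mul_mem _ (nA_fix φ) hq) (Subgroup.inv_mem _ (nA_fix φ))
  have hs' := sq_conj (n := hD4.nProd [0, 2, 3]) h2
  by_cases hk : k = 0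
  · subst hk
    by_cases hb : b ≠ 0 ∨ c ≠ 0 ∨ a ≠ 0
    · refine con_conj (nA_fix φ) ?_
      generalize hD4.nProd [0, 2, 3] * q * (hD4.nProd [0, 2, 3])⁻¹ = q₄ at e1 hfq' hs' ⊢
      have hmem : ∀ e ∈ [(15, a), (19, b), (16, c), (14, (0 : K)), (23, l)], e.1 ∈ RsQ := by
        have h3 : ∀ r ∈ ([15, 19, 16, 14, 23] : List ℕ), r ∈ RsQ := by decide +kernel
        intro e he
        apply h3
        simp only [List.mem_cons, List.not_mem_nil, or_false] at he ⊢
        rcases he with rfl | rfl | rfl | rfl | rfl <;> simp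
      have s19 := (hD4.rd_gW rV19 slD4 RsQ_lt RsQ_v' _ hmem).2
      have s16 := (hD4.rd_gW rV16 slD4 RsQ_lt RsQ_v' _ hmem).2
      have s15 := (hD4.rd_gW rV15 slD4 RsQ_lt RsQ_v' _ hmem).2
      rw [← e1] at s19 s16 s15
      simp at s19 s16 s15
      refine caseC φ hφ hfq' ?_ hs' ?_
      · rw [e1]
        have e3 : hD4.gW [(15, a), (19, b), (16, c), (14, (0 : K)), (23, l)] = hD4.gW [(15, a), (19, b), (16, c), (23, l)] := by
          simp only [hD4.gW_cons, hD4.gW_nil, hD4.xN_zero, one_mul]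
        rw [e3]
        refine gW_map_mem hD4 RsC_lt ?_
        have h3 : ∀ r ∈ ([15, 19, 16, 23] : List ℕ), r ∈ RsC := by decide +kernel
        intro e he
        apply h3
        simp only [List.mem_cons, List.not_mem_nil, or_false] at he ⊢
        rcases he with rfl | rfl | rfl | rfl <;> simp
      · rw [s19, s16, s15]
        exact hb
    · push_neg at hb
      obtain ⟨h5, h6, h4⟩ := hb
      subst h5
      subst h6
      subst h4
      simp only [hD4.xN_zero, one_mul] at hf'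
      have h23 : 23 < chevD4.nroots := by decide +kernel
      have hl0 : l ≠ 0 := by
        rintro rfl
        apply h1
        rw [hf', hD4.xN_zero]
      have hlφ : φ l = l := by
        have h3 := hq.2
        rw [hf', sigN φ h23 (by decide +kernel)] at h3
        exact xN_inj h23 h3
      obtain ⟨z, hz, e5⟩ := torusB φ hl0 hlφ
      rw [hf']
      exact ⟨z, hz, Or.inr e5⟩
  · refine con_conj (nA_fix φ) ?_
    generalize hD4.nProd [0, 2, 3] * q * (hD4.nProd [0, 2, 3])⁻¹ = q₄ at e1 hfq' hs' ⊢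
    have hmem : ∀ e ∈ [(15, a), (19, b), (16, c), (14, k), (23, l)], e.1 ∈ RsQ := by
      have h3 : ∀ r ∈ ([15, 19, 16, 14, 23] : List ℕ), r ∈ RsQ := by decide +kernel
      intro e he
      apply h3
      simp only [List.mem_cons, List.not_mem_nil, or_false] at he ⊢
      rcases he with rfl | rfl | rfl | rfl | rfl <;> simp
    have s14 := (hD4.rd_gW rV14 slD4 RsQ_lt RsQ_v' _ hmem).2
    rw [← e1] at s14
    simp at s14
    refine caseF φ hφ hfq' ?_ hs' ?_
    · rw [e1]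
      exact gW_map_mem hD4 RsQ_lt hmem
    · rw [s14]
      exact hk

/-- The classification in `U`. -/
theorem classU [Fintype K] (φ : K ≃+* K) (hφ : ∀ x, φ (φ (φ x)) = x) {v : GL chevD4.Idx K} (hvU : v ∈ chevD4.posUnipotent K)
    (hvf : v ∈ (twD4 φ).fix) (h2 : v * v = 1) (h1 : v ≠ 1) : ConD4 φ v := by
  have hvP : v ∈ rootsGen chevD4 K (fun w => w ∈ RsU) := rootsGen_mono0 (fun w hw => RsU_all w hw) (hD4.U_le_rootsGen hvU)
  have hUl : ∀ w, w ∈ RsU → w < chevD4.nroots := by decide +kernel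
  obtain ⟨f, hf⟩ := hD4.decomp_list RsU hUl RsU_dec v hvP
  have hl : ∀ e ∈ RsU.map (fun r => (r, f r)), PR chevD4 e.1 := by
    have h3 : ∀ r ∈ RsU, PR chevD4 r := by decide +kernel
    intro e he
    obtain ⟨r, hr, rfl⟩ := List.mem_map.1 he
    exact h3 r hr
  have hSl : ∀ w, PR chevD4 w → w < chevD4.nroots := fun w hw => hw.1
  have s18 := (hD4.rd_gW rH18 slD4 hSl PR_h _ hl).2
  have s13 := (hD4.rd_gW rH13 slD4 hSl PR_h _ hl).2
  have s12 := (hD4.rd_gW rH12 slD4 hSl PR_h _ hl).2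
  rw [← hf] at s18 s13 s12
  simp [RsU] at s18 s13 s12
  by_cases hA : f 18 ≠ 0 ∨ f 13 ≠ 0 ∨ f 12 ≠ 0
  · refine caseA φ hφ hvU hvf.2 h2 ?_
    rw [s18, s13, s12]
    exact hA
  push_neg at hA
  obtain ⟨h18, h13, h12⟩ := hA
  have hvQ : v = hD4.gW (RsQ.map fun r => (r, f r)) := by
    rw [hf]
    simp only [RsU, RsQ, List.map_cons, hD4.gW_cons, h18, h13, h12, hD4.xN_zero, one_mul]
  have hlQ : ∀ e ∈ RsQ.map (fun r => (r, f r)), e.1 ∈ RsQ := by
    intro e he
    obtain ⟨r, hr, rfl⟩ := List.mem_map.1 he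
    exact hr
  have hmQ : v ∈ rootsGen chevD4 K (fun w => w ∈ RsQ) := by
    rw [hvQ]
    exact gW_map_mem hD4 RsQ_lt hlQ
  have r14 := (hD4.rd_gW rV14 slD4 RsQ_lt RsQ_v' _ hlQ).2
  rw [← hvQ] at r14
  simp [RsQ] at r14
  by_cases h14 : f 14 = 0
  · have hvC : v = hD4.gW (RsC.map fun r => (r, f r)) := by
      rw [hvQ]
      simp only [RsC, RsQ, List.map_cons, hD4.gW_cons, h14, hD4.xN_zero, one_mul]
    have hlC : ∀ e ∈ RsC.map (fun r => (r, f r)), e.1 ∈ RsC := by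
      intro e he
      obtain ⟨r, hr, rfl⟩ := List.mem_map.1 he
      exact hr
    have r19 := (hD4.rd_gW rV19 slD4 RsC_lt RsC_v _ hlC).2
    have r16 := (hD4.rd_gW rV16 slD4 RsC_lt RsC_v _ hlC).2
    have r15 := (hD4.rd_gW rV15 slD4 RsC_lt RsC_v _ hlC).2
    rw [← hvC] at r19 r16 r15
    simp [RsC] at r19 r16 r15
    have hmC : v ∈ rootsGen chevD4 K (fun w => w ∈ RsC) := by
      rw [hvC]
      exact gW_map_mem hD4 RsC_lt hlC
    by_cases hC : f 19 ≠ 0 ∨ f 16 ≠ 0 ∨ f 15 ≠ 0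
    · refine caseC φ hφ hvf hmC h2 ?_
      rw [r19, r16, r15]
      exact hC
    push_neg at hC
    obtain ⟨h19, h16, h15⟩ := hC
    have hvD : v = hD4.gW (RsD.map fun r => (r, f r)) := by
      rw [hvC]
      simp only [RsC, RsD, List.map_cons, hD4.gW_cons, h19, h16, h15, hD4.xN_zero, one_mul]
    refine caseD φ hφ hvf ?_ h2 h1
    rw [hvD]
    refine gW_map_mem hD4 RsD_lt ?_
    intro e he
    obtain ⟨r, hr, rfl⟩ := List.mem_map.1 he
    exact hr
  · refine caseF φ hφ hvf hmQ h2 ?_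
    rw [r14]
    exact h14

end

end Cfsg.Agent.Lib.Chev
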