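/-
Involutions in the group ³D₄(q): the number of classes.
-/
import Cfsg.Agent.Lib.ChInv.TwD4c

set_option autoImplicit false
set_option maxRecDepth 100000

namespace Cfsg.Agent.Lib.Chev

open Cfsg.Lie

/-- Two classes of involutions. -/
theorem ncard_two {G : Type*} [Group G] (a b : G) (ha : orderOf a = 2) (hb : orderOf b = 2) (hab : ¬ IsConj a b)
    (h : ∀ g, orderOf g = 2 → IsConj a g ∨ IsConj b g) :
    (ConjClasses.mk '' {g : G | orderOf g = 2}).ncard = 2 := by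
  have hset : ConjClasses.mk '' {g : G | orderOf g = 2} = {ConjClasses.mk a, ConjClasses.mk b} := by
    ext x
    constructor
    · rintro ⟨g, hg, rfl⟩
      rcases h g hg with h1 | h1
      · left
        exact (ConjClasses.mk_eq_mk_iff_isConj.2 h1).symm
      · right
        exact (ConjClasses.mk_eq_mk_iff_isConj.2 h1).symm
    · rintro (rfl | rfl)
      · exact ⟨a, ha, rfl⟩
      · exact ⟨b, hb, rfl⟩
  rw [hset]
  refine Set.ncard_pair fun e => hab (ConjClasses.mk_eq_mk_iff_isConj.1 e)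

section

variable {K : Type*} [Field K] [Fintype K] [CharP K 2]

/-- An involution is conjugate into `U`. -/
lemma exists_conj_U_D4 {q : ℕ} (φ : K ≃+* K) (hq : ∀ x, φ x = x ^ q) (hφ : ∀ x, φ (φ (φ x)) = x) (hK : Fintype.card K = q ^ 3)
    {v : GL chevD4.Idx K} (hv : v ∈ (twD4 φ).fix) (h2 : v * v = 1) :
    ∃ g ∈ (twD4 φ).fix, g * v * g⁻¹ ∈ chevD4.posUnipotent K := by
  haveI : Fact (Nat.Prime 2) := ⟨Nat.prime_two⟩
  have hcU := cardUD4 φ hq hφ hK
  have hcG := twOrderD4 φ hq hφ hK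
  obtain ⟨n, _, hn⟩ := FiniteField.card K 2
  have hqd : q ∣ 2 ^ (n : ℕ) := by
    rw [← hn, hK]
    exact dvd_pow_self _ (by norm_num)
  obtain ⟨e, _, rfl⟩ := (Nat.dvd_prime_pow Nat.prime_two).1 hqd
  have he : e ≠ 0 := by
    rintro rfl
    simp at hK
    rw [hn] at hK
    have : 2 ^ (n : ℕ) ≠ 1 := (Nat.one_lt_two_pow n.ne_zero).ne'
    exact this hK
  let P : Subgroup ↥(twD4 φ).fix := (chevD4.posUnipotent K ⊓ (twD4 φ).fix).subgroupOf (twD4 φ).fix
  have hPc : Nat.card P = (2 ^ e) ^ 12 := by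
    rw [← hcU]
    exact Nat.card_congr (Subgroup.subgroupOfEquivOfLe inf_le_right).toEquiv
  have hP2 : IsPGroup 2 P := IsPGroup.of_card (n := e * 12) (by rw [hPc, pow_mul])
  have hidx : P.index = ((2 ^ e) ^ 2 - 1) * ((2 ^ e) ^ 6 - 1) * ((2 ^ e) ^ 8 + (2 ^ e) ^ 4 + 1) := by
    have h1 := P.card_mul_index
    rw [hPc, hcG] at h1
    have h3 : 0 < ((2 ^ e) ^ 12 : ℕ) := by positivity
    have h4 : (2 ^ e) ^ 12 * (((2 ^ e) ^ 2 - 1) * ((2 ^ e) ^ 6 - 1) * ((2 ^ e) ^ 8 + (2 ^ e) ^ 4 + 1)) = (2 ^ e) ^ 12 * P.index := by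
      rw [h1]
      ring
    exact (Nat.eq_of_mul_eq_mul_left h3 h4).symm
  have hodd : ¬ 2 ∣ P.index := by
    rw [hidx]
    obtain ⟨e', rfl⟩ := Nat.exists_eq_succ_of_ne_zero he
    have hev : ∀ k, k ≠ 0 → Even ((2 ^ (e' + 1)) ^ k) := fun k hk =>
      (Nat.even_pow.2 ⟨(by simp [Nat.even_pow]), by omega⟩ : Even ((2 ^ (e' + 1) : ℕ) ^ k))
    have hpos : ∀ k, k ≠ 0 → 1 ≤ (2 ^ (e' + 1)) ^ k := fun k _ => Nat.one_le_pow _ _ (by positivity)
    rw [Nat.two_dvd_ne_zero, ← Nat.odd_iff]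
    refine Odd.mul (Odd.mul ?_ ?_) ?_
    · exact Nat.Even.sub_odd (hpos 2 (by norm_num)) (hev 2 (by norm_num)) odd_one
    · exact Nat.Even.sub_odd (hpos 6 (by norm_num)) (hev 6 (by norm_num)) odd_one
    · exact Even.add_one ((hev 8 (by norm_num)).add (hev 4 (by norm_num)))
  let S₀ : Sylow 2 ↥(twD4 φ).fix := hP2.toSylow hodd
  let x : ↥(twD4 φ).fix := ⟨v, hv⟩
  have hx : x ^ 2 = 1 := by
    apply Subtype.ext
    simp [x, pow_two, h2]
  have hH : IsPGroup 2 (Subgroup.zpowers x) := by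
    rw [IsPGroup.iff_card]
    rw [Nat.card_zpowers]
    rcases (Nat.dvd_prime Nat.prime_two).1 (orderOf_dvd_of_pow_eq_one hx) with h | h
    · exact ⟨0, by simpa using h⟩
    · exact ⟨1, by simpa using h⟩
  obtain ⟨Q, hQ⟩ := hH.exists_le_sylow
  obtain ⟨g, hg⟩ := MulAction.exists_smul_eq ↥(twD4 φ).fix Q S₀
  have hxQ : x ∈ (Q : Subgroup ↥(twD4 φ).fix) := hQ (Subgroup.mem_zpowers x)
  have h3 : g * x * g⁻¹ ∈ (S₀ : Subgroup ↥(twD4 φ).fix) := by
    rw [← hg, Sylow.coe_subgroup_smul]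
    exact Subgroup.smul_mem_pointwise_smul _ (MulAut.conj g) _ hxQ
  have h4 : g * x * g⁻¹ ∈ P := h3
  exact ⟨g.1, g.2, (Subgroup.mem_subgroupOf.1 h4).1⟩

/-- The number of classes. -/
theorem countD4 {q : ℕ} (φ : K ≃+* K) (hq : ∀ x, φ x = x ^ q) (hφ : ∀ x, φ (φ (φ x)) = x) (hK : Fintype.card K = q ^ 3) :
    (ConjClasses.mk '' {g : ↥(twD4 φ).fix | orderOf g = 2}).ncard = 2 := by
  haveI : Fact (Nat.Prime 2) := ⟨Nat.prime_two⟩
  have hAf : repA K ∈ (twD4 φ).fix := by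
    have h1 := yA_fix φ hφ 1
    have e : yA φ 1 = repA K := by
      unfold yA repA
      simp only [map_one, hD4.xL_cons, hD4.xL_nil, hD4.gW_cons, hD4.gW_nil]
    rwa [e] at h1
  have h23 : 23 < chevD4.nroots := by decide +kernel
  have hBe : repB K = hD4.xN 23 1 := by
    unfold repB
    simp only [hD4.xL_cons, hD4.xL_nil, mul_one]
  have hBf : repB K ∈ (twD4 φ).fix := by
    rw [hBe]
    exact ⟨hD4.xN_mem _ _, by rw [sigN φ h23 (by decide +kernel), map_one]⟩
  have hrA : ((repA K : GL chevD4.Idx K) : Matrix chevD4.Idx chevD4.Idx K) - 1 = mL chevD4 K [18, 13, 12] := (hD4.mL_eq _).symm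
  have hrB : ((repB K : GL chevD4.Idx K) : Matrix chevD4.Idx chevD4.Idx K) - 1 = mL chevD4 K [23] := (hD4.mL_eq _).symm
  have hsA : repA K * repA K = 1 := hD4.xL_sq tfD4 (by decide +kernel) (by decide +kernel)
  have hsB : repB K * repB K = 1 := hD4.xL_sq tfD4 (by decide +kernel) (by decide +kernel)
  have hneA : repA K ≠ 1 := by
    intro h
    have h1 := rankD41 (F := K)
    rw [← hrA, h] at h1
    simp at h1
  have hneB : repB K ≠ 1 := by
    intro h
    have h1 := rankD40 (F := K)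
    rw [← hrB, h] at h1
    simp at h1
  refine ncard_two (⟨repA K, hAf⟩ : ↥(twD4 φ).fix) ⟨repB K, hBf⟩ ?_ ?_ ?_ ?_
  · rw [← Subgroup.orderOf_coe]
    exact orderOf_eq_prime (by rw [pow_two]; exact hsA) hneA
  · rw [← Subgroup.orderOf_coe]
    exact orderOf_eq_prime (by rw [pow_two]; exact hsB) hneB
  · intro hc
    obtain ⟨c, hc⟩ := isConj_iff.1 hc
    have h2 := congrArg Subtype.val hc
    simp only [Subgroup.coe_mul, InvMemClass.coe_inv] at h2
    have h3 := rank_conj_sub_one (c : GL chevD4.Idx K) (repA K)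
    rw [h2, hrA, hrB, rankD40, rankD41] at h3
    omega
  · intro g hg
    have hg' : orderOf (g : GL chevD4.Idx K) = 2 := by
      rw [Subgroup.orderOf_coe]
      exact hg
    have h1 : (g : GL chevD4.Idx K) * g = 1 := by
      rw [← pow_two, ← hg']
      exact pow_orderOf_eq_one _
    have h2 : (g : GL chevD4.Idx K) ≠ 1 := by
      intro h3
      rw [h3] at hg'
      simp at hg'
    obtain ⟨h, hh, hU⟩ := exists_conj_U_D4 φ hq hφ hK g.2 h1
    have hfix : h * g * h⁻¹ ∈ (twD4 φ).fix := Subgroup.mul_mem _ (Subgroup.mul_mem _ hh g.2) (Subgroup.inv_mem _ hh)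
    obtain ⟨h', hh', e⟩ := classU φ hφ hU hfix (sq_conj h1) (by
      intro h3
      apply h2
      have := congrArg (fun a => h⁻¹ * a * h) h3
      simpa [mul_assoc] using this)
    have e' : h' * h * g * (h' * h)⁻¹ = h' * (h * g * h⁻¹) * h'⁻¹ := by group
    rcases e with e | e
    · left
      apply IsConj.symm
      apply isConj_iff.2
      refine ⟨⟨h' * h, Subgroup.mul_mem _ hh' hh⟩, Subtype.ext ?_⟩
      simp only [Subgroup.coe_mul, InvMemClass.coe_inv]
      rw [e', e]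
    · right
      apply IsConj.symm
      apply isConj_iff.2
      refine ⟨⟨h' * h, Subgroup.mul_mem _ hh' hh⟩, Subtype.ext ?_⟩
      simp only [Subgroup.coe_mul, InvMemClass.coe_inv]
      rw [e', e]

end

end Cfsg.Agent.Lib.Chev
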